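import Cfsg.Agent.H381.Car.Wp

/-!
# A central involution of a Carter subgroup in a coset of a `p`-subgroup (helper502, S3852)
-/

set_option autoImplicit false
set_option linter.unusedSectionVars false

namespace Cfsg.Agent.H502.Car

open Subgroup Pointwise Cfsg.Agent.Solvable.Carter Cfsg.Agent.H18.Carter Cfsg.Agent.H381.Car

universe u

section

variable {G : Type u} [Group G] [Finite G]

/-- in a nilpotent group a `2`-element whose commutator with `k` is a `p`-element commutes with `k` -/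
theorem conj_eq_of_nilpotent {K U : Subgroup G} (hK : Group.IsNilpotent K) {l p : ℕ} [hl : Fact l.Prime]
    [hp : Fact p.Prime] (hlp : l ≠ p) (hU : IsPGroup p U) {x k : G} (hx : x ∈ K) (hk : k ∈ K) {n : ℕ}
    (hxn : x ^ l ^ n = 1) (hc : x⁻¹ * (k * x * k⁻¹) ∈ U) : k * x * k⁻¹ = x := by
  haveI := hK
  have h1 : IsPGroup l (zpowers (⟨x, hx⟩ : K)) := by
    rintro ⟨y, hy⟩
    obtain ⟨i, rfl⟩ := mem_zpowers_iff.1 hy
    refine ⟨n, ?_⟩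
    apply Subtype.ext
    apply Subtype.ext
    show (x ^ i) ^ l ^ n = 1
    rw [← zpow_natCast, ← zpow_mul, mul_comm, zpow_mul, zpow_natCast, hxn, one_zpow]
  obtain ⟨P, hP⟩ := h1.exists_le_sylow
  have hPn : (P : Subgroup K).Normal := by
    have h := ((Group.isNilpotent_of_finite_tfae (G := K)).out 0 3).mp hK
    exact h l hl P
  have h2 : (⟨x, hx⟩ : K) ∈ (P : Subgroup K) := hP (mem_zpowers _)
  have h3 : (⟨x, hx⟩ : K)⁻¹ * (⟨k, hk⟩ * ⟨x, hx⟩ * (⟨k, hk⟩ : K)⁻¹) ∈ (P : Subgroup K) :=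
    mul_mem (inv_mem h2) (hPn.conj_mem _ h2 _)
  obtain ⟨a, ha⟩ := P.2 ⟨_, h3⟩
  have ha' : (x⁻¹ * (k * x * k⁻¹)) ^ l ^ a = 1 := congrArg (fun y => ((y : K) : G)) (congrArg Subtype.val ha)
  obtain ⟨b, hb⟩ := hU ⟨_, hc⟩
  have hb' : (x⁻¹ * (k * x * k⁻¹)) ^ p ^ b = 1 := congrArg Subtype.val hb
  have h4 : Nat.Coprime (l ^ a) (p ^ b) :=
    Nat.Coprime.pow _ _ ((Nat.coprime_primes hl.out hp.out).2 hlp)
  have h5 : orderOf (x⁻¹ * (k * x * k⁻¹)) ∣ Nat.gcd (l ^ a) (p ^ b) :=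
    Nat.dvd_gcd (orderOf_dvd_of_pow_eq_one ha') (orderOf_dvd_of_pow_eq_one hb')
  rw [h4] at h5
  have h6 : x⁻¹ * (k * x * k⁻¹) = 1 := by
    rw [← orderOf_eq_one_iff]; exact Nat.dvd_one.1 h5
  rw [inv_mul_eq_one] at h6
  exact h6.symm

/-- `t² ∈ U`, `[t, K] ≤ U`, `U` a `K`-invariant `p`-group: there is an involution (or `1`) in `t U` centralised by `K`. -/
theorem exists_inv {K U : Subgroup G} (hK : IsCarter K) {p : ℕ} [hp : Fact p.Prime] (hp2 : p ≠ 2)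
    (hU : IsPGroup p U) (hKU : K ≤ normalizer (U : Set G)) (hCC : CC ↥(K ⊔ U)) {t : G}
    (htU : t ∈ normalizer (U : Set G)) (ht2 : t * t ∈ U) (hc : ∀ k ∈ K, t * k * t⁻¹ * k⁻¹ ∈ U) :
    ∃ x ∈ K, x * x = 1 ∧ t⁻¹ * x ∈ U ∧ ∀ k ∈ K, k * x * k⁻¹ = x := by
  haveI : Fact (Nat.Prime 2) := ⟨Nat.prime_two⟩
  have ht : t ∈ K ⊔ U := w_principle_of hCC hK htU hc
  have ht' : t ∈ ((K ⊔ U : Subgroup G) : Set G) := ht
  rw [coe_mul_of_left_le_normalizer_right K U hKU] at ht'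
  obtain ⟨y, hy, u, hu, e⟩ := ht'
  have hyt : t⁻¹ * y ∈ U := by
    have e1 : t⁻¹ * y = u⁻¹ := by rw [← e]; group
    rw [e1]; exact inv_mem hu
  -- the powers of `y`
  have hN : ∀ n : ℕ, (t ^ n)⁻¹ * y ^ n ∈ U := by
    intro n
    induction n with
    | zero => simp
    | succ n ih =>
      have e1 : (t ^ (n + 1))⁻¹ * y ^ (n + 1) = (t⁻¹ * ((t ^ n)⁻¹ * y ^ n) * t⁻¹⁻¹) * (t⁻¹ * y) := by
        rw [pow_succ t, pow_succ y, mul_inv_rev]; group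
      rw [e1]
      refine mul_mem ?_ hyt
      exact (mem_normalizer_iff.1 (inv_mem htU) _).1 ih
  have ht2n : ∀ n : ℕ, (t * t) ^ n ∈ U := fun n => pow_mem ht2 n
  have hy2 : y * y ∈ U := by
    have h1 := hN 2
    rw [pow_two, pow_two] at h1
    have e1 : y * y = (t * t) * ((t * t)⁻¹ * (y * y)) := by group
    rw [e1]; exact mul_mem ht2 h1
  obtain ⟨n, hn⟩ := hU ⟨_, hy2⟩
  have hn' : (y * y) ^ p ^ n = 1 := congrArg Subtype.val hn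
  have hodd : Odd (p ^ n) := (hp.out.odd_of_ne_two hp2).pow
  obtain ⟨m, hm⟩ := hodd
  have hx2 : y ^ p ^ n * y ^ p ^ n = 1 := by
    rw [← hn', ← pow_two, ← pow_two, ← pow_mul, ← pow_mul, mul_comm]
  have hxU : t⁻¹ * y ^ p ^ n ∈ U := by
    have e1 : t⁻¹ * y ^ p ^ n = (t * t) ^ m * ((t ^ p ^ n)⁻¹ * y ^ p ^ n) := by
      rw [hm, ← pow_two, ← pow_mul, ← mul_assoc]
      congr 1
      rw [eq_mul_inv_iff_mul_eq, pow_succ', inv_mul_cancel_left]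
    rw [e1]
    exact mul_mem (ht2n m) (hN _)
  refine ⟨y ^ p ^ n, pow_mem hy _, hx2, hxU, fun k hk => ?_⟩
  refine conj_eq_of_nilpotent (l := 2) (n := 1) hK.1 (Ne.symm hp2) hU (pow_mem hy _) hk
    (by rw [pow_one, pow_two]; exact hx2) ?_
  -- `x⁻¹ k x k⁻¹ ∈ U`
  obtain ⟨x, hx⟩ : ∃ x, x = y ^ p ^ n := ⟨_, rfl⟩
  rw [← hx] at hxU ⊢
  have hk' : k ∈ normalizer (U : Set G) := hKU hk
  have h1 : k * (t⁻¹ * x) * k⁻¹ ∈ U := (mem_normalizer_iff.1 hk' _).1 hxU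
  have h2 : t * k * t⁻¹ * k⁻¹ ∈ U := hc k hk
  have e1 : x⁻¹ * (k * x * k⁻¹) = (t⁻¹ * x)⁻¹ * ((t⁻¹ * (t * k * t⁻¹ * k⁻¹)⁻¹ * t⁻¹⁻¹) * (k * (t⁻¹ * x) * k⁻¹)) := by
    group
  rw [e1]
  exact mul_mem (inv_mem hxU) (mul_mem ((mem_normalizer_iff.1 (inv_mem htU) _).1 (inv_mem h2)) h1)

end

end Cfsg.Agent.H502.Car
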