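import Cfsg.Agent.H502.Car.Lift

/-!
# `K`-invariant chains of totally singular subspaces and involutions of `Ω` (helper502, S3852)

* `Ac Q W R a b g` : `g = a` on `W`, `g = b` on `R / W`, `g = 1` on `R^⊥ / R` (`a`, `b` signs);
* `exists_ac` : such `g ∈ E Q` exist when the dimensions are even;
* `exists_fx` : for `K` Carter and `K`-invariant `W`, `R` there is such an involution commuting with all of `K`;
* `pt x z` : `z` on the `+1`-eigenspace of `x` and `1` on the `-1`-eigenspace;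
* `no_chain` : characteristic three.
-/

set_option autoImplicit false
set_option linter.unusedSectionVars false

namespace Cfsg.Agent.H502.Car

open QuadraticMap Cfsg.Agent.LieClassical.OrthCore Cfsg.Agent.LieClassical.OrthTrans
  Cfsg.Agent.LieClassical.OrthSimple Cfsg.Agent.ClassicalGeometry.OrthSemi
  Cfsg.Agent.ClassicalGeometry.OrthAut1 Cfsg.Agent.H989.OutOrth.Basic
open Subgroup Pointwise Cfsg.Agent.Solvable.Carter Cfsg.Agent.H18.Carter Cfsg.Agent.H381.Car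

universe u

section Ac

variable {F V : Type*} [Field F] [AddCommGroup V] [Module F V] {Q : QuadraticForm F V}

/-- `g = a` on `W`, `b` on `R / W`, `1` on `R^⊥ / R` -/
structure Ac (Q : QuadraticForm F V) (W R : Submodule F V) (a b : ℤˣ) (g : V ≃ₗ[F] V) : Prop where
  w : ∀ w ∈ W, g w = (a : ℤ) • w
  r : ∀ r ∈ R, g r - (b : ℤ) • r ∈ W
  p : ∀ v, (∀ r ∈ R, polar Q r v = 0) → g v - v ∈ R

theorem sgn_sq (a : ℤˣ) : (a : ℤ) * (a : ℤ) = 1 := by
  rcases Int.units_eq_one_or a with rfl | rfl <;> norm_num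

theorem sgn_smul_smul {A : Type*} [AddCommGroup A] (a : ℤˣ) (v : A) : (a : ℤ) • (a : ℤ) • v = v := by
  rw [smul_smul, sgn_sq, one_smul]

theorem zsmul_mem' {W : Submodule F V} (n : ℤ) {v : V} (hv : v ∈ W) : n • v ∈ W := by
  have : n • v = (n : F) • v := by rw [Int.cast_smul_eq_zsmul]
  rw [this]; exact W.smul_mem _ hv

variable {W R : Submodule F V}

theorem Ac.one (a : ℤˣ) : Ac Q W R 1 1 (1 : V ≃ₗ[F] V) := by
  have e : ∀ v : V, (1 : V ≃ₗ[F] V) v = v := fun _ => rfl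
  refine ⟨fun w _ => ?_, fun r _ => ?_, fun v _ => ?_⟩
  · rw [e, Units.val_one, one_smul]
  · rw [e, Units.val_one, one_smul, sub_self]; exact W.zero_mem
  · rw [e, sub_self]; exact R.zero_mem

theorem Ac.mul (hWR : W ≤ R) {a b a' b' : ℤˣ} {g g' : V ≃ₗ[F] V} (h : Ac Q W R a b g) (h' : Ac Q W R a' b' g') :
    Ac Q W R (a * a') (b * b') (g * g') := by
  refine ⟨fun w hw => ?_, fun r hr => ?_, fun v hv => ?_⟩
  · show g (g' w) = _
    rw [h'.w w hw, map_zsmul, h.w w hw, smul_smul, Units.val_mul, mul_comm]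
  · show g (g' r) - _ ∈ W
    have h1 := h'.r r hr
    have e : g (g' r) - ((b * b' : ℤˣ) : ℤ) • r = g (g' r - (b' : ℤ) • r) + (b' : ℤ) • (g r - (b : ℤ) • r) := by
      rw [map_sub, map_zsmul, smul_sub, smul_smul, Units.val_mul, mul_comm (b : ℤ)]
      abel
    rw [e, h.w _ h1]
    exact W.add_mem (zsmul_mem' _ h1) (zsmul_mem' _ (h.r r hr))
  · show g (g' v) - v ∈ R
    have h1 := h'.p v hv
    have e : g (g' v) - v = (g (g' v - v) - (b : ℤ) • (g' v - v)) + (b : ℤ) • (g' v - v) + (g v - v) := by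
      rw [map_sub]; abel
    rw [e]
    exact R.add_mem (R.add_mem (hWR (h.r _ h1)) (zsmul_mem' _ h1)) (h.p v hv)

theorem Ac.inv (hWR : W ≤ R) {a b : ℤˣ} {g : V ≃ₗ[F] V} (h : Ac Q W R a b g) : Ac Q W R a b g⁻¹ := by
  have e0 : ∀ v, g⁻¹ (g v) = v := fun v => g.symm_apply_apply v
  have hw : ∀ w ∈ W, g⁻¹ w = (a : ℤ) • w := by
    intro w hw
    have h1 : g ((a : ℤ) • w) = w := by rw [map_zsmul, h.w w hw, sgn_smul_smul]
    conv_lhs => rw [← h1, e0]
  have hr : ∀ r ∈ R, g⁻¹ r - (b : ℤ) • r ∈ W := by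
    intro r hr
    have h1 := h.r r hr
    have h2 := hw _ h1
    rw [map_sub, map_zsmul, e0] at h2
    have e : g⁻¹ r - (b : ℤ) • r = -((b : ℤ) • (r - (b : ℤ) • g⁻¹ r)) := by
      rw [smul_sub, sgn_smul_smul]; abel
    rw [e, h2]
    exact W.neg_mem (zsmul_mem' _ (zsmul_mem' _ h1))
  refine ⟨hw, hr, fun v hv => ?_⟩
  have h1 := h.p v hv
  have e : g⁻¹ v - v = -(g⁻¹ (g v - v)) := by rw [map_sub, e0]; abel
  rw [e]
  have e2 : g⁻¹ (g v - v) = (g⁻¹ (g v - v) - (b : ℤ) • (g v - v)) + (b : ℤ) • (g v - v) := by abel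
  rw [e2]
  exact R.neg_mem (R.add_mem (hWR (hr _ h1)) (zsmul_mem' _ h1))

theorem gam_zsmul (M : Gam Q) (n : ℤ) (v : V) : M.1 (n • v) = n • M.1 v := by
  let f : V →+ V := ⟨⟨M.1, by
    obtain ⟨σ, c, hM⟩ := M.2
    exact hM.map_zero⟩, add_of_mem M.2⟩
  exact map_zsmul f n v

theorem gam_sub (M : Gam Q) (u v : V) : M.1 (u - v) = M.1 u - M.1 v := by
  obtain ⟨σ, c, hM⟩ := M.2
  exact hM.sub u v

theorem Ac.conj {a b : ℤˣ} {g : V ≃ₗ[F] V} (h : Ac Q W R a b g) (M : Gam Q) (hW : ∀ v, M.1 v ∈ W ↔ v ∈ W)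
    (hR : ∀ v, M.1 v ∈ R ↔ v ∈ R) : Ac Q W R a b (conjLin M g) := by
  refine ⟨fun w hw => ?_, fun r hr => ?_, fun v hv => ?_⟩
  · obtain ⟨w, rfl⟩ := M.1.surjective w
    rw [conjLin_apply', h.w w ((hW w).1 hw), gam_zsmul]
  · obtain ⟨r, rfl⟩ := M.1.surjective r
    rw [conjLin_apply', ← gam_zsmul, ← gam_sub, hW]
    exact h.r r ((hR r).1 hr)
  · obtain ⟨v, rfl⟩ := M.1.surjective v
    rw [conjLin_apply', ← gam_sub, hR]
    refine h.p v fun r hr => ?_
    have h1 := hv (M.1 r) ((hR r).2 hr)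
    obtain ⟨σ, c, hM⟩ := M.2
    rw [hM.polar] at h1
    rcases mul_eq_zero.1 h1 with h2 | h2
    · exact absurd h2 hM.ne
    · exact (map_eq_zero_iff σ σ.injective).1 h2

/-- elements of `E Q` acting as the given signs -/
theorem exists_ac [FiniteDimensional F V] (hG : Good Q) (hR : Ts Q R) (hWR : W ≤ R) {a b : ℤˣ}
    (ha : a = 1 ∨ Even (Module.finrank F W)) (hb : b = 1 ∨ Even (Module.finrank F R - Module.finrank F W)) :
    ∃ t : ↥(E Q), Ac Q W R a b t.1 := by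
  obtain ⟨W', hW'⟩ : ∃ W' : Submodule F R, W' = W.comap R.subtype := ⟨_, rfl⟩
  obtain ⟨C, hC⟩ := Submodule.exists_isCompl W'
  obtain ⟨π, hπ⟩ : ∃ π : R →ₗ[F] R, (∀ r, π r ∈ W') ∧ ∀ r ∈ W', π r = r := by
    refine ⟨W'.subtype.comp (Submodule.linearProjOfIsCompl W' C hC), fun r => (Submodule.linearProjOfIsCompl W' C hC r).2,
      fun r hr => ?_⟩
    rw [LinearMap.comp_apply]
    have := Submodule.linearProjOfIsCompl_apply_left hC ⟨r, hr⟩
    exact congrArg Subtype.val this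
  obtain ⟨g, hg⟩ : ∃ g : R →ₗ[F] R, ∀ r, g r = ((b : ℤ) : F) • r + (((a : ℤ) : F) - ((b : ℤ) : F)) • π r :=
    ⟨((b : ℤ) : F) • LinearMap.id + (((a : ℤ) : F) - ((b : ℤ) : F)) • π, fun r => by
      rw [LinearMap.add_apply, LinearMap.smul_apply, LinearMap.smul_apply, LinearMap.id_apply]⟩
  have hgW : ∀ r ∈ W', g r = ((a : ℤ) : F) • r := by
    intro r hr
    rw [hg, hπ.2 r hr]; module
  have hle : W' ≤ W'.comap g := by
    intro r hr
    rw [Submodule.mem_comap, hgW r hr]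
    exact W'.smul_mem _ hr
  have hpow : ∀ (s : ℤˣ) (n : ℕ), (s = 1 ∨ Even n) → ((s : ℤ) : F) ^ n = 1 := by
    rintro s n (rfl | ⟨m, rfl⟩)
    · rw [Units.val_one, Int.cast_one, one_pow]
    · rw [← two_mul, pow_mul, pow_two, ← Int.cast_mul, sgn_sq, Int.cast_one, one_pow]
  have hfin : Module.finrank F W' = Module.finrank F W := by
    rw [hW']
    exact (Submodule.comapSubtypeEquivOfLe hWR).finrank_eq
  have hdet : LinearMap.det g = 1 * 1 := by
    rw [LinearMap.det_eq_det_mul_det W' g hle]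
    congr 1
    · have e : g.restrict hle = ((a : ℤ) : F) • LinearMap.id := by
        ext r
        rw [LinearMap.restrict_coe_apply, hgW _ r.2]; rfl
      rw [e, LinearMap.det_smul, LinearMap.det_id, mul_one, hfin, hpow _ _ ha]
    · have e : W'.mapQ W' g hle = ((b : ℤ) : F) • LinearMap.id := by
        ext r
        rw [LinearMap.comp_apply, LinearMap.comp_apply, Submodule.mkQ_apply, Submodule.mapQ_apply, hg]
        have h1 : (Submodule.Quotient.mk (((b : ℤ) : F) • r + (((a : ℤ) : F) - ((b : ℤ) : F)) • π r) : R ⧸ W') =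
            Submodule.Quotient.mk (((b : ℤ) : F) • r) := by
          rw [Submodule.Quotient.eq, add_sub_cancel_left]
          exact W'.smul_mem _ (hπ.1 r)
        rw [h1]; rfl
      have h2 : Module.finrank F (R ⧸ W') = Module.finrank F R - Module.finrank F W := by
        have := Submodule.finrank_quotient_add_finrank W'
        rw [hfin] at this; omega
      rw [e, LinearMap.det_smul, LinearMap.det_id, mul_one, h2, hpow _ _ hb]
  obtain ⟨t, ht, h1, h2⟩ := exists_lft hG hR g ⟨1, one_ne_zero, hdet⟩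
  refine ⟨⟨t, ht⟩, ?_, ?_, h2⟩
  · intro w hw
    have h3 := h1 ⟨w, hWR hw⟩
    rw [hgW ⟨w, hWR hw⟩ (by rw [hW']; exact hw)] at h3
    show t w = _
    rw [h3, Submodule.coe_smul, Int.cast_smul_eq_zsmul]
  · intro r hr
    have h3 := h1 ⟨r, hr⟩
    rw [hg] at h3
    show t r - _ ∈ W
    rw [h3, Submodule.coe_add, Submodule.coe_smul, Submodule.coe_smul]
    have h4 := hπ.1 ⟨r, hr⟩
    rw [hW'] at h4
    have h5 : ((π ⟨r, hr⟩ : R) : V) ∈ W := h4
    have e : ((b : ℤ) : F) • r + (((a : ℤ) : F) - ((b : ℤ) : F)) • ((π ⟨r, hr⟩ : R) : V) - (b : ℤ) • r =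
        (((a : ℤ) : F) - ((b : ℤ) : F)) • ((π ⟨r, hr⟩ : R) : V) := by
      rw [Int.cast_smul_eq_zsmul]; abel
    rw [e]
    exact W.smul_mem _ h5

/-- unipotent elements are `p`-elements -/
theorem pow_eq_one_of_unip {p : ℕ} [hp : Fact p.Prime] [CharP F p] [Nontrivial V] {g : V ≃ₗ[F] V} {n k : ℕ}
    (h : ((g : V →ₗ[F] V) - 1) ^ n = 0) (hn : n ≤ p ^ k) : g ^ p ^ k = 1 := by
  haveI : CharP (Module.End F V) p :=
    charP_of_injective_algebraMap (algebraMap F (Module.End F V)).injective p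
  have h4 : ((g : V →ₗ[F] V) - 1) ^ p ^ k = 0 := by
    obtain ⟨m, hm⟩ := Nat.exists_eq_add_of_le hn
    rw [hm, pow_add, h, zero_mul]
  have h6 : ((g : V →ₗ[F] V) - 1) ^ p ^ k = (g : V →ₗ[F] V) ^ p ^ k - 1 := by
    rw [sub_pow_char_pow_of_commute p k (Commute.one_right _), one_pow]
  rw [h6, sub_eq_zero] at h4
  have h7 : ∀ (n : ℕ) (v : V), ((g : V →ₗ[F] V) ^ n) v = (g ^ n) v := by
    intro n
    induction n with
    | zero => intro v; rfl
    | succ n ih =>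
      intro v
      rw [pow_succ, pow_succ]
      exact ih (g v)
  ext v
  rw [← h7, h4]
  rfl

theorem Ac.pow_eq_one {p : ℕ} [hp : Fact p.Prime] [CharP F p] [Nontrivial V] (hWR : W ≤ R) {g : V ≃ₗ[F] V}
    (hg : g ∈ O Q) (h : Ac Q W R 1 1 g) (hp2 : p ≠ 2) : g ^ p ^ 2 = 1 := by
  have hone : ∀ v : V, ((1 : ℤˣ) : ℤ) • v = v := fun v => by rw [Units.val_one, one_smul]
  have h2 : ∀ r ∈ R, g r - r ∈ W := fun r hr => by
    have := h.r r hr
    rwa [hone] at this
  have h3 : ∀ w ∈ W, g w = w := fun w hw => by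
    have := h.w w hw
    rwa [hone] at this
  have h2' : ∀ r ∈ R, g⁻¹ r - r ∈ W := fun r hr => by
    have := (h.inv hWR).r r hr
    rwa [hone] at this
  have h3' : ∀ w ∈ W, g⁻¹ w = w := fun w hw => by
    have := (h.inv hWR).w w hw
    rwa [hone] at this
  have hpol : ∀ x v, polar Q x (g v - v) = polar Q (g⁻¹ x - x) v := by
    intro x v
    rw [polar_sub_right, polar_sub_left]
    have h4 := polar_map ((O Q).inv_mem hg) x (g v)
    have h5 : g⁻¹ (g v) = v := g.symm_apply_apply v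
    rw [h5] at h4
    rw [← h4]
  have hN : ((g : V →ₗ[F] V) - 1) ^ 5 = 0 := by
    have e : ∀ v, ((g : V →ₗ[F] V) - 1) v = g v - v := fun v => rfl
    ext v
    show ((g : V →ₗ[F] V) - 1) (((g : V →ₗ[F] V) - 1) (((g : V →ₗ[F] V) - 1) (((g : V →ₗ[F] V) - 1)
      (((g : V →ₗ[F] V) - 1) v)))) = 0
    have h4 : ∀ w ∈ W, polar Q w (((g : V →ₗ[F] V) - 1) v) = 0 := by
      intro w hw
      rw [e, hpol, h3' w hw, sub_self, polar_zero_left]
    have h5 : ∀ r ∈ R, polar Q r (((g : V →ₗ[F] V) - 1) (((g : V →ₗ[F] V) - 1) v)) = 0 := by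
      intro r hr
      rw [e (((g : V →ₗ[F] V) - 1) v), hpol]
      exact h4 _ (h2' r hr)
    have h6 := h.p _ h5
    have h7 := h2 _ h6
    have h8 := h3 _ h7
    rw [e (((g : V →ₗ[F] V) - 1) (((g : V →ₗ[F] V) - 1) v)), e (g _ - _), e (g _ - _), h8, sub_self]
  refine pow_eq_one_of_unip hN ?_
  have h9 := hp.out.two_le
  have h10 : 3 ≤ p := by omega
  nlinarith

end Ac

section Fx

variable {F V : Type*} [Field F] [AddCommGroup V] [Module F V] {Q : QuadraticForm F V}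
variable {G : Type u} [Group G] [Finite G] {S : Subgroup G} [S.Normal] {W R : Submodule F V}

/-- the elements of `E Q` acting trivially on `W`, `R / W`, `R^⊥ / R` -/
def UU (Q : QuadraticForm F V) {W R : Submodule F V} (hWR : W ≤ R) : Subgroup ↥(E Q) where
  carrier := {g | Ac Q W R 1 1 g.1}
  one_mem' := Ac.one 1
  mul_mem' {g g'} h h' := by
    have := Ac.mul hWR h h'
    rw [mul_one] at this
    exact this
  inv_mem' {g} h := by
    have := Ac.inv hWR h
    exact this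

theorem mem_UU {hWR : W ≤ R} {g : ↥(E Q)} : g ∈ UU Q hWR ↔ Ac Q W R 1 1 g.1 := Iff.rfl

/-- **An involution of `Ω` commuting with `K`.** -/
theorem exists_fx [FiniteDimensional F V] (hG : Good Q) (c : Ctx G S) {K : Subgroup G} (hK : IsCarter K)
    (e : S ≃* P Q) (hs : ∀ g : G, ∃ M : Gam Q, Lf e g M) {p : ℕ} [hp : Fact p.Prime] [CharP F p] (hp2 : p ≠ 2)
    (hWR : W ≤ R) (hW0 : W ≠ ⊥) (hWK : Iv e K W) (hRK : Iv e K R) {a b : ℤˣ} {t : ↥(E Q)}
    (ht : Ac Q W R a b t.1) : ∃ x : ↥(E Q), x * x = 1 ∧ Ac Q W R a b x.1 ∧ Fx e K x := by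
  obtain ⟨w0, hw0, hw00⟩ := Submodule.exists_mem_ne_zero_of_ne_bot hW0
  have hnt : Nontrivial V := ⟨w0, 0, hw00⟩
  obtain ⟨U, hU⟩ : ∃ U : Subgroup G, U = (UU Q hWR).map (el e) := ⟨_, rfl⟩
  have hUU : ∀ {x y : ↥(E Q)}, Ac Q W R a b x.1 → Ac Q W R a b y.1 → x⁻¹ * y ∈ UU Q hWR := by
    intro x y hx hy
    have h1 := Ac.mul hWR (Ac.inv hWR hx) hy
    rw [Int.units_mul_self, Int.units_mul_self] at h1
    exact h1
  have hconj : ∀ {a b : ℤˣ} {x : ↥(E Q)}, Ac Q W R a b x.1 → ∀ k ∈ K, ∀ M : Gam Q, Lf e k M →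
      Ac Q W R a b (conjE Q M x).1 := by
    intro a b x hx k hk M hM
    exact hx.conj M (fun v => hWK.mem_iff hk hM) (fun v => hRK.mem_iff hk hM)
  -- `U` is a `K`-invariant `p`-group
  have hUp : IsPGroup p U := by
    rw [hU]
    rintro ⟨_, x, hx, rfl⟩
    refine ⟨2, Subtype.ext ?_⟩
    have h1 := Ac.pow_eq_one hWR (E_le_O x.2) (mem_UU.1 hx) hp2 (p := p)
    have h2 : x ^ p ^ 2 = 1 := Subtype.ext h1
    show el e x ^ p ^ 2 = 1
    rw [← map_pow, h2, map_one]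
  have hKU' : ∀ k ∈ K, ∀ u ∈ U, k * u * k⁻¹ ∈ U := by
    intro k hk u hu
    rw [hU] at hu ⊢
    obtain ⟨x, hx, rfl⟩ := hu
    obtain ⟨M, hM⟩ := hs k
    rw [hM.conj]
    exact ⟨_, hconj hx k hk M hM, rfl⟩
  have hKU : K ≤ normalizer (U : Set G) := by
    intro k hk
    rw [mem_normalizer_iff]
    intro u
    refine ⟨hKU' k hk u, fun h => ?_⟩
    have := hKU' k⁻¹ (inv_mem hk) _ h
    have e1 : k⁻¹ * (k * u * k⁻¹) * k⁻¹⁻¹ = u := by group
    rwa [e1] at this
  -- `K U` is proper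
  have hne : K ⊔ U ≠ ⊤ := by
    intro h1
    by_cases hb : U = ⊥
    · rw [hb, sup_bot_eq] at h1
      apply c.S_not_solvable
      have h2 : Group.IsNilpotent K := hK.1
      have h3 : S ≤ K := by rw [h1]; exact le_top
      exact Group.isSolvable_of_isSolvable_injective (f := inclusion h3) (inclusion_injective _)
    · have h2 : Group.IsNilpotent U := hUp.isNilpotent
      apply c.norm_ne_top hb inferInstance
      rw [eq_top_iff, ← h1]
      exact sup_le hKU le_normalizer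
  -- `t`
  have htn : ∀ u ∈ U, el e t * u * (el e t)⁻¹ ∈ U := by
    intro u hu
    rw [hU] at hu ⊢
    obtain ⟨x, hx, rfl⟩ := hu
    refine ⟨t * x * t⁻¹, ?_, by rw [map_mul, map_mul, map_inv]⟩
    have h1 := Ac.mul hWR (Ac.mul hWR ht (mem_UU.1 hx)) (Ac.inv hWR ht)
    rw [mul_one, mul_one, Int.units_mul_self, Int.units_mul_self] at h1
    exact h1
  have htn' : ∀ u ∈ U, (el e t)⁻¹ * u * (el e t)⁻¹⁻¹ ∈ U := by
    intro u hu
    rw [hU] at hu ⊢
    obtain ⟨x, hx, rfl⟩ := hu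
    refine ⟨t⁻¹ * x * t⁻¹⁻¹, ?_, by rw [map_mul, map_mul, map_inv, map_inv, map_inv]⟩
    have h1 := Ac.mul hWR (Ac.mul hWR (Ac.inv hWR ht) (mem_UU.1 hx)) (Ac.inv hWR (Ac.inv hWR ht))
    rw [mul_one, mul_one, Int.units_mul_self, Int.units_mul_self] at h1
    exact h1
  have htU : el e t ∈ normalizer (U : Set G) := by
    rw [mem_normalizer_iff]
    intro u
    refine ⟨htn u, fun h => ?_⟩
    have := htn' _ h
    have e1 : (el e t)⁻¹ * (el e t * u * (el e t)⁻¹) * (el e t)⁻¹⁻¹ = u := by group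
    rwa [e1] at this
  have ht2 : el e t * el e t ∈ U := by
    rw [hU]
    refine ⟨t * t, ?_, by rw [map_mul]⟩
    have h1 := Ac.mul hWR ht ht
    rw [Int.units_mul_self, Int.units_mul_self] at h1
    exact h1
  have htc : ∀ k ∈ K, el e t * k * (el e t)⁻¹ * k⁻¹ ∈ U := by
    intro k hk
    obtain ⟨M, hM⟩ := hs k
    have h1 : el e t * k * (el e t)⁻¹ * k⁻¹ = el e (t * (conjE Q M t)⁻¹) := by
      rw [map_mul, map_inv, ← hM.conj]; group
    rw [h1, hU]
    refine ⟨_, ?_, rfl⟩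
    have h2 := Ac.mul hWR ht (Ac.inv hWR (hconj ht k hk M hM))
    rw [Int.units_mul_self, Int.units_mul_self] at h2
    exact h2
  obtain ⟨x, hxK, hx2, hxU, hxc⟩ := exists_inv hK hp2 hUp hKU (c.sub hne) htU ht2 htc
  rw [hU] at hxU
  obtain ⟨u, hu, hue⟩ := hxU
  have hx : x = el e (t * u) := by rw [map_mul, hue]; group
  have hAc : Ac Q W R a b (t * u).1 := by
    have := Ac.mul hWR ht (mem_UU.1 hu)
    rw [mul_one, mul_one] at this
    exact this
  -- scalars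
  have hsc : ∀ {y : ↥(E Q)}, y ∈ center ↥(E Q) → y.1 w0 = w0 → y = 1 := by
    intro y hy h1
    obtain ⟨d, -, hd⟩ := center_cases hG hy
    rw [hd] at h1
    have h2 : (d - 1) • w0 = 0 := by rw [sub_smul, h1, one_smul, sub_self]
    rcases smul_eq_zero.1 h2 with h3 | h3
    · apply Subtype.ext
      ext v
      rw [hd, sub_eq_zero.1 h3, one_smul]; rfl
    · exact absurd h3 hw00
  refine ⟨t * u, ?_, hAc, ?_⟩
  · apply hsc
    · rw [← el_eq_one_iff e, map_mul, ← hx, hx2]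
    · show (t * u).1 ((t * u).1 w0) = w0
      rw [hAc.w w0 hw0, map_zsmul, hAc.w w0 hw0, sgn_smul_smul]
  · intro k hk M hM
    have h1 := hxc k hk
    rw [hx, hM.conj] at h1
    have h2 := hconj hAc k hk M hM
    have h3 : (t * u)⁻¹ * conjE Q M (t * u) = 1 := by
      apply hsc
      · rw [← el_eq_one_iff e, map_mul, map_inv, h1, inv_mul_cancel]
      · have h4 := hUU hAc h2
        have h5 := (mem_UU.1 h4).w w0 hw0
        rw [Units.val_one, one_smul] at h5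
        exact h5
    rw [inv_mul_eq_one] at h3
    exact h3.symm

end Fx

/-! ### `z` on the `+1`-eigenspace of `x`, `1` on the `-1`-eigenspace -/

section Pt

variable {F V : Type*} [Field F] [AddCommGroup V] [Module F V] {Q : QuadraticForm F V}

/-- `z` on the `+1`-eigenspace of `x`, `1` on the `-1`-eigenspace -/
def ptLin (x z : V ≃ₗ[F] V) : V →ₗ[F] V :=
  (2 : F)⁻¹ • ((z : V →ₗ[F] V).comp (LinearMap.id + (x : V →ₗ[F] V)) + (LinearMap.id - (x : V →ₗ[F] V)))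

theorem ptLin_apply (x z : V ≃ₗ[F] V) (v : V) :
    ptLin x z v = (2 : F)⁻¹ • (z (v + x v) + (v - x v)) := rfl

theorem ptLin_plus (h2 : (2 : F) ≠ 0) {x z : V ≃ₗ[F] V} {v : V} (h : x v = v) : ptLin x z v = z v := by
  rw [ptLin_apply, h, sub_self, add_zero, ← two_smul F v, map_smul, smul_smul, inv_mul_cancel₀ h2, one_smul]

theorem ptLin_minus (h2 : (2 : F) ≠ 0) {x z : V ≃ₗ[F] V} {v : V} (h : x v = -v) : ptLin x z v = v := by
  rw [ptLin_apply, h, add_neg_cancel, map_zero, zero_add, sub_neg_eq_add, ← two_smul F v, smul_smul,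
    inv_mul_cancel₀ h2, one_smul]

theorem decomp (h2 : (2 : F) ≠ 0) {x : V ≃ₗ[F] V} (hx : x * x = 1) (v : V) :
    ∃ a b, v = a + b ∧ x a = a ∧ x b = -b := by
  have hxx : ∀ v, x (x v) = v := fun v => by
    have := LinearEquiv.congr_fun hx v
    exact this
  refine ⟨(2 : F)⁻¹ • (v + x v), (2 : F)⁻¹ • (v - x v), ?_, ?_, ?_⟩
  · rw [← smul_add]
    have : v + x v + (v - x v) = (2 : F) • v := by module
    rw [this, smul_smul, inv_mul_cancel₀ h2, one_smul]
  · rw [map_smul, map_add, hxx, add_comm]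
  · rw [map_smul, map_sub, hxx, ← smul_neg, neg_sub]

theorem ptLin_comp (h2 : (2 : F) ≠ 0) {x z z' : V ≃ₗ[F] V} (hx : x * x = 1) (hc : ∀ v, x (z' v) = z' (x v)) (v : V) :
    ptLin x z (ptLin x z' v) = ptLin x (z * z') v := by
  obtain ⟨a, b, rfl, ha, hb⟩ := decomp h2 hx v
  have h1 : x (z' a) = z' a := by rw [hc, ha]
  rw [map_add, ptLin_plus h2 ha, ptLin_minus h2 hb, map_add, ptLin_plus h2 h1, ptLin_minus h2 hb, map_add,
    ptLin_plus h2 ha, ptLin_minus h2 hb]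
  rfl

/-- the linear equivalence -/
def pt (h2 : (2 : F) ≠ 0) (x z : V ≃ₗ[F] V) (hx : x * x = 1) (hc : ∀ v, x (z v) = z (x v)) : V ≃ₗ[F] V :=
  LinearEquiv.ofLinearMap (ptLin x z) (ptLin x z⁻¹)
    (by
      have hc' : ∀ v, x (z⁻¹ v) = z⁻¹ (x v) := fun v => by
        apply z.injective
        have e1 : z (z⁻¹ (x v)) = x v := z.apply_symm_apply _
        rw [e1, ← hc]
        congr 1
        exact z.apply_symm_apply v
      ext v
      rw [LinearMap.comp_apply, ptLin_comp h2 hx hc', mul_inv_cancel]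
      obtain ⟨a, b, rfl, ha, hb⟩ := decomp h2 hx v
      rw [map_add, ptLin_plus h2 ha, ptLin_minus h2 hb]; rfl)
    (by
      ext v
      rw [LinearMap.comp_apply, ptLin_comp h2 hx hc, inv_mul_cancel]
      obtain ⟨a, b, rfl, ha, hb⟩ := decomp h2 hx v
      rw [map_add, ptLin_plus h2 ha, ptLin_minus h2 hb]; rfl)

theorem pt_plus (h2 : (2 : F) ≠ 0) {x z : V ≃ₗ[F] V} (hx : x * x = 1) (hc : ∀ v, x (z v) = z (x v)) {v : V}
    (h : x v = v) : pt h2 x z hx hc v = z v := ptLin_plus h2 h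

theorem pt_minus (h2 : (2 : F) ≠ 0) {x z : V ≃ₗ[F] V} (hx : x * x = 1) (hc : ∀ v, x (z v) = z (x v)) {v : V}
    (h : x v = -v) : pt h2 x z hx hc v = v := ptLin_minus h2 h

theorem pt_pow (h2 : (2 : F) ≠ 0) {x z : V ≃ₗ[F] V} (hx : x * x = 1) (hc : ∀ v, x (z v) = z (x v)) (n : ℕ)
    (hn : z ^ n = 1) : pt h2 x z hx hc ^ n = 1 := by
  have key : ∀ (n : ℕ) (a b : V), x a = a → x b = -b → (pt h2 x z hx hc ^ n) (a + b) = (z ^ n) a + b := by
    intro n
    induction n with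
    | zero => intro a b _ _; rfl
    | succ n ih =>
      intro a b ha hb
      rw [pow_succ, pow_succ]
      show (pt h2 x z hx hc ^ n) (pt h2 x z hx hc (a + b)) = (z ^ n) (z a) + b
      rw [map_add, pt_plus h2 hx hc ha, pt_minus h2 hx hc hb, ih _ _ (by rw [hc, ha]) hb]
  ext v
  obtain ⟨a, b, rfl, ha, hb⟩ := decomp h2 hx v
  rw [key n a b ha hb, hn]
  rfl

theorem pt_mem_O (h2 : (2 : F) ≠ 0) {x z : V ≃ₗ[F] V} (hx : x * x = 1) (hc : ∀ v, x (z v) = z (x v))
    (hxO : x ∈ O Q) (hzO : z ∈ O Q) : pt h2 x z hx hc ∈ O Q := by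
  have hperp : ∀ a b, x a = a → x b = -b → polar Q a b = 0 := by
    intro a b ha hb
    have h1 := polar_map hxO a b
    rw [ha, hb, polar_neg_right] at h1
    have h3 : (2 : F) * polar Q a b = 0 := by linear_combination -h1
    exact (mul_eq_zero.1 h3).resolve_left h2
  intro v
  obtain ⟨a, b, rfl, ha, hb⟩ := decomp h2 hx v
  rw [map_add, pt_plus h2 hx hc ha, pt_minus h2 hx hc hb, Q_add, Q_add, mem_O.1 hzO, hperp a b ha hb,
    hperp _ b (by rw [hc, ha]) hb]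

theorem conjLin_pt (h2 : (2 : F) ≠ 0) {x z : V ≃ₗ[F] V} (hx : x * x = 1) (hc : ∀ v, x (z v) = z (x v)) (M : Gam Q)
    (h1 : conjLin M x = x) (h3 : conjLin M z = z) : conjLin M (pt h2 x z hx hc) = pt h2 x z hx hc := by
  have hMx : ∀ v, M.1 (x v) = x (M.1 v) := fun v => by rw [← conjLin_apply' M x, h1]
  have hMz : ∀ v, M.1 (z v) = z (M.1 v) := fun v => by rw [← conjLin_apply' M z, h3]
  ext v
  obtain ⟨v, rfl⟩ := M.1.surjective v
  obtain ⟨a, b, rfl, ha, hb⟩ := decomp h2 hx v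
  have ha' : x (M.1 a) = M.1 a := by rw [← hMx, ha]
  have hb' : x (M.1 b) = -M.1 b := by
    rw [← hMx, hb]
    have := gam_zsmul M (-1) b
    rwa [neg_one_smul, neg_one_smul] at this
  rw [conjLin_apply', map_add, pt_plus h2 hx hc ha, pt_minus h2 hx hc hb, add_of_mem M.2, add_of_mem M.2, map_add,
    pt_plus h2 hx hc ha', pt_minus h2 hx hc hb', hMz]

end Pt

end Cfsg.Agent.H502.Car
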