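import Cfsg.Agent.H502.Car.Kill

/-!
# S3852, orthogonal groups in odd characteristic: the statements of the open blocks (helper502)

Notation: `H502/Car/Lift.lean` (`P Q = E Q / Z(E Q)`, `Lf e g M`, `el`, `Fx`, `Iv`).
-/

set_option autoImplicit false

namespace Cfsg.Agent.H502.Car

open QuadraticMap Cfsg.Agent.LieClassical.OrthCore Cfsg.Agent.LieClassical.OrthTrans
  Cfsg.Agent.LieClassical.OrthSimple Cfsg.Agent.ClassicalGeometry.OrthSemi
  Cfsg.Agent.ClassicalGeometry.OrthAut1 Cfsg.Agent.H989.OutOrth.Basic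
open Subgroup Pointwise Cfsg.Agent.Solvable.Carter Cfsg.Agent.H18.Carter Cfsg.Agent.H381.Car

universe u

/-- (FRAME-O) `z` of odd prime order with `z² - a z + 1 = 0`, fixed by the Carter subgroup `K`, `dim V = 2 m`, `m` not a
power of two: there is an isometry `x` of order two, `x ≠ ± 1`, commuting with `z` and with all lifts of elements of `K`.
(`E = F[z]`, `V = E^m`, `TA (C_G(z)) (Fin m) E`, helper308's `claim1`, `x = 2 e - 1`.) -/
def FrameO : Prop :=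
  ∀ (F : Type) [Field F] [Finite F] (ι : Type) [Fintype ι] [DecidableEq ι] (Q : QuadraticForm F (ι → F)), Good Q →
    (2 : F) ≠ 0 → ∀ (G : Type u) [Group G] [Finite G] (S : Subgroup G) [S.Normal], Ctx G S →
    ∀ (K : Subgroup G), IsCarter K → ∀ (e : S ≃* P Q), (∀ g : G, ∃ M : Gam Q, Lf e g M) →
    ∀ (z : ↥(E Q)) (r : ℕ), r.Prime → r ≠ 2 → z ^ r = 1 → z ≠ 1 → Fx e K z →
    ∀ (a : F), (∀ v, z.1 (z.1 v) = a • z.1 v - v) → a * a ≠ 4 →
    ∀ (m : ℕ), Fintype.card ι = 2 * m → (¬ ∃ k : ℕ, m = 2 ^ k) → m ≠ 0 →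
    ∃ x : (ι → F) ≃ₗ[F] (ι → F), x ∈ O Q ∧ x * x = 1 ∧ (∃ v, v ≠ 0 ∧ x v = v) ∧ (∃ v, v ≠ 0 ∧ x v = -v) ∧
      (∀ v, x (z.1 v) = z.1 (x v)) ∧ ∀ k ∈ K, ∀ M : Gam Q, Lf e k M → conjLin M x = x

/-- (FRAME-TS) `R` totally singular, `K`-invariant, `dim R = 2 b`, `b` odd, `b ≥ 3`: there is a `K`-invariant subspace
`0 < W < R` of even dimension.
(`Γ` = the image of the stabiliser of `R` in `PΓL(R)`, acting on `Matrix (Fin (2 b)) (Fin (2 b)) (F × F)`; `exists_lft`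
of `H502/Car/Torus` lifts `SL(R)`; helper308's `claim2`.) -/
def FrameTs : Prop :=
  ∀ (F : Type) [Field F] [Finite F] (ι : Type) [Fintype ι] [DecidableEq ι] (Q : QuadraticForm F (ι → F)), Good Q →
    (2 : F) ≠ 0 → ∀ (G : Type u) [Group G] [Finite G] (S : Subgroup G) [S.Normal], Ctx G S →
    ∀ (K : Subgroup G), IsCarter K → ∀ (e : S ≃* P Q), (∀ g : G, ∃ M : Gam Q, Lf e g M) →
    ∀ (R : Submodule F (ι → F)), Ts Q R → Iv e K R → ∀ (b : ℕ), Module.finrank F R = 2 * b → Odd b → 3 ≤ b →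
    ∃ W : Submodule F (ι → F), W ≤ R ∧ W ≠ ⊥ ∧ W ≠ R ∧ Even (Module.finrank F W) ∧ Iv e K W

/-- (T1-O) unipotent elements, `p ≥ 5` (helper18 / helper381) -/
def ConjFour : Prop :=
  ∀ (F : Type) [Field F] [Finite F] (ι : Type) [Fintype ι] [DecidableEq ι] (Q : QuadraticForm F (ι → F)), Good Q →
    ∀ (p : ℕ) [Fact p.Prime] [CharP F p], 5 ≤ p → ∀ z ∈ O Q, z ^ p = 1 → ∃ h ∈ E Q, h * z * h⁻¹ = z ^ 4

end Cfsg.Agent.H502.Car
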