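import Cfsg.Agent.H18.Carter.UniT
import Cfsg.Agent.H502.Car.Stmts

/-!
# S3852: a unipotent element `z` of an orthogonal group in characteristic `p ≥ 5` is conjugate to `z ^ 4` in `E Q`
(helper502)

`z` is conjugate to `z ^ 2` in `O Q` (the blocks of even size carry alternating forms, which have similitudes of all
multipliers, the multipliers of the blocks of odd size are squares), and the square of the conjugating element is in `E Q`.
-/

set_option autoImplicit false
set_option linter.unusedSectionVars false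

namespace Cfsg.Agent.H502.Car

open QuadraticMap Cfsg.Agent.LieClassical.OrthCore Cfsg.Agent.LieClassical.OrthTrans
  Cfsg.Agent.LieClassical.OrthSimple Cfsg.Agent.H904.FR Cfsg.Agent.H721.FR Cfsg.Agent.H721.SR Cfsg.Agent.H955.FS Module
  Cfsg.Agent.H18.Carter.Uni

universe u

/-- alternating forms have similitudes of all multipliers -/
theorem exists_sim_alt {F : Type u} [Field F] [Finite F] {M : Type u} [AddCommGroup M] [Module F M]
    [FiniteDimensional F M]
    (β : M →ₗ[F] M →ₗ[F] F) (hs : ∀ x, β x x = 0) (hn : ∀ x, (∀ y, β x y = 0) → x = 0) {a : F} (ha : a ≠ 0) :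
    ∃ A : M ≃ₗ[F] M, ∀ x y, β (A x) (A y) = a * β x y := by
  have hskew : ∀ x y, β x y = - β y x := by
    intro x y
    have := hs (x + y)
    simp only [map_add, LinearMap.add_apply, hs, zero_add, add_zero] at this
    rw [add_comm] at this
    exact eq_neg_of_add_eq_zero_left this
  have hnd : LinearMap.BilinForm.Nondegenerate β := ⟨fun x hx => hn x hx, fun x hx => hn x fun y => by
    rw [hskew, hx y, neg_zero]⟩
  obtain ⟨m, -, e, he⟩ := Cfsg.Agent.H484.GenSp.exists_coord β hs hnd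
  let A : (Fin m ⊕ Fin m → F) ≃ₗ[F] (Fin m ⊕ Fin m → F) :=
    LinearEquiv.piCongrRight fun i => i.elim (fun _ => LinearEquiv.refl F F)
      (fun _ => LinearEquiv.smulOfUnit (Units.mk0 a ha))
  refine ⟨e ≪≫ₗ A ≪≫ₗ e.symm, fun x y => ?_⟩
  rw [← he, ← he]
  have e1 : ∀ x, e ((e ≪≫ₗ A ≪≫ₗ e.symm) x) = A (e x) := fun x => e.apply_symm_apply _
  rw [e1, e1]
  have e2 : ∀ (v : Fin m ⊕ Fin m → F) i, A v (Sum.inl i) = v (Sum.inl i) := fun _ _ => rfl
  have e3 : ∀ (v : Fin m ⊕ Fin m → F) i, A v (Sum.inr i) = a * v (Sum.inr i) := fun _ _ => rfl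
  rw [Cfsg.Agent.ClassicalGeometry.SympBasic.sympForm_eq_sum, Cfsg.Agent.ClassicalGeometry.SympBasic.sympForm_eq_sum,
    Finset.mul_sum]
  refine Finset.sum_congr rfl fun i _ => ?_
  rw [e2, e2, e3, e3]
  ring

/-- **`c ~ c ^ 2`** in an orthogonal group -/
theorem conj_two {F V : Type u} [Field F] [AddCommGroup V] [Module F V] {B : V →ₗ[F] V →ₗ[F] F} {c : V ≃ₗ[F] V}
    [Finite F] [FiniteDimensional F V] (h2 : (2 : F) ≠ 0)
    (hB : ∀ x y, B x y = B y x) (hnd : ∀ x, (∀ y, B x y = 0) → x = 0) (hc : c ∈ Isom B)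
    (hu : ∃ a : ℕ, c ^ (ringChar F) ^ a = 1) : ∃ h ∈ Isom B, h * c * h⁻¹ = c ^ 2 := by
  obtain ⟨N, hN⟩ := exists_cay h2 hu
  obtain ⟨k, hk⟩ := hN.nil
  have huniq : ∀ N' : V →ₗ[F] V, Cay c N' → N' = N := by
    intro N' hN'
    ext x
    obtain ⟨u, rfl⟩ := hN.exists_eq h2 x
    rw [hN.eq, hN'.eq]
  have h2' : ((2 : ℕ) : F) = 2 := by norm_num
  obtain ⟨h, h5, h6⟩ := exists_sim (μ := 1) (n := 2) (ε := 1) h2 (one_mul 1) (fun x y => by rw [one_mul]; exact hB x y)
    hnd hc hu (by rw [h2']; exact h2) k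
    (by
      intro N' hN'
      rw [huniq N' hN', pow_succ, hk, zero_mul]) (fun _ => True) (by
      intro M _ _ _ β k r hk hr hs hn _
      refine ⟨?_, trivial⟩
      rw [one_mul, h2']
      rcases Nat.even_or_odd k with ⟨j, hj⟩ | hko
      · refine ⟨LinearEquiv.smulOfUnit (((Units.mk0 (2 : F) h2)⁻¹) ^ j), fun x y => ?_⟩
        have e : ∀ x : M, LinearEquiv.smulOfUnit (((Units.mk0 (2 : F) h2)⁻¹) ^ j) x = ((2 : F)⁻¹) ^ j • x := by
          intro x
          show (((Units.mk0 (2 : F) h2)⁻¹) ^ j) • x = _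
          rw [Units.smul_def, Units.val_pow_eq_pow_val, Units.val_inv_eq_inv_val, Units.val_mk0]
        rw [e, e, map_smul, map_smul, LinearMap.smul_apply, smul_eq_mul, smul_eq_mul, hj, pow_add, mul_assoc]
      · apply exists_sim_alt β _ hn (pow_ne_zero _ (inv_ne_zero h2))
        intro x
        have h7 := hs x x
        rw [hko.neg_one_pow, one_mul, neg_one_mul] at h7
        have h8 : (2 : F) * β x x = 0 := by linear_combination h7
        exact (mul_eq_zero.1 h8).resolve_left h2) trivial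
  exact ⟨h, mem_isom.2 fun x y => by rw [h5, one_mul], h6⟩

/-- **(T1-O)** -/
theorem conjFour : ConjFour := by
  intro F _ _ ι _ _ Q hG p _ _ hp z hz hzp
  have h2 : (2 : F) ≠ 0 := by
    intro h
    have h3 : p ∣ 2 := (CharP.cast_eq_zero_iff F p 2).1 (by exact_mod_cast h)
    have := Nat.le_of_dvd (by norm_num) h3
    omega
  have hr : ringChar F = p := ringChar.eq F p
  have hiso : ∀ g : (ι → F) ≃ₗ[F] (ι → F), g ∈ Isom (QuadraticMap.polarBilin Q) ↔ g ∈ O Q := by
    intro g
    rw [mem_isom]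
    constructor
    · intro h v
      have h3 := h v v
      rw [QuadraticMap.polarBilin_apply_apply, QuadraticMap.polarBilin_apply_apply, QuadraticMap.polar_self,
        QuadraticMap.polar_self] at h3
      have h4 : (2 : F) * (Q (g v) - Q v) = 0 := by
        rw [mul_sub, ← smul_eq_mul, ← smul_eq_mul, ofNat_smul_eq_nsmul F 2, ofNat_smul_eq_nsmul F 2, h3, sub_self]
      exact sub_eq_zero.1 ((mul_eq_zero.1 h4).resolve_left h2)
    · intro h x y
      rw [QuadraticMap.polarBilin_apply_apply, QuadraticMap.polarBilin_apply_apply, polar_map h]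
  obtain ⟨h, hh, hh2⟩ := conj_two (B := QuadraticMap.polarBilin Q) (c := z) h2
    (fun x y => by rw [QuadraticMap.polarBilin_apply_apply, QuadraticMap.polarBilin_apply_apply, polar_comm])
    (fun x hx => hG.nondeg x fun y => by rw [← QuadraticMap.polarBilin_apply_apply]; exact hx y)
    ((hiso z).2 hz) ⟨1, by rw [hr, pow_one, hzp]⟩
  refine ⟨h * h, Cfsg.Agent.H749.sq_mem_E hG ((hiso h).1 hh), ?_⟩
  have e1 : h * h * z * (h * h)⁻¹ = h * (h * z * h⁻¹) * h⁻¹ := by group
  have e2 : h * z ^ 2 * h⁻¹ = (h * z * h⁻¹) ^ 2 := (conj_pow).symm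
  rw [e1, hh2, e2, hh2, ← pow_mul]

end Cfsg.Agent.H502.Car
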