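import Cfsg.Agent.H502.Car.Flow

/-!
# No `K`-invariant chains in characteristic three (helper502, S3852)
-/

set_option autoImplicit false
set_option linter.unusedSectionVars false

namespace Cfsg.Agent.H502.Car

open QuadraticMap Cfsg.Agent.LieClassical.OrthCore Cfsg.Agent.LieClassical.OrthTrans
  Cfsg.Agent.LieClassical.OrthSimple Cfsg.Agent.ClassicalGeometry.OrthSemi
  Cfsg.Agent.ClassicalGeometry.OrthAut1 Cfsg.Agent.H989.OutOrth.Basic
open Subgroup Pointwise Cfsg.Agent.Solvable.Carter Cfsg.Agent.H18.Carter Cfsg.Agent.H381.Car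

universe u

variable {F V : Type*} [Field F] [AddCommGroup V] [Module F V] {Q : QuadraticForm F V}

/-- isometries of odd order lie in `E Q` -/
theorem mem_E_of_odd [FiniteDimensional F V] (hG : Good Q) {g : V ≃ₗ[F] V} (hg : g ∈ O Q) {n : ℕ} (hn : Odd n)
    (h : g ^ n = 1) : g ∈ E Q := by
  obtain ⟨k, rfl⟩ := hn
  have h1 : g = g ^ (k + 1) * g ^ (k + 1) := by
    rw [← pow_add]
    have : k + 1 + (k + 1) = 2 * k + 1 + 1 := by ring
    rw [this, pow_succ, h, one_mul]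
  rw [h1]
  exact Cfsg.Agent.H749.sq_mem_E hG (pow_mem hg _)

section

variable {G : Type u} [Group G] [Finite G] {S : Subgroup G} [S.Normal]

theorem commute_of_fx {e : S ≃* P Q} {K : Subgroup G} (hs : ∀ g : G, ∃ M : Gam Q, Lf e g M) (hK : IsCarter K)
    {x z : ↥(E Q)} (hx : Fx e K x) (hz : Fx e K z) (v : V) : x.1 (z.1 v) = z.1 (x.1 v) := by
  have h1 := hz _ (hx.mem hs hK) _ (lf_el e x)
  have h2 : conjLin (ofO Q ⟨x, E_le_O x.2⟩) z.1 = z.1 := congrArg Subtype.val h1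
  have h3 := conjLin_apply' (ofO Q ⟨x, E_le_O x.2⟩) z.1 v
  rw [h2] at h3
  exact h3.symm

/-- `z` on the `+1`-eigenspace of `x`, `1` on the other one, is again fixed by `K` -/
theorem exists_pt [FiniteDimensional F V] (hG : Good Q) (h2 : (2 : F) ≠ 0) {e : S ≃* P Q} {K : Subgroup G}
    {n : ℕ} (hn : Odd n) {x : V ≃ₗ[F] V} (hxO : x ∈ O Q) (hx : x * x = 1)
    (hxK : ∀ k ∈ K, ∀ M : Gam Q, Lf e k M → conjLin M x = x) {z : ↥(E Q)} (hz : z ^ n = 1) (hzK : Fx e K z)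
    (hc : ∀ v, x (z.1 v) = z.1 (x v)) :
    ∃ z' : ↥(E Q), z' ^ n = 1 ∧ Fx e K z' ∧ (∀ v, x v = v → z'.1 v = z.1 v) ∧ (∀ v, x v = -v → z'.1 v = v) := by
  have hz' : z.1 ^ n = 1 := congrArg Subtype.val hz
  have h1 := pt_mem_O h2 hx hc hxO (E_le_O z.2)
  have h3 := pt_pow h2 hx hc n hz'
  refine ⟨⟨pt h2 x z.1 hx hc, mem_E_of_odd hG h1 hn h3⟩, Subtype.ext h3, ?_, fun v hv => pt_plus h2 hx hc hv,
    fun v hv => pt_minus h2 hx hc hv⟩
  intro k hk M hM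
  apply Subtype.ext
  exact conjLin_pt h2 hx hc M (hxK k hk M hM) (congrArg Subtype.val (hzK k hk M hM))

/-- elements of order three fixing a hyperbolic pair are real -/
def RealHyp (Q : QuadraticForm F V) : Prop :=
  ∀ z ∈ O Q, z ^ 3 = 1 → (∃ a b, Hyp Q a b ∧ z a = a ∧ z b = b) → ∃ h ∈ E Q, h * z * h⁻¹ = z⁻¹

/-- the partner of a singular eigenvector in the same eigenspace -/
theorem exists_partner_eig (hG : Good Q) (h2 : (2 : F) ≠ 0) {x : V ≃ₗ[F] V} (hxO : x ∈ O Q) (hx : x * x = 1)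
    {s : ℤˣ} {u : V} (hu : Q u = 0) (hu0 : u ≠ 0) (hxu : x u = (s : ℤ) • u) :
    ∃ w, Hyp Q u w ∧ x w = (s : ℤ) • w := by
  obtain ⟨y, hy⟩ := exists_hyp hG.nondeg hu hu0
  have hxx : ∀ v, x (x v) = v := fun v => LinearEquiv.congr_fun hx v
  obtain ⟨y', hy'⟩ : ∃ y', y' = (2 : F)⁻¹ • (y + (s : ℤ) • x y) := ⟨_, rfl⟩
  have h1 : x y' = (s : ℤ) • y' := by
    have e1 : (s : ℤ) • ((2 : F)⁻¹ • (y + (s : ℤ) • x y)) = (2 : F)⁻¹ • ((s : ℤ) • y + (s : ℤ) • (s : ℤ) • x y) := by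
      rw [smul_comm (s : ℤ) (2 : F)⁻¹, smul_add]
    rw [hy', e1, sgn_smul_smul, map_smul, map_add, map_zsmul, hxx, add_comm]
  have h3 : polar Q u y' = 1 := by
    have h4 : polar Q u (x y) = (s : ℤ) • 1 := by
      have h5 := polar_map hxO u (x y)
      rw [hxx, hxu, ← Int.cast_smul_eq_zsmul F, polar_smul_left, hy.pair] at h5
      rw [← h5, Int.cast_smul_eq_zsmul]
    have h6 : polar Q u ((s : ℤ) • x y) = 1 := by
      rw [← Int.cast_smul_eq_zsmul F, polar_smul_right, h4, Int.cast_smul_eq_zsmul, sgn_smul_smul]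
    rw [hy', polar_smul_right, polar_add_right, hy.pair, h6, smul_eq_mul, one_add_one_eq_two, inv_mul_cancel₀ h2]
  refine ⟨y' - Q y' • u, ⟨hu, ?_, ?_⟩, ?_⟩
  · have h4 : polar Q y' u = 1 := by rw [polar_comm]; exact h3
    rw [sub_eq_add_neg, ← neg_smul, Q_add, QuadraticMap.map_smul, hu, polar_smul_right, h4, smul_eq_mul, smul_eq_mul]
    ring
  · rw [polar_sub_right, polar_smul_right, polar_self_of_sing hu, h3, smul_zero, sub_zero]
  · rw [map_sub, map_smul, h1, hxu, smul_sub, smul_comm (Q y')]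

/-- **No chains.** -/
theorem no_chain [FiniteDimensional F V] (hG : Good Q) [CharP F 3] (hreal : RealHyp Q) (c : Ctx G S)
    {K : Subgroup G} (hK : IsCarter K) (e : S ≃* P Q) (hs : ∀ g : G, ∃ M : Gam Q, Lf e g M) {z : ↥(E Q)}
    (hz : z ^ 3 = 1) (hzK : Fx e K z) {W R : Submodule F V} (hR : Ts Q R) (hWR : W ≤ R) (hW0 : W ≠ ⊥) (hne : W ≠ R)
    (hWK : Iv e K W) (hRK : Iv e K R) (hRz : ∀ r ∈ R, ∃ v, z.1 v - v = r)
    (hpar : Even (Module.finrank F W) ∨ Even (Module.finrank F R - Module.finrank F W)) : False := by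
  haveI : Fact (Nat.Prime 3) := ⟨Nat.prime_three⟩
  have h2 : (2 : F) ≠ 0 := by
    intro h
    have h1 : ((2 : ℕ) : F) = 0 := by exact_mod_cast h
    rw [CharP.cast_eq_zero_iff F 3] at h1
    omega
  obtain ⟨a, b, hab, t, ht⟩ : ∃ a b : ℤˣ, b = -a ∧ ∃ t : ↥(E Q), Ac Q W R a b t.1 := by
    rcases hpar with h | h
    · exact ⟨-1, 1, (neg_neg 1).symm, exists_ac hG hR hWR (Or.inr h) (Or.inl rfl)⟩
    · exact ⟨1, -1, rfl, exists_ac hG hR hWR (Or.inl rfl) (Or.inr h)⟩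
  obtain ⟨x, hx, hAc, hxK⟩ := exists_fx hG c hK e hs (p := 3) (by norm_num) hWR hW0 hWK hRK ht
  have hx' : x.1 * x.1 = 1 := congrArg Subtype.val hx
  have hxx : ∀ v, x.1 (x.1 v) = v := fun v => LinearEquiv.congr_fun hx' v
  -- eigenvectors in `R`
  obtain ⟨w0, hw0, hw00⟩ := Submodule.exists_mem_ne_zero_of_ne_bot hW0
  have hAw := hAc.w w0 hw0
  obtain ⟨r0, hr0, hr0W⟩ : ∃ r ∈ R, r ∉ W := by
    by_contra hcon
    push Not at hcon
    exact hne (le_antisymm hWR hcon)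
  obtain ⟨r1, hr1⟩ : ∃ r1, r1 = r0 + (b : ℤ) • x.1 r0 := ⟨_, rfl⟩
  have hxr1 : x.1 r1 = (b : ℤ) • r1 := by
    rw [hr1, map_add, map_zsmul, hxx, smul_add, sgn_smul_smul, add_comm]
  have hr1R : r1 ∈ R := by
    have h3 := hAc.r r0 hr0
    have h4 : x.1 r0 ∈ R := by
      have : x.1 r0 = (x.1 r0 - (b : ℤ) • r0) + (b : ℤ) • r0 := by abel
      rw [this]; exact R.add_mem (hWR h3) (zsmul_mem' _ hr0)
    rw [hr1]; exact R.add_mem hr0 (zsmul_mem' _ h4)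
  have hr1W : r1 ∉ W := by
    intro h3
    apply hr0W
    have h4 := hAc.r r0 hr0
    have e1 : r0 = (2 : F)⁻¹ • (r1 - (b : ℤ) • (x.1 r0 - (b : ℤ) • r0)) := by
      have h5 : (b : ℤ) • (x.1 r0 - (b : ℤ) • r0) = (b : ℤ) • x.1 r0 - r0 := by rw [smul_sub, sgn_smul_smul]
      rw [h5, hr1]
      have : r0 + (b : ℤ) • x.1 r0 - ((b : ℤ) • x.1 r0 - r0) = (2 : F) • r0 := by
        rw [two_smul]; abel
      rw [this, smul_smul, inv_mul_cancel₀ h2, one_smul]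
    rw [e1]
    exact W.smul_mem _ (W.sub_mem h3 (zsmul_mem' _ h4))
  have hr10 : r1 ≠ 0 := fun h => hr1W (by rw [h]; exact W.zero_mem)
  -- `u1` fixed by `x`, `u2` negated
  obtain ⟨u1, u2, hu1R, hu2R, hu10, hu20, hxu1, hxu2⟩ : ∃ u1 u2, u1 ∈ R ∧ u2 ∈ R ∧ u1 ≠ 0 ∧ u2 ≠ 0 ∧
      x.1 u1 = ((1 : ℤˣ) : ℤ) • u1 ∧ x.1 u2 = ((-1 : ℤˣ) : ℤ) • u2 := by
    rcases Int.units_eq_one_or a with ha | ha
    · subst ha
      subst hab
      exact ⟨w0, r1, hWR hw0, hr1R, hw00, hr10, hAw, hxr1⟩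
    · subst ha
      rw [neg_neg] at hab
      subst hab
      exact ⟨r1, w0, hr1R, hWR hw0, hr10, hw00, hxr1, hAw⟩
  obtain ⟨w, hw, hxw⟩ := exists_partner_eig hG h2 (E_le_O x.2) hx' (hR u2 hu2R) hu20 hxu2
  have hneg : ∀ v : V, ((-1 : ℤˣ) : ℤ) • v = -v := fun v => by
    rw [Units.val_neg, Units.val_one, neg_smul, one_smul]
  rw [hneg] at hxu2 hxw
  rw [Units.val_one, one_smul] at hxu1
  obtain ⟨z', hz'3, hz'K, hz'1, hz'2⟩ := exists_pt hG h2 (n := 3) (by decide) (E_le_O x.2) hx'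
    (fun k hk M hM => congrArg Subtype.val (hxK k hk M hM)) hz hzK (commute_of_fx hs hK hxK hzK)
  obtain ⟨h, hh, hhz⟩ := hreal z'.1 (E_le_O z'.2) (congrArg Subtype.val hz'3) ⟨u2, w, hw, hz'2 _ hxu2, hz'2 _ hxw⟩
  have h3 : (⟨h, hh⟩ : ↥(E Q)) * z' * (⟨h, hh⟩ : ↥(E Q))⁻¹ = z' ^ 2 := by
    have e1 : z' ^ 2 = z'⁻¹ := by
      rw [eq_inv_iff_mul_eq_one, ← pow_succ, hz'3]
    rw [e1]
    exact Subtype.ext hhz
  have h4 := no_conj_pow hG c hs hK (n := 3) (by decide) hz'3 hz'K h3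
  have h5 : z' = 1 := by
    have := hz'3
    rw [pow_succ, h4, ← pow_two, h4] at this
    exact this
  -- `z' ≠ 1`
  obtain ⟨v, hv⟩ := hRz u1 hu1R
  obtain ⟨v1, v2, rfl, hv1, hv2⟩ := decomp h2 hx' v
  have h6 := hz'1 v1 hv1
  rw [h5] at h6
  have h6' : z.1 v1 = v1 := h6.symm
  have hc := commute_of_fx hs hK hxK hzK
  have h7 : x.1 u1 = -u1 := by
    rw [← hv, map_add, h6', map_sub, map_add, map_add, hv1, hv2, hc, hv2, map_neg]
    abel
  rw [hxu1] at h7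
  have h8 : (2 : F) • u1 = 0 := by
    rw [two_smul]
    nth_rewrite 1 [h7]
    exact neg_add_cancel u1
  exact hu10 ((smul_eq_zero.1 h8).resolve_left h2)

end

end Cfsg.Agent.H502.Car
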