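import Cfsg.Agent.H749.BlockOrth
import Cfsg.Agent.LieClassical.SLGen

/-!
# Isometries with a given action on a totally singular subspace (helper502, S3852)

* `exists_lft` : `g ∈ GL(R)`, `R` totally singular, `det g` a square: `g` extends to an element of `E Q` acting
  trivially on `R^⊥ / R`;
* `mem_E_of_ts` : `h ∈ O(Q)`, `h R = R`, `h` trivial on `R^⊥ / R`, `det (h | R)` a square: `h ∈ E Q`.
-/

set_option autoImplicit false
set_option linter.unusedSectionVars false

namespace Cfsg.Agent.H502.Car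

open QuadraticMap Cfsg.Agent.LieClassical.OrthCore Cfsg.Agent.LieClassical.OrthTrans Cfsg.Agent.H749

section

variable {F : Type*} [Field F] {V : Type*} [AddCommGroup V] [Module F V] {Q : QuadraticForm F V}

/-! ### scaling a hyperbolic pair -/

/-- the map `x ↦ c x`, `y ↦ d y`, identity on the perpendicular space -/
def hsLin (Q : QuadraticForm F V) (x y : V) (c d : F) : V →ₗ[F] V :=
  LinearMap.id + (c - 1) • (polarBilin Q y).smulRight x + (d - 1) • (polarBilin Q x).smulRight y

theorem hsLin_apply (x y : V) (c d : F) (v : V) :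
    hsLin Q x y c d v = v + (c - 1) • polar Q y v • x + (d - 1) • polar Q x v • y := by
  simp only [hsLin, LinearMap.add_apply, LinearMap.id_apply, LinearMap.smul_apply,
    LinearMap.smulRight_apply, polarBilin_apply_apply]

theorem hsLin_comp {x y : V} (h : Hyp Q x y) (c d c' d' : F) (v : V) :
    hsLin Q x y c d (hsLin Q x y c' d' v) = hsLin Q x y (c * c') (d * d') v := by
  have e1 := h.polar_left
  have e2 := h.polar_right
  have e3 := h.pair
  have e4 := h.pair'
  simp only [hsLin_apply, polar_add_right, polar_smul_right, e1, e2, e3, e4, smul_eq_mul, mul_zero, mul_one]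
  module

/-- `x ↦ c x`, `y ↦ c⁻¹ y` -/
def hs {x y : V} (h : Hyp Q x y) {c : F} (hc : c ≠ 0) : V ≃ₗ[F] V :=
  LinearEquiv.ofLinearMap (hsLin Q x y c c⁻¹) (hsLin Q x y c⁻¹ c)
    (by
      ext v
      rw [LinearMap.comp_apply, hsLin_comp h, mul_inv_cancel₀ hc, inv_mul_cancel₀ hc, hsLin_apply]
      simp)
    (by
      ext v
      rw [LinearMap.comp_apply, hsLin_comp h, mul_inv_cancel₀ hc, inv_mul_cancel₀ hc, hsLin_apply]
      simp)

theorem hs_apply {x y : V} (h : Hyp Q x y) {c : F} (hc : c ≠ 0) (v : V) :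
    hs h hc v = v + (c - 1) • polar Q y v • x + (c⁻¹ - 1) • polar Q x v • y := hsLin_apply x y c c⁻¹ v

theorem hs_mem_O {x y : V} (h : Hyp Q x y) {c : F} (hc : c ≠ 0) : hs h hc ∈ O Q := by
  intro v
  have e4 : polar Q v x = polar Q x v := polar_comm _ _ _
  have e5 : polar Q v y = polar Q y v := polar_comm _ _ _
  rw [hs_apply, add_assoc, Q_add, Q_add]
  simp only [QuadraticMap.map_smul, polar_add_right, polar_smul_right, polar_smul_left, h.left, h.right, h.pair,
    e4, e5, smul_eq_mul, mul_zero, mul_one]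
  field_simp
  ring

theorem hs_sq_mem_E [FiniteDimensional F V] (hG : Good Q) {x y : V} (h : Hyp Q x y) {c : F} (hc : c ≠ 0) :
    hs h hc * hs h hc ∈ E Q := sq_mem_E hG (hs_mem_O h hc)

theorem hs_sq_apply {x y : V} (h : Hyp Q x y) {c : F} (hc : c ≠ 0) (v : V) :
    (hs h hc * hs h hc) v = v + (c * c - 1) • polar Q y v • x + (c⁻¹ * c⁻¹ - 1) • polar Q x v • y := by
  have e : (hs h hc * hs h hc) v = hsLin Q x y c c⁻¹ (hsLin Q x y c c⁻¹ v) := rfl
  rw [e, hsLin_comp h, hsLin_apply]

/-! ### dual vectors -/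

theorem polar_surj [FiniteDimensional F V] (hQ : Nondeg Q) (f : V →ₗ[F] F) : ∃ w, ∀ v, polar Q w v = f v := by
  have hinj : Function.Injective (polarBilin Q) := by
    rw [injective_iff_map_eq_zero]
    intro u hu
    apply hQ
    intro w
    exact LinearMap.congr_fun hu w
  have hsurj : Function.Surjective (polarBilin Q) := by
    have h1 : Module.finrank F V = Module.finrank F (V →ₗ[F] F) := (Subspace.dual_finrank_eq (K := F) (V := V)).symm
    exact (LinearMap.injective_iff_surjective_of_finrank_eq_finrank h1).1 hinj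
  obtain ⟨w, hw⟩ := hsurj f
  exact ⟨w, fun v => LinearMap.congr_fun hw v⟩

theorem polar_surj_sub [FiniteDimensional F V] (hQ : Nondeg Q) {R : Submodule F V} (f : R →ₗ[F] F) :
    ∃ w, ∀ r : R, polar Q w r = f r := by
  obtain ⟨g, hg⟩ := LinearMap.exists_extend f
  obtain ⟨w, hw⟩ := polar_surj hQ g
  exact ⟨w, fun r => by rw [hw, ← hg]; rfl⟩

/-- the partner of a singular vector, perpendicular to `P` -/
theorem exists_partner [FiniteDimensional F V] (hQ : Nondeg Q) {P : Submodule F V} {x : V} (hx : x ∉ P) (hx0 : Q x = 0)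
    (hxP : ∀ w ∈ P, polar Q w x = 0) : ∃ y, Hyp Q x y ∧ ∀ w ∈ P, polar Q w y = 0 := by
  obtain ⟨f, hfx, hfP⟩ := Submodule.exists_le_ker_of_notMem hx
  obtain ⟨v, hv⟩ := polar_surj hQ ((f x)⁻¹ • f)
  have h1 : polar Q v x = 1 := by
    rw [hv, LinearMap.smul_apply, smul_eq_mul, inv_mul_cancel₀ hfx]
  have hvP : ∀ w ∈ P, polar Q w v = 0 := fun w hw => by
    have h2 : f w = 0 := hfP hw
    rw [polar_comm, hv, LinearMap.smul_apply, h2, smul_zero]
  refine ⟨v - Q v • x, ⟨hx0, ?_, ?_⟩, fun w hw => ?_⟩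
  · rw [sub_eq_add_neg, ← neg_smul, Q_add, QuadraticMap.map_smul, hx0, polar_smul_right, h1, smul_eq_mul, smul_eq_mul]
    ring
  · rw [polar_sub_right, polar_smul_right, polar_self_of_sing hx0, polar_comm, h1, smul_zero, sub_zero]
  · rw [polar_sub_right, polar_smul_right, hvP w hw, hxP w hw, smul_zero, sub_zero]

/-! ### liftable elements -/

/-- `R` is totally singular -/
def Ts (Q : QuadraticForm F V) (R : Submodule F V) : Prop := ∀ r ∈ R, Q r = 0

theorem Ts.polar {R : Submodule F V} (h : Ts Q R) {r s : V} (hr : r ∈ R) (hs : s ∈ R) : polar Q r s = 0 := by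
  have h1 := h _ (R.add_mem hr hs)
  rw [Q_add, h _ hr, h _ hs, zero_add, zero_add] at h1
  exact h1

/-- `g` extends to an element of `E Q` acting trivially on `R^⊥ / R` -/
def Lft (Q : QuadraticForm F V) (R : Submodule F V) (g : R →ₗ[F] R) : Prop :=
  ∃ h ∈ E Q, (∀ r : R, h r = g r) ∧ ∀ v, (∀ r ∈ R, QuadraticMap.polar Q r v = 0) → h v - v ∈ R

theorem Lft.one (R : Submodule F V) : Lft Q R LinearMap.id :=
  ⟨1, one_mem _, fun _ => rfl, fun v _ => by
    have : (1 : V ≃ₗ[F] V) v = v := rfl
    rw [this, sub_self]; exact R.zero_mem⟩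

theorem Lft.mul {R : Submodule F V} {g g' : R →ₗ[F] R} (h : Lft Q R g) (h' : Lft Q R g') :
    Lft Q R (g.comp g') := by
  obtain ⟨x, hx, h1, h2⟩ := h
  obtain ⟨x', hx', h1', h2'⟩ := h'
  refine ⟨x * x', mul_mem hx hx', fun r => ?_, fun v hv => ?_⟩
  · show x (x' r) = _
    rw [h1', h1]; rfl
  · show x (x' v) - v ∈ R
    have e : x (x' v) - v = x (x' v - v) + (x v - v) := by rw [map_sub]; abel
    rw [e]
    refine R.add_mem ?_ (h2 v hv)
    have := h1 ⟨_, h2' v hv⟩
    rw [this]
    exact (g _).2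

theorem lft_transvection [FiniteDimensional F V] (hG : Good Q) {R : Submodule F V} (hR : Ts Q R) (f : R →ₗ[F] F) (u : R)
    (hu : f u = 0) : Lft Q R (LinearMap.id + f.smulRight u) := by
  obtain ⟨w, hw⟩ := polar_surj_sub hG.nondeg (-f)
  have hu0 : Q (u : V) = 0 := hR _ u.2
  have hwu : polar Q (u : V) w = 0 := by
    rw [polar_comm, hw, LinearMap.neg_apply, hu, neg_zero]
  refine ⟨siegel Q u w hu0 hwu, siegel_mem_E hu0 hwu, fun r => ?_, fun v hv => ?_⟩
  · rw [siegel_apply, hR.polar u.2 r.2, hw, LinearMap.neg_apply]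
    show _ = ((r + f r • u : R) : V)
    rw [Submodule.coe_add, Submodule.coe_smul]
    module
  · rw [siegel_apply, hv _ u.2]
    have e : v + (0 : F) • w - polar Q w v • (u : V) - (Q w * 0) • (u : V) - v = (-polar Q w v) • (u : V) := by module
    rw [e]
    exact R.smul_mem _ u.2

theorem lft_scale [FiniteDimensional F V] (hG : Good Q) {R : Submodule F V} (hR : Ts Q R) (f : R →ₗ[F] F) (u : R)
    (hu : f u = 1) {c : F} (hc : c ≠ 0) : Lft Q R (LinearMap.id + (c * c - 1) • f.smulRight u) := by
  have hu0 : Q (u : V) = 0 := hR _ u.2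
  have hx : (u : V) ∉ (LinearMap.ker f).map R.subtype := by
    rintro ⟨w, hw, e⟩
    have : w = u := Subtype.ext e
    rw [this] at hw
    have h1 : f u = 0 := hw
    rw [hu] at h1
    exact one_ne_zero h1
  obtain ⟨y, hy, hyP⟩ := exists_partner hG.nondeg hx hu0 (by
    rintro _ ⟨w, -, rfl⟩
    exact hR.polar w.2 u.2)
  have hyr : ∀ r : R, polar Q y r = f r := by
    intro r
    have h1 : (r - f r • u : R) ∈ LinearMap.ker f := by
      rw [LinearMap.mem_ker, map_sub, map_smul, hu, smul_eq_mul, mul_one, sub_self]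
    have h2 := hyP _ ⟨_, h1, rfl⟩
    have h3 : (R.subtype (r - f r • u) : V) = (r : V) - f r • (u : V) := rfl
    rw [h3, polar_sub_left, polar_smul_left, hy.pair, smul_eq_mul, mul_one, sub_eq_zero] at h2
    rw [polar_comm]; exact h2
  refine ⟨_, hs_sq_mem_E hG hy hc, fun r => ?_, fun v hv => ?_⟩
  · rw [hs_sq_apply, hyr, hR.polar u.2 r.2]
    show _ = ((r + (c * c - 1) • (f r • u) : R) : V)
    rw [Submodule.coe_add, Submodule.coe_smul, Submodule.coe_smul]
    module
  · rw [hs_sq_apply, hv _ u.2]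
    have e : v + (c * c - 1) • polar Q y v • (u : V) + (c⁻¹ * c⁻¹ - 1) • (0 : F) • y - v =
      ((c * c - 1) * polar Q y v) • (u : V) := by module
    rw [e]
    exact R.smul_mem _ u.2

theorem Lft.inv {R : Submodule F V} {g g' : R →ₗ[F] R} (h : Lft Q R g) (e1 : g.comp g' = LinearMap.id)
    (e2 : g'.comp g = LinearMap.id) : Lft Q R g' := by
  obtain ⟨x, hx, h1, h2⟩ := h
  have h3 : ∀ r : R, x⁻¹ (r : V) = g' r := by
    intro r
    have h4 : x (g' r) = r := by
      rw [h1]
      exact congrArg Subtype.val (LinearMap.congr_fun e1 r)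
    rw [← h4]
    show x.symm (x (g' r : V)) = _
    rw [LinearEquiv.symm_apply_apply]
  refine ⟨x⁻¹, inv_mem hx, h3, fun v hv => ?_⟩
  have e : x⁻¹ v - v = -(x⁻¹ (x v - v)) := by
    rw [map_sub]
    have : x⁻¹ (x v) = v := x.symm_apply_apply v
    rw [this]; abel
  rw [e]
  have h5 := h3 ⟨_, h2 v hv⟩
  have h6 : x⁻¹ (x v - v) = g' ⟨x v - v, h2 v hv⟩ := h5
  rw [h6]
  exact R.neg_mem (g' _).2

/-- elements of `GL(R)` with square determinant extend to `E Q` -/
theorem exists_lft [FiniteDimensional F V] (hG : Good Q) {R : Submodule F V} (hR : Ts Q R) (g : R →ₗ[F] R)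
    (hg : ∃ c : F, c ≠ 0 ∧ LinearMap.det g = c * c) : Lft Q R g := by
  obtain ⟨c, hc, hdet⟩ := hg
  obtain ⟨b, -⟩ : ∃ b : Module.Basis (Fin (Module.finrank F R)) F R, b = Module.finBasis F R := ⟨_, rfl⟩
  have key : ∀ A : Matrix.SpecialLinearGroup (Fin (Module.finrank F R)) F,
      Lft Q R (Matrix.toLin b b (A : Matrix _ _ F)) := by
    intro A
    have hA : A ∈ Subgroup.closure
        (Cfsg.Agent.LieClassical.SLGen.transvections (Fin (Module.finrank F R)) F) := by
      rw [Cfsg.Agent.LieClassical.SLGen.closure_transvections]; trivial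
    induction hA using Subgroup.closure_induction with
    | mem A hA =>
      obtain ⟨i, j, hij, a, rfl⟩ := hA
      have h1 := lft_transvection hG hR (b.coord j) (a • b i) (by
        rw [map_smul, Module.Basis.coord_apply, b.repr_self, Finsupp.single_eq_of_ne hij.symm, smul_zero])
      convert h1 using 1
      apply b.ext
      intro k
      rw [Matrix.toLin_self]
      have e : ∀ l, ((Matrix.SpecialLinearGroup.transvection hij a : Matrix.SpecialLinearGroup _ F) :
          Matrix (Fin (Module.finrank F R)) (Fin (Module.finrank F R)) F) l k =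
          (1 : Matrix _ _ F) l k + Matrix.single i j a l k := fun l => rfl
      simp only [e, add_smul, Finset.sum_add_distrib]
      rw [LinearMap.add_apply, LinearMap.id_apply, LinearMap.smulRight_apply, Module.Basis.coord_apply, b.repr_self]
      congr 1
      · rw [Finset.sum_eq_single k]
        · rw [Matrix.one_apply_eq, one_smul]
        · intro l _ hl
          rw [Matrix.one_apply_ne hl, zero_smul]
        · intro h; exact absurd (Finset.mem_univ k) h
      · by_cases hk : j = k
        · subst hk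
          rw [Finsupp.single_eq_same, one_smul, Finset.sum_eq_single i]
          · rw [Matrix.single_apply_same]
          · intro l _ hl
            rw [Matrix.single_apply_of_row_ne hl.symm, zero_smul]
          · intro h; exact absurd (Finset.mem_univ i) h
        · rw [Finsupp.single_eq_of_ne hk, zero_smul]
          apply Finset.sum_eq_zero
          intro l _
          rw [Matrix.single_apply_of_col_ne _ _ hk, zero_smul]
    | one =>
      have e : Matrix.toLin b b ((1 : Matrix.SpecialLinearGroup (Fin (Module.finrank F R)) F) : Matrix _ _ F)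
          = LinearMap.id := by
        rw [Matrix.SpecialLinearGroup.coe_one, Matrix.toLin_one]
      rw [e]; exact Lft.one R
    | mul A B _ _ h1 h2 =>
      rw [Matrix.SpecialLinearGroup.coe_mul, Matrix.toLin_mul b b b]
      exact h1.mul h2
    | inv A _ h =>
      refine h.inv ?_ ?_
      · rw [← Matrix.toLin_mul, ← Matrix.SpecialLinearGroup.coe_mul, mul_inv_cancel,
          Matrix.SpecialLinearGroup.coe_one, Matrix.toLin_one]
      · rw [← Matrix.toLin_mul, ← Matrix.SpecialLinearGroup.coe_mul, inv_mul_cancel,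
          Matrix.SpecialLinearGroup.coe_one, Matrix.toLin_one]
  have key' : ∀ g : R →ₗ[F] R, LinearMap.det g = 1 → Lft Q R g := by
    intro g hg
    have h1 := key ⟨LinearMap.toMatrix b b g, by rw [LinearMap.det_toMatrix]; exact hg⟩
    rwa [Matrix.toLin_toMatrix] at h1
  rcases Nat.eq_zero_or_pos (Module.finrank F R) with h0 | h0
  · apply key'
    rw [LinearMap.det_eq_one_of_finrank_eq_zero h0]
  · let i0 : Fin (Module.finrank F R) := ⟨0, h0⟩
    have hu : b.coord i0 (b i0) = 1 := by
      rw [Module.Basis.coord_apply, b.repr_self, Finsupp.single_eq_same]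
    have e1 : ∀ x y : F, (LinearMap.id + x • (b.coord i0).smulRight (b i0)).comp
        (LinearMap.id + y • (b.coord i0).smulRight (b i0)) =
        LinearMap.id + (x + y + x * y) • (b.coord i0).smulRight (b i0) := by
      intro x y
      ext r
      simp only [LinearMap.comp_apply, LinearMap.add_apply, LinearMap.id_apply, LinearMap.smul_apply,
        LinearMap.smulRight_apply, map_add, map_smul, hu, smul_eq_mul, mul_one]
      push_cast
      module
    have e2 : ∀ x : F, LinearMap.det (LinearMap.id + x • (b.coord i0).smulRight (b i0)) = 1 + x := by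
      intro x
      have h1 := LinearMap.transvection.det (b.coord i0) (x • b i0)
      rw [map_smul, hu, smul_eq_mul, mul_one] at h1
      rw [← h1]
      congr 1
      ext r
      simp only [LinearMap.add_apply, LinearMap.id_apply, LinearMap.smul_apply, LinearMap.smulRight_apply,
        LinearMap.transvection.apply]
      rw [smul_comm]
    have h1 := lft_scale hG hR (b.coord i0) (b i0) hu hc
    have h2 := key' (g.comp (LinearMap.id + (c⁻¹ * c⁻¹ - 1) • (b.coord i0).smulRight (b i0))) (by
      rw [LinearMap.det_comp, e2, hdet]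
      field_simp
      ring)
    have h3 := h2.mul h1
    rw [LinearMap.comp_assoc, e1] at h3
    have e3 : c⁻¹ * c⁻¹ - 1 + (c * c - 1) + (c⁻¹ * c⁻¹ - 1) * (c * c - 1) = 0 := by
      field_simp
      ring
    rw [e3, zero_smul, add_zero, LinearMap.comp_id] at h3
    exact h3

/-- an isometry preserving `R`, trivial on `R^⊥ / R`, with square determinant on `R` lies in `E Q` -/
theorem mem_E_of_ts [FiniteDimensional F V] (hG : Good Q) {p : ℕ} [hp : Fact p.Prime] [CharP F p] (hp2 : p ≠ 2)
    {R : Submodule F V} (hR : Ts Q R) {h : V ≃ₗ[F] V} (hO : h ∈ O Q) (hi : ∀ r ∈ R, h r ∈ R)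
    (hperp : ∀ v, (∀ r ∈ R, QuadraticMap.polar Q r v = 0) → h v - v ∈ R) {c : F} (hc : c ≠ 0)
    (hdet : LinearMap.det ((h : V →ₗ[F] V).restrict hi) = c * c) : h ∈ E Q := by
  obtain ⟨t, ht, h1, h2⟩ := exists_lft hG hR ((h : V →ₗ[F] V).restrict hi) ⟨c, hc, hdet⟩
  have h1' : ∀ r ∈ R, t r = h r := fun r hr => h1 ⟨r, hr⟩
  have hu : t⁻¹ * h ∈ O Q := mul_mem (inv_mem (E_le_O ht)) hO
  obtain ⟨u, hu0⟩ : ∃ u, u = t⁻¹ * h := ⟨_, rfl⟩
  have e0 : h = t * u := by rw [hu0]; group
  rw [← hu0] at hu
  have hux : ∀ x, h x = t (u x) := fun x => by rw [e0]; rfl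
  have u1 : ∀ r ∈ R, u r = r := by
    intro r hr
    have h3 := hux r
    rw [← h1' r hr] at h3
    exact (t.injective h3).symm
  have u2 : ∀ v, (∀ r ∈ R, QuadraticMap.polar Q r v = 0) → u v - v ∈ R := by
    intro v hv
    have h3 : t (u v - v) = (h v - v) - (t v - v) := by
      rw [map_sub, ← hux]; abel
    have h4 : t (u v - v) ∈ R := by
      rw [h3]; exact R.sub_mem (hperp v hv) (h2 v hv)
    have h5 : R.map (t : V →ₗ[F] V) = R := by
      apply Submodule.eq_of_le_of_finrank_eq
      · rintro _ ⟨r, hr, rfl⟩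
        show t r ∈ R
        rw [h1' r hr]; exact hi r hr
      · exact LinearEquiv.finrank_map_eq t R
    rw [← h5] at h4
    obtain ⟨r, hr, e⟩ := h4
    rw [← t.injective e]; exact hr
  have u3 : ∀ v, ∀ r ∈ R, QuadraticMap.polar Q r (u v - v) = 0 := by
    intro v r hr
    rw [polar_sub_right]
    have h3 := polar_map hu r v
    rw [u1 r hr] at h3
    rw [h3, sub_self]
  -- `u` is unipotent
  have h3 : ∀ v, (u : V →ₗ[F] V) v - v = ((u : V →ₗ[F] V) - 1) v := fun v => rfl
  have hN : ((u : V →ₗ[F] V) - 1) ^ 3 = 0 := by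
    ext v
    show ((u : V →ₗ[F] V) - 1) (((u : V →ₗ[F] V) - 1) (((u : V →ₗ[F] V) - 1) v)) = 0
    rw [← h3, ← h3, ← h3]
    have h4 := u2 (u v - v) (u3 v)
    have h5 := u1 _ h4
    show u (u (u v - v) - (u v - v)) - (u (u v - v) - (u v - v)) = 0
    rw [h5, sub_self]
  have hpow : u ^ p = 1 := by
    have h4 : ((u : V →ₗ[F] V) - 1) ^ p = 0 := by
      have h5 : 3 ≤ p := by have := hp.out.two_le; omega
      obtain ⟨k, rfl⟩ := Nat.exists_eq_add_of_le h5
      rw [pow_add, hN, zero_mul]
    haveI : CharP (Module.End F V) p := by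
      rcases subsingleton_or_nontrivial V with hs | hs
      · exact absurd hG.dim (by rw [Module.finrank_zero_of_subsingleton]; omega)
      · exact charP_of_injective_algebraMap (algebraMap F (Module.End F V)).injective p
    have h6 : ((u : V →ₗ[F] V) - 1) ^ p = (u : V →ₗ[F] V) ^ p - 1 := by
      rw [sub_pow_char_of_commute p (Commute.one_right _), one_pow]
    rw [h6, sub_eq_zero] at h4
    have h7 : ∀ (n : ℕ) (v : V), ((u : V →ₗ[F] V) ^ n) v = (u ^ n) v := by
      intro n
      induction n with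
      | zero => intro v; rfl
      | succ n ih =>
        intro v
        rw [pow_succ, pow_succ]
        exact ih (u v)
    ext v
    rw [← h7, h4]
    rfl
  rw [e0]
  exact mul_mem ht (mem_E_of_pEl hG hp2 hu ⟨1, by rwa [pow_one]⟩)

end

end Cfsg.Agent.H502.Car
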