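import Cfsg.Agent.H502.Car.Abs
import Cfsg.Agent.H502.Car.Torus
import Cfsg.Agent.H989.OutOrth.Basic

/-!
# Almost simple groups with socle `P Q = E Q / Z(E Q)` and semisimilitudes (helper502, S3852)

`S` normal in `G`, `e : S ≃* P Q`.

* `act e : G →* MulAut (P Q)`; `Lf e g M` : the semisimilitude `M` induces the automorphism `g`;
* `el e : E Q →* G`, with image `S`; `Lf.conj : g * el e x * g⁻¹ = el e (conjE Q M x)`;
* elements of odd order lift uniquely: `exists_lift_odd`, `eq_of_el_eq`;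
* `Fx e K x` : all lifts of elements of `K` commute with `x ∈ E Q`; `Iv e K W` : they preserve the subspace `W`;
* `mem_of_fx`, `eq_of_conj` : the lifted versions of `C_G(K) ≤ K` and of (A1).
-/

set_option autoImplicit false
set_option linter.unusedSectionVars false

namespace Cfsg.Agent.H502.Car

open QuadraticMap Cfsg.Agent.LieClassical.OrthCore Cfsg.Agent.LieClassical.OrthTrans
  Cfsg.Agent.LieClassical.OrthSimple Cfsg.Agent.ClassicalGeometry.OrthSemi
  Cfsg.Agent.ClassicalGeometry.OrthAut1 Cfsg.Agent.H989.OutOrth.Basic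
open Subgroup Pointwise Cfsg.Agent.Solvable.Carter Cfsg.Agent.H18.Carter Cfsg.Agent.H381.Car

universe u

variable {F V : Type*} [Field F] [AddCommGroup V] [Module F V] {Q : QuadraticForm F V}
variable {G : Type u} [Group G] {S : Subgroup G} [S.Normal]

/-- the action of `G` on `P Q` -/
noncomputable def act (e : S ≃* P Q) : G →* MulAut (P Q) :=
  (MulAut.congr e).toMonoidHom.comp (MulAut.conjNormal (H := S))

theorem act_apply (e : S ≃* P Q) (g : G) (x : P Q) : act e g x = e (MulAut.conjNormal g (e.symm x)) := rfl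

/-- the homomorphism `E Q → S ≤ G` -/
noncomputable def el (e : S ≃* P Q) : ↥(E Q) →* G :=
  S.subtype.comp (e.symm.toMonoidHom.comp (QuotientGroup.mk' (center ↥(E Q))))

theorem el_apply (e : S ≃* P Q) (x : ↥(E Q)) : el e x = (e.symm (x : P Q) : S) := rfl

theorem el_mem (e : S ≃* P Q) (x : ↥(E Q)) : el e x ∈ S := (e.symm (x : P Q) : S).2

theorem exists_el (e : S ≃* P Q) {s : G} (hs : s ∈ S) : ∃ x, el e x = s := by
  obtain ⟨x, hx⟩ := QuotientGroup.mk_surjective (e ⟨s, hs⟩)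
  refine ⟨x, ?_⟩
  rw [el_apply, hx, MulEquiv.symm_apply_apply]

theorem el_eq_one_iff (e : S ≃* P Q) (x : ↥(E Q)) : el e x = 1 ↔ x ∈ center ↥(E Q) := by
  rw [el_apply, ← QuotientGroup.eq_one_iff]
  constructor
  · intro h
    have h1 : e.symm (x : P Q) = 1 := Subtype.ext h
    rwa [MulEquiv.map_eq_one_iff] at h1
  · intro h
    rw [h, map_one]; rfl

/-- `M` induces the automorphism given by `g` -/
def Lf (e : S ≃* P Q) (g : G) (M : Gam Q) : Prop := Psi Q M = act e g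

theorem Lf.mul {e : S ≃* P Q} {g g' : G} {M M' : Gam Q} (h : Lf e g M) (h' : Lf e g' M') : Lf e (g * g') (M * M') := by
  show Psi Q (M * M') = act e (g * g')
  rw [map_mul, map_mul, h, h']

theorem Lf.inv {e : S ≃* P Q} {g : G} {M : Gam Q} (h : Lf e g M) : Lf e g⁻¹ M⁻¹ := by
  show Psi Q M⁻¹ = act e g⁻¹
  rw [map_inv, map_inv, h]

theorem Lf.conj {e : S ≃* P Q} {g : G} {M : Gam Q} (h : Lf e g M) (x : ↥(E Q)) :
    g * el e x * g⁻¹ = el e (conjE Q M x) := by
  have h1 : Psi Q M (x : P Q) = act e g (x : P Q) := by rw [h]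
  rw [Psi_mk, act_apply] at h1
  have h2 : e.symm ((conjE Q M x : ↥(E Q)) : P Q) = MulAut.conjNormal g (e.symm (x : P Q)) := by
    rw [h1, MulEquiv.symm_apply_apply]
  rw [el_apply, el_apply, h2]
  rfl

theorem lf_el (e : S ≃* P Q) (x : ↥(E Q)) : Lf e (el e x) (ofO Q ⟨x, E_le_O x.2⟩) := by
  show Psi Q _ = act e _
  rw [Psi_ofO]
  ext y
  rw [MulAut.conj_apply, act_apply]
  have h1 : MulAut.conjNormal (el e x) (e.symm y) = e.symm (x : P Q) * e.symm y * (e.symm (x : P Q))⁻¹ :=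
    Subtype.ext rfl
  rw [h1, map_mul, map_mul, map_inv, MulEquiv.apply_symm_apply, MulEquiv.apply_symm_apply]

theorem Lf.eq_one_of_scal {e : S ≃* P Q} (hG : Good Q) {g : G} {M M' : Gam Q} (h : Lf e g M) (h' : Lf e g M') :
    ∃ a : Fˣ, M' = M * scal Q a := by
  have h1 : M⁻¹ * M' ∈ (Psi Q).ker := by
    rw [MonoidHom.mem_ker, map_mul, map_inv, h, h', inv_mul_cancel]
  rw [ker_Psi hG] at h1
  obtain ⟨a, ha⟩ := h1
  exact ⟨a, by rw [ha, mul_inv_cancel_left]⟩

theorem act_injective (e : S ≃* P Q) (hcen : centralizer (S : Set G) = ⊥) : Function.Injective (act e) := by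
  rw [injective_iff_map_eq_one]
  intro g hg
  rw [← mem_bot, ← hcen, mem_centralizer_iff]
  intro s hs
  have h1 : act e g (e ⟨s, hs⟩) = e ⟨s, hs⟩ := by rw [hg]; rfl
  rw [act_apply, MulEquiv.symm_apply_apply] at h1
  have h2 := congrArg Subtype.val (e.injective h1)
  have h3 : g * s * g⁻¹ = s := h2
  rw [mul_inv_eq_iff_eq_mul] at h3
  exact h3.symm

/-- the central elements of `E Q` -/
theorem center_cases (hG : Good Q) {x : ↥(E Q)} (hx : x ∈ center ↥(E Q)) :
    ∃ c : F, c * c = 1 ∧ ∀ v, (x : V ≃ₗ[F] V) v = c • v := by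
  obtain ⟨c, hc⟩ := center_scalar hG hx
  refine ⟨c, ?_, hc⟩
  obtain ⟨a, b, hab⟩ := hG.exists_hyp
  have h1 := polar_map (E_le_O x.2) a b
  rwa [hc, hc, polar_smul_left, polar_smul_right, hab.pair, smul_eq_mul, smul_eq_mul, mul_one] at h1

theorem center_sq (hG : Good Q) {x : ↥(E Q)} (hx : x ∈ center ↥(E Q)) : x * x = 1 := by
  obtain ⟨c, hc, h⟩ := center_cases hG hx
  apply Subtype.ext
  ext v
  show (x : V ≃ₗ[F] V) ((x : V ≃ₗ[F] V) v) = v
  rw [h, h, smul_smul, hc, one_smul]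

/-- elements of odd order of `S` lift to elements of odd order -/
theorem exists_lift_odd (hG : Good Q) (e : S ≃* P Q) {n : ℕ} (hn : Odd n) {s : G} (hs : s ∈ S) (hsn : s ^ n = 1) :
    ∃ x, x ^ n = 1 ∧ el e x = s := by
  obtain ⟨x, rfl⟩ := exists_el e hs
  rw [← map_pow, el_eq_one_iff] at hsn
  have h1 := center_sq hG hsn
  refine ⟨x * x ^ n, ?_, ?_⟩
  · have e1 : x * x ^ n = x ^ (n + 1) := (pow_succ' x n).symm
    obtain ⟨m, hm⟩ : Even (n + 1) := hn.add_one
    rw [e1, ← pow_mul, mul_comm, pow_mul, hm, ← two_mul, pow_mul, pow_two, h1, one_pow]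
  · rw [map_mul, (el_eq_one_iff e _).2 hsn, mul_one]

/-- ... uniquely -/
theorem eq_of_el_eq (hG : Good Q) (e : S ≃* P Q) {n : ℕ} (hn : Odd n) {x y : ↥(E Q)} (hx : x ^ n = 1)
    (hy : y ^ n = 1) (h : el e x = el e y) : x = y := by
  have h1 : x⁻¹ * y ∈ center ↥(E Q) := by
    rw [← el_eq_one_iff e, map_mul, map_inv, h, inv_mul_cancel]
  obtain ⟨z, hz⟩ : ∃ z, z = x⁻¹ * y := ⟨_, rfl⟩
  rw [← hz] at h1
  have h2 : y = x * z := by rw [hz]; group
  have hc : Commute x z := (mem_center_iff.1 h1 x)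
  have h3 : z ^ n = 1 := by
    have := hc.mul_pow n
    rw [← h2, hy, hx, one_mul] at this
    exact this.symm
  obtain ⟨m, hm⟩ := hn
  rw [hm, pow_succ, pow_mul, pow_two, center_sq hG h1, one_pow, one_mul] at h3
  rw [h2, h3, mul_one]

/-- if `g` centralises `el e x`, `x` of odd order, its lifts commute with `x` -/
theorem Lf.fix (hG : Good Q) {e : S ≃* P Q} {g : G} {M : Gam Q} (h : Lf e g M) {n : ℕ} (hn : Odd n) {x : ↥(E Q)}
    (hx : x ^ n = 1) (hg : g * el e x * g⁻¹ = el e x) : conjE Q M x = x := by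
  refine eq_of_el_eq hG e hn ?_ hx ?_
  · rw [← map_pow, hx, map_one]
  · rw [← h.conj, hg]

/-! ### the subgroup `K` -/

/-- all lifts of elements of `K` commute with `x` -/
def Fx (e : S ≃* P Q) (K : Subgroup G) (x : ↥(E Q)) : Prop := ∀ k ∈ K, ∀ M : Gam Q, Lf e k M → conjE Q M x = x

/-- all lifts of elements of `K` preserve `W` -/
def Iv (e : S ≃* P Q) (K : Subgroup G) (W : Submodule F V) : Prop :=
  ∀ k ∈ K, ∀ M : Gam Q, Lf e k M → ∀ v ∈ W, M.1 v ∈ W

theorem Iv.inv {e : S ≃* P Q} {K : Subgroup G} {W : Submodule F V} (h : Iv e K W) {k : G} (hk : k ∈ K) {M : Gam Q}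
    (hM : Lf e k M) {v : V} (hv : v ∈ W) : M.1⁻¹ v ∈ W :=
  h k⁻¹ (inv_mem hk) M⁻¹ hM.inv v hv

theorem Iv.mem_iff {e : S ≃* P Q} {K : Subgroup G} {W : Submodule F V} (h : Iv e K W) {k : G} (hk : k ∈ K) {M : Gam Q}
    (hM : Lf e k M) {v : V} : M.1 v ∈ W ↔ v ∈ W := by
  refine ⟨fun h1 => ?_, h k hk M hM v⟩
  have := h.inv hk hM h1
  rwa [inv_apply] at this

theorem fx_of_commute (hG : Good Q) {e : S ≃* P Q} {K : Subgroup G} {n : ℕ} (hn : Odd n) {x : ↥(E Q)}
    (hx : x ^ n = 1) (h : K ≤ centralizer ({el e x} : Set G)) : Fx e K x := by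
  intro k hk M hM
  refine hM.fix hG hn hx ?_
  rw [mul_inv_eq_iff_eq_mul]
  exact mem_centralizer_singleton_iff.1 (h hk)

theorem Fx.le_centralizer {e : S ≃* P Q} {K : Subgroup G} (hs : ∀ g : G, ∃ M : Gam Q, Lf e g M) {x : ↥(E Q)}
    (h : Fx e K x) : K ≤ centralizer ({el e x} : Set G) := by
  intro k hk
  obtain ⟨M, hM⟩ := hs k
  have h1 := hM.conj x
  rw [h k hk M hM, mul_inv_eq_iff_eq_mul] at h1
  exact mem_centralizer_singleton_iff.2 h1

/-- an element commuting with a Carter subgroup lies in it -/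
theorem mem_of_le_centralizer {K : Subgroup G} (hK : IsCarter K) {x : G} (h : K ≤ centralizer ({x} : Set G)) :
    x ∈ K := by
  rw [← hK.2, mem_normalizer_iff]
  intro k
  constructor
  · intro hk
    have h1 := mem_centralizer_singleton_iff.1 (h hk)
    rwa [← h1, mul_inv_cancel_right]
  · intro hk
    have h1 := mem_centralizer_singleton_iff.1 (h hk)
    have h2 : x * k * x⁻¹ * x = x * k := by group
    rw [h2] at h1
    have h3 : k = x * k * x⁻¹ := mul_left_cancel h1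
    rw [h3]; exact hk

theorem Fx.mem {e : S ≃* P Q} {K : Subgroup G} (hs : ∀ g : G, ∃ M : Gam Q, Lf e g M) (hK : IsCarter K) {x : ↥(E Q)}
    (h : Fx e K x) : el e x ∈ K := mem_of_le_centralizer hK (h.le_centralizer hs)

/-- (A1), lifted -/
theorem eq_of_fx_conj [Finite G] (hG : Good Q) (c : Ctx G S) {e : S ≃* P Q} {K : Subgroup G}
    (hs : ∀ g : G, ∃ M : Gam Q, Lf e g M) (hK : IsCarter K) {n : ℕ} (hn : Odd n) {x y h : ↥(E Q)} (hx : x ^ n = 1)
    (hy : y ^ n = 1) (h1 : Fx e K x) (h2 : Fx e K y) (h3 : h * x * h⁻¹ = y) : x = y := by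
  have h4 : el e h * el e x * (el e h)⁻¹ = el e y := by rw [← h3, map_mul, map_mul, map_inv]
  have h5 := c.eq_of_conj hK (h1.le_centralizer hs) (g := el e h) (by
    rw [h4]; exact h2.le_centralizer hs)
  rw [h4] at h5
  exact (eq_of_el_eq hG e hn hy hx h5).symm

theorem Fx.pow {e : S ≃* P Q} {K : Subgroup G} {x : ↥(E Q)} (h : Fx e K x) (n : ℕ) : Fx e K (x ^ n) := by
  intro k hk M hM
  rw [map_pow, h k hk M hM]

/-- an element of odd order fixed by `K` is not conjugate to another power -/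
theorem no_conj_pow [Finite G] (hG : Good Q) (c : Ctx G S) {e : S ≃* P Q} {K : Subgroup G}
    (hs : ∀ g : G, ∃ M : Gam Q, Lf e g M) (hK : IsCarter K) {n : ℕ} (hn : Odd n) {x h : ↥(E Q)} (hx : x ^ n = 1)
    (h1 : Fx e K x) {j : ℕ} (h3 : h * x * h⁻¹ = x ^ j) : x ^ j = x :=
  (eq_of_fx_conj hG c hs hK hn hx (by rw [← pow_mul, mul_comm, pow_mul, hx, one_pow]) h1 (h1.pow j) h3).symm

end Cfsg.Agent.H502.Car
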