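import Cfsg.Agent.H502.Car.RealD
import Cfsg.Agent.H502.Car.Stmts

/-!
# S3852: no central elements of order three in characteristic three (orthogonal groups, helper502)
-/

set_option autoImplicit false
set_option linter.unusedSectionVars false

namespace Cfsg.Agent.H502.Car

open QuadraticMap Cfsg.Agent.LieClassical.OrthCore Cfsg.Agent.LieClassical.OrthTrans
  Cfsg.Agent.LieClassical.OrthSimple Cfsg.Agent.ClassicalGeometry.OrthSemi
  Cfsg.Agent.ClassicalGeometry.OrthAut1 Cfsg.Agent.H989.OutOrth.Basic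
open Subgroup Pointwise Cfsg.Agent.Solvable.Carter Cfsg.Agent.H18.Carter Cfsg.Agent.H381.Car

universe u

theorem eta_sq (F : Type*) [Field F] : eta F * eta F = 1 := by
  rw [eta]; split_ifs <;> norm_num

theorem not_real {F V : Type*} [Field F] [AddCommGroup V] [Module F V] {Q : QuadraticForm F V}
    {G : Type u} [Group G] [Finite G] {S : Subgroup G} [S.Normal] (hG : Good Q) (c : Ctx G S) {K : Subgroup G}
    (hK : IsCarter K) (e : S ≃* P Q) (hs : ∀ g : G, ∃ M : Gam Q, Lf e g M) {z : ↥(E Q)} (hz : z ^ 3 = 1) (hz1 : z ≠ 1)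
    (hzK : Fx e K z) : ¬ ∃ h ∈ E Q, h * z.1 * h⁻¹ = z.1⁻¹ := by
  rintro ⟨h, hh, hhz⟩
  have h3 : (⟨h, hh⟩ : ↥(E Q)) * z * (⟨h, hh⟩ : ↥(E Q))⁻¹ = z ^ 2 := by
    have e1 : z ^ 2 = z⁻¹ := by
      rw [eq_inv_iff_mul_eq_one, ← pow_succ, hz]
    rw [e1]
    exact Subtype.ext hhz
  have h4 := no_conj_pow hG c hs hK (n := 3) (by decide) hz hzK h3
  apply hz1
  have := hz
  rw [pow_succ, h4, ← pow_two, h4] at this
  exact this

theorem no_three (hFT : FrameTs.{u}) {F : Type} [Field F] [Finite F] {ι : Type} [Fintype ι] [DecidableEq ι]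
    {Q : QuadraticForm F (ι → F)} (hG : Good Q) [CharP F 3] (h7 : 7 ≤ Fintype.card ι)
    {G : Type u} [Group G] [Finite G] {S : Subgroup G} [S.Normal] (c : Ctx G S) {K : Subgroup G}
    (hK : IsCarter K) (e : S ≃* P Q) (hs : ∀ g : G, ∃ M : Gam Q, Lf e g M) {z : ↥(E Q)} (hz : z ^ 3 = 1) (hz1 : z ≠ 1)
    (hzK : Fx e K z) : False := by
  have hnr := not_real hG c hK e hs hz hz1 hzK
  have h2 : (2 : F) ≠ 0 := two_ne
  have hzO : z.1 ∈ O Q := E_le_O z.2
  have hz' : z.1 ^ 3 = 1 := congrArg Subtype.val hz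
  obtain ⟨h, hO, hh1, hh2, m, hm, hh3⟩ := exists_inverting hG.nondeg hzO hz'
  obtain ⟨N, hN, hNv⟩ : ∃ N : (ι → F) →ₗ[F] (ι → F), N = (z.1 : (ι → F) →ₗ[F] (ι → F)) - LinearMap.id ∧
      ∀ v, N v = z.1 v - v := ⟨_, rfl, fun _ => rfl⟩
  rw [← hN] at hm
  -- `m` is odd
  have hmo : Odd m := by
    by_contra hcon
    rw [Nat.not_odd_iff_even] at hcon
    obtain ⟨k, hk⟩ := hcon
    apply hnr
    refine real_of_sg hG hO hh1 hh2 ?_
    rw [hh3, hk, ← two_mul, pow_mul, pow_two, eta_sq, one_pow]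
  -- rank of the square
  have hr : Module.finrank F (LinearMap.range ((lg z.1).comp (lg z.1))) ≤ 1 := by
    by_contra hcon
    exact hnr (real_of_rank hG hzO hz' (by omega))
  obtain ⟨W, hW⟩ : ∃ W, W = LinearMap.range ((lg z.1).comp (lg z.1)) := ⟨_, rfl⟩
  rw [← hW] at hr
  have hWm : ∀ w, w ∈ W ↔ ∃ v, z.1 (z.1 v) + z.1 v + v = w := by
    intro w
    rw [hW, LinearMap.mem_range]
    constructor
    · rintro ⟨v, rfl⟩
      exact ⟨v, (lg_lg hz' v).symm⟩
    · rintro ⟨v, rfl⟩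
      exact ⟨v, lg_lg hz' v⟩
  have hNN : ∀ v, N (N v) = z.1 (z.1 v) + z.1 v + v := by
    intro v
    rw [hNv, hNv, map_sub]
    have : z.1 (z.1 v) - z.1 v - (z.1 v - v) = z.1 (z.1 v) + z.1 v + v - (3 : F) • z.1 v := by module
    rw [this, three_smul_eq, sub_zero]
  have hWN : W = (LinearMap.range N).map N := by
    ext w
    rw [hWm]
    constructor
    · rintro ⟨v, rfl⟩
      exact ⟨N v, ⟨v, rfl⟩, hNN v⟩
    · rintro ⟨_, ⟨v, rfl⟩, rfl⟩
      exact ⟨v, (hNN v).symm⟩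
  obtain ⟨R, hR⟩ : ∃ R, R = LinearMap.range N ⊓ LinearMap.ker N := ⟨_, rfl⟩
  have hRm : ∀ r, r ∈ R ↔ (∃ v, z.1 v - v = r) ∧ z.1 r = r := by
    intro r
    rw [hR, Submodule.mem_inf, LinearMap.mem_range, LinearMap.mem_ker, hNv, sub_eq_zero]
    simp only [hNv]
  have hWR : W ≤ R := by
    intro w hw
    obtain ⟨v, rfl⟩ := (hWm w).1 hw
    rw [hRm]
    refine ⟨⟨N v, ?_⟩, ?_⟩
    · rw [← hNv, hNN]
    · rw [map_add, map_add, zzz hz']; abel
  have hTs : Ts Q R := by
    intro r hr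
    obtain ⟨⟨v, hv⟩, hr2⟩ := (hRm r).1 hr
    apply Q_eq_zero h2
    have h3 := polar_map hzO v r
    rw [hr2] at h3
    nth_rewrite 1 [← hv]
    rw [polar_sub_left, h3, sub_self]
  have hLz : ∀ k ∈ K, ∀ L : Gam Q, Lf e k L → ∀ v, L.1 (z.1 v) = z.1 (L.1 v) := by
    intro k hk L hL v
    have h3 : conjLin L z.1 = z.1 := congrArg Subtype.val (hzK k hk L hL)
    rw [← conjLin_apply' L z.1, h3]
  have hRK : Iv e K R := by
    intro k hk L hL r hr
    obtain ⟨⟨v, hv⟩, hr2⟩ := (hRm r).1 hr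
    rw [hRm]
    refine ⟨⟨L.1 v, ?_⟩, ?_⟩
    · rw [← hLz k hk L hL, ← gam_sub, hv]
    · rw [← hLz k hk L hL, hr2]
  have hWK : Iv e K W := by
    intro k hk L hL w hw
    obtain ⟨v, rfl⟩ := (hWm w).1 hw
    rw [hWm]
    refine ⟨L.1 v, ?_⟩
    rw [add_of_mem L.2, add_of_mem L.2, hLz k hk L hL, hLz k hk L hL]
  have hRz : ∀ r ∈ R, ∃ v, z.1 v - v = r := fun r hr => ((hRm r).1 hr).1
  -- dimensions
  have hfr : Module.finrank F W + Module.finrank F R = 2 * m := by
    rw [← hm]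
    have h3 := LinearMap.finrank_range_add_finrank_ker (N.domRestrict (LinearMap.range N))
    have h4 : LinearMap.range (N.domRestrict (LinearMap.range N)) = W := by
      rw [hWN]
      ext w
      constructor
      · rintro ⟨⟨v, hv⟩, rfl⟩
        exact ⟨v, hv, rfl⟩
      · rintro ⟨v, hv, rfl⟩
        exact ⟨⟨v, hv⟩, rfl⟩
    have h5 : (LinearMap.ker (N.domRestrict (LinearMap.range N))).map (LinearMap.range N).subtype = R := by
      rw [hR]
      ext w
      constructor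
      · rintro ⟨⟨v, hv⟩, hv2, rfl⟩
        exact ⟨hv, hv2⟩
      · rintro ⟨hv, hv2⟩
        exact ⟨⟨w, hv⟩, hv2, rfl⟩
    have h6 := (Submodule.equivMapOfInjective (LinearMap.range N).subtype (LinearMap.range N).subtype_injective
      (LinearMap.ker (N.domRestrict (LinearMap.range N)))).finrank_eq
    rw [h5] at h6
    rw [h4, h6] at h3
    exact h3
  have hker : Module.finrank F (LinearMap.ker N) + 2 * m = Fintype.card ι := by
    have h3 := LinearMap.finrank_range_add_finrank_ker N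
    rw [hm, Module.finrank_fintype_fun_eq_card] at h3
    omega
  have hhyp : Module.finrank F R + 3 ≤ Module.finrank F (LinearMap.ker N) → False := by
    intro h3
    apply hnr
    rw [hN] at h3
    exact real_of_hyp hG z.1 hzO hz' (exists_hyp_ker hG.nondeg hzO hz' (fun v h4 h5 => (hRm v).2 ⟨h5, h4⟩)
      (fun v hv => ((hRm v).1 hv).2) h3)
  by_cases h1 : m = 1
  · apply hhyp
    omega
  · have hm0 : m ≠ 0 := by rintro rfl; exact absurd hmo (by decide)
    by_cases h0 : W = ⊥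
    · -- `(z - 1)² = 0`
      have hR2 : Module.finrank F R = 2 * m := by
        rw [h0, finrank_bot] at hfr; omega
      obtain ⟨W', hW'R, hW'0, hW'1, hW'2, hW'K⟩ := hFT F ι Q hG h2 G S c K hK e hs R hTs hRK m hR2 hmo (by
        obtain ⟨k, hk⟩ := hmo; omega)
      exact no_chain hG (real_of_hyp hG) c hK e hs hz hzK hTs hW'R hW'0 hW'1 hW'K hRK hRz (Or.inl hW'2)
    · have hW1 : Module.finrank F W = 1 := by
        have : Module.finrank F W ≠ 0 := by rw [Ne, Submodule.finrank_eq_zero]; exact h0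
        omega
      refine no_chain hG (real_of_hyp hG) c hK e hs hz hzK hTs hWR h0 ?_ hWK hRK hRz (Or.inr ?_)
      · intro h3
        rw [h3] at hfr hW1
        omega
      · have : Module.finrank F R - Module.finrank F W = 2 * (m - 1) := by omega
        rw [this]
        exact even_two_mul _

end Cfsg.Agent.H502.Car
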