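import Cfsg.Agent.H502.Car.PrimeNe
import Cfsg.Agent.H502.Car.Three
import Cfsg.Agent.H502.Car.Four
import Cfsg.Agent.H18.Carter.Frame

/-!
# S3852, orthogonal groups in odd characteristic: `K ∩ S` is a `2`-group (helper502)

* `two_of_lifts` : all automorphisms are induced by semisimilitudes, `dim V ≥ 7`;
* `two_of_eight` : `dim V = 8`.
-/

set_option autoImplicit false
set_option linter.unusedSectionVars false

namespace Cfsg.Agent.H502.Car

open QuadraticMap Cfsg.Agent.LieClassical.OrthCore Cfsg.Agent.LieClassical.OrthTrans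
  Cfsg.Agent.LieClassical.OrthSimple Cfsg.Agent.ClassicalGeometry.OrthSemi
  Cfsg.Agent.ClassicalGeometry.OrthAut1 Cfsg.Agent.H989.OutOrth.Basic
open Subgroup Pointwise Cfsg.Agent.Solvable.Carter Cfsg.Agent.H18.Carter Cfsg.Agent.H381.Car

universe u

theorem finrank_range_sq {F V : Type*} [Field F] [AddCommGroup V] [Module F V] [FiniteDimensional F V]
    (N : V →ₗ[F] V) : Module.finrank F (LinearMap.range (N.comp N)) +
      Module.finrank F (LinearMap.range N ⊓ LinearMap.ker N : Submodule F V) = Module.finrank F (LinearMap.range N) := by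
  have h3 := LinearMap.finrank_range_add_finrank_ker (N.domRestrict (LinearMap.range N))
  have h4 : LinearMap.range (N.domRestrict (LinearMap.range N)) = LinearMap.range (N.comp N) := by
    ext w
    constructor
    · rintro ⟨⟨_, v, rfl⟩, rfl⟩
      exact ⟨v, rfl⟩
    · rintro ⟨v, rfl⟩
      exact ⟨⟨N v, v, rfl⟩, rfl⟩
  have h5 : (LinearMap.ker (N.domRestrict (LinearMap.range N))).map (LinearMap.range N).subtype =
      LinearMap.range N ⊓ LinearMap.ker N := by
    ext w
    constructor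
    · rintro ⟨⟨v, hv⟩, hv2, rfl⟩
      exact ⟨hv, hv2⟩
    · rintro ⟨hv, hv2⟩
      exact ⟨⟨w, hv⟩, hv2, rfl⟩
  have h6 := (Submodule.equivMapOfInjective (LinearMap.range N).subtype (LinearMap.range N).subtype_injective
    (LinearMap.ker (N.domRestrict (LinearMap.range N)))).finrank_eq
  rw [h5] at h6
  rw [h4, h6] at h3
  exact h3

section

variable {F : Type} [Field F] [Finite F] {ι : Type} [Fintype ι] [DecidableEq ι] {Q : QuadraticForm F (ι → F)}

/-- in dimension `≤ 10` all elements of order three are real -/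
theorem real_of_dim [CharP F 3] (hG : Good Q) (h7 : 7 ≤ Fintype.card ι) (h10 : Fintype.card ι ≤ 10)
    {z : (ι → F) ≃ₗ[F] (ι → F)} (hzO : z ∈ O Q) (hz : z ^ 3 = 1) : ∃ h ∈ E Q, h * z * h⁻¹ = z⁻¹ := by
  by_contra hnr
  have h2 : (2 : F) ≠ 0 := two_ne
  obtain ⟨h, hO, hh1, hh2, m, hm, hh3⟩ := exists_inverting hG.nondeg hzO hz
  obtain ⟨N, hN, hNv⟩ : ∃ N : (ι → F) →ₗ[F] (ι → F), N = (z : (ι → F) →ₗ[F] (ι → F)) - LinearMap.id ∧
      ∀ v, N v = z v - v := ⟨_, rfl, fun _ => rfl⟩
  rw [← hN] at hm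
  have hmo : Odd m := by
    by_contra hcon
    rw [Nat.not_odd_iff_even] at hcon
    obtain ⟨k, hk⟩ := hcon
    apply hnr
    refine real_of_sg hG hO hh1 hh2 ?_
    rw [hh3, hk, ← two_mul, pow_mul, pow_two, eta_sq, one_pow]
  have hr : Module.finrank F (LinearMap.range ((lg z).comp (lg z))) ≤ 1 := by
    by_contra hcon
    exact hnr (real_of_rank hG hzO hz (by omega))
  have hNN : LinearMap.range (N.comp N) = LinearMap.range ((lg z).comp (lg z)) := by
    have h3 : ∀ v, N (N v) = z (z v) + z v + v := by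
      intro v
      rw [hNv, hNv, map_sub]
      have : z (z v) - z v - (z v - v) = z (z v) + z v + v - (3 : F) • z v := by module
      rw [this, three_smul_eq, sub_zero]
    ext w
    constructor
    · rintro ⟨v, rfl⟩
      exact ⟨v, by rw [LinearMap.comp_apply, LinearMap.comp_apply, lg_lg hz, h3]⟩
    · rintro ⟨v, rfl⟩
      exact ⟨v, by rw [LinearMap.comp_apply, LinearMap.comp_apply, lg_lg hz, h3]⟩
  have h3 := finrank_range_sq N
  rw [hNN, hm] at h3
  have hker : Module.finrank F (LinearMap.ker N) + 2 * m = Fintype.card ι := by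
    have h3 := LinearMap.finrank_range_add_finrank_ker N
    rw [hm, Module.finrank_fintype_fun_eq_card] at h3
    omega
  have hle : Module.finrank F (LinearMap.range N ⊓ LinearMap.ker N : Submodule F (ι → F)) ≤
      Module.finrank F (LinearMap.ker N) := Submodule.finrank_mono inf_le_right
  have h5 : m = 1 := by
    obtain ⟨k, hk⟩ := hmo
    omega
  have hRm : ∀ r, r ∈ (LinearMap.range N ⊓ LinearMap.ker N : Submodule F (ι → F)) ↔ (∃ v, z v - v = r) ∧ z r = r := by
    intro r
    rw [Submodule.mem_inf, LinearMap.mem_range, LinearMap.mem_ker, hNv, sub_eq_zero]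
    simp only [hNv]
  apply hnr
  refine real_of_hyp hG z hzO hz (exists_hyp_ker hG.nondeg hzO hz (fun v h4 h5 => (hRm v).2 ⟨h5, h4⟩)
    (fun v hv => ((hRm v).1 hv).2) ?_)
  rw [hN] at h3 hker
  rw [hN]
  omega

variable {G : Type u} [Group G] [Finite G] {S : Subgroup G} [S.Normal]

/-- **`K ∩ S` is a `2`-group**, all automorphisms induced by semisimilitudes -/
theorem two_of_lifts (hFO : FrameO.{u}) (hFT : FrameTs.{u}) (hG : Good Q) (h2 : (2 : F) ≠ 0)
    (h7 : 7 ≤ Fintype.card ι) (c : Ctx G S) (e : S ≃* P Q) (hs : ∀ g : G, ∃ M : Gam Q, Lf e g M)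
    {K : Subgroup G} (hK : IsCarter K) : IsPGroup 2 ↥(K ⊓ S) := by
  rw [IsPGroup.iff_card]
  refine ⟨_, Nat.eq_prime_pow_of_unique_prime_dvd Nat.card_pos.ne' ?_⟩
  intro r hr hd
  by_contra hne
  haveI : Fact r.Prime := ⟨hr⟩
  have hodd := hr.odd_of_ne_two hne
  obtain ⟨z, hzS, -, hz, hzK⟩ := exists_central hK.1 (r := r) hd
  obtain ⟨x, hx, hxz⟩ := exists_lift_odd hG e hodd hzS (by rw [← hz, pow_orderOf_eq_one])
  have hx1 : x ≠ 1 := by
    rintro rfl
    rw [map_one] at hxz
    rw [← hxz, orderOf_one] at hz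
    exact hr.one_lt.ne hz
  have hxK : Fx e K x := fx_of_commute hG hodd hx (by rw [hxz]; exact hzK)
  by_cases hrF : (r : F) = 0
  · have hcr : CharP F r := by
      obtain ⟨p, hp⟩ := CharP.exists F
      have hpp : p.Prime := CharP.char_is_prime F p
      have h3 := (CharP.cast_eq_zero_iff F p r).1 hrF
      rw [Nat.prime_dvd_prime_iff_eq hpp hr] at h3
      rw [← h3]
      exact hp
    by_cases h3 : r = 3
    · subst h3
      exact no_three hFT hG h7 c hK e hs hx hx1 hxK
    · have h5 : 5 ≤ r := by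
        have h4 : r ≠ 4 := by rintro rfl; exact absurd hr (by norm_num)
        have := hr.two_le
        omega
      obtain ⟨h, hh, hhx⟩ := conjFour F ι Q hG r h5 x.1 (E_le_O x.2) (congrArg Subtype.val hx)
      have h6 := no_conj_pow hG c hs hK hodd hx hxK (h := ⟨h, hh⟩) (j := 4) (Subtype.ext hhx)
      have h7 : x ^ 3 = 1 := by
        have h8 : x ^ 3 * x = 1 * x := by rw [← pow_succ, h6, one_mul]
        exact mul_right_cancel h8
      have h8 := orderOf_dvd_of_pow_eq_one h7
      rw [orderOf_eq_prime hx hx1] at h8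
      have := Nat.le_of_dvd (by norm_num) h8
      omega
  · exact no_prime_ne hFO hG h2 h7 c hK e hs hr hne hrF hx hx1 hxK

/-- **`K ∩ S` is a `2`-group**, dimension eight -/
theorem two_of_eight (hG : Good Q) (h2 : (2 : F) ≠ 0) (h8 : Fintype.card ι = 8) (c : Ctx G S) (e : S ≃* P Q)
    {K : Subgroup G} (hK : IsCarter K) : IsPGroup 2 ↥(K ⊓ S) := by
  refine two_of_real c (fun z hzS ho ho2 => ?_) hK
  obtain ⟨r, hr⟩ : ∃ r, r = orderOf z := ⟨_, rfl⟩
  rw [← hr] at ho ho2
  haveI : Fact r.Prime := ⟨ho⟩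
  have hodd := ho.odd_of_ne_two ho2
  obtain ⟨x, hx, hxz⟩ := exists_lift_odd hG e hodd hzS (by rw [hr, pow_orderOf_eq_one])
  have hx' : x.1 ^ r = 1 := congrArg Subtype.val hx
  obtain ⟨k, hk, h, hh, hc⟩ : ∃ k : ℕ, ¬ k ≡ 1 [MOD r] ∧ ∃ h ∈ E Q, h * x.1 * h⁻¹ = x.1 ^ k := by
    by_cases hrF : (r : F) = 0
    · have hcr : CharP F r := by
        obtain ⟨p, hp⟩ := CharP.exists F
        have hpp : p.Prime := CharP.char_is_prime F p
        have h3 := (CharP.cast_eq_zero_iff F p r).1 hrF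
        rw [Nat.prime_dvd_prime_iff_eq hpp ho] at h3
        rw [← h3]
        exact hp
      by_cases h3 : r = 3
      · clear hr
        subst h3
        obtain ⟨h, hh, hhx⟩ := real_of_dim hG (by omega) (by omega) (E_le_O x.2) hx'
        refine ⟨2, by decide, h, hh, ?_⟩
        rw [hhx, inv_eq_iff_mul_eq_one, ← pow_succ', hx']
      · have h5 : 5 ≤ r := by
          have h4 : r ≠ 4 := by rintro rfl; exact absurd ho (by norm_num)
          have := ho.two_le
          omega
        obtain ⟨h, hh, hhx⟩ := conjFour F ι Q hG r h5 x.1 (E_le_O x.2) hx'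
        refine ⟨4, fun h6 => ?_, h, hh, hhx⟩
        have h7 := (Nat.modEq_iff_dvd' (by norm_num : 1 ≤ 4)).1 h6.symm
        have := Nat.le_of_dvd (by norm_num) h7
        omega
    · exact exists_pow_ne hG h2 ho ho2 hrF (E_le_O x.2) hx' fun _ => Or.inr (by omega)
  have h3 : el e ⟨h, hh⟩ * z * (el e ⟨h, hh⟩)⁻¹ = z ^ k := by
    have h4 : (⟨h, hh⟩ : ↥(E Q)) * x * (⟨h, hh⟩ : ↥(E Q))⁻¹ = x ^ k := Subtype.ext hc
    rw [← hxz, ← map_inv, ← map_mul, ← map_mul, h4, map_pow]
  refine ⟨el e ⟨h, hh⟩, ?_, ?_⟩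
  · rw [h3]
    intro h4
    apply hk
    rw [hr, ← pow_eq_pow_iff_modEq, h4, pow_one]
  · rw [h3]
    exact mem_zpowers_iff.2 ⟨k, zpow_natCast z k⟩

end

end Cfsg.Agent.H502.Car
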