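import Cfsg.Agent.H507.GmnOrthRows
import Cfsg.Agent.H709.CharPow
import Cfsg.Agent.H502.Car.Kill
import Cfsg.Agent.FooteOrth.Spin

/-!
# S3852, orthogonal groups: elements of odd prime order prime to the characteristic (helper502), I

* `exists_pow_ne` : `z` is conjugate in `E Q` to another power, if `r ∤ q² - 1` or `z` has a fixed vector or
  `dim V ≢ 2 mod 4`;
* `exists_invs` : isometries inverting `z` with prescribed spinor sign;
* `conj_frob` : if a `σ`-semilinear bijection commutes with `z`, `σ a = a ^ p ^ i`, then `z ~ z ^ p ^ i`.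
-/

set_option autoImplicit false
set_option linter.unusedSectionVars false

namespace Cfsg.Agent.H502.Car

open QuadraticMap Cfsg.Agent.LieClassical.OrthCore Cfsg.Agent.LieClassical.OrthTrans
  Cfsg.Agent.LieClassical.OrthSimple Cfsg.Agent.LieClassical.OrthFinite Cfsg.Agent.ClassicalGeometry.OrthSemi
  Cfsg.Agent.ClassicalGeometry.SpinorSign Cfsg.Agent.ClassicalGeometry.OmegaIndex Cfsg.Agent.FooteOrth

section

variable {F : Type} [Field F] {ι : Type} [Fintype ι] [DecidableEq ι] {Q : QuadraticForm F (ι → F)}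

theorem nd_of (hG : Good Q) : (polarBilin Q).Nondegenerate := by
  refine ⟨fun x hx => hG.nondeg x hx, fun x hx => hG.nondeg x fun y => ?_⟩
  rw [polar_comm]
  exact hx y

theorem dim_of (hG : Good Q) : 5 ≤ Fintype.card ι := by
  have := hG.dim
  rwa [Module.finrank_fintype_fun_eq_card] at this

theorem ig_act (h : Cfsg.isometryGroup F ⇑Q) (v : ι → F) :
    (isometryEquiv Q h).1 v = Cfsg.Agent.ClassicalGeometry.OrthCharTwo.act h v := rfl

theorem exists_ig {g : (ι → F) ≃ₗ[F] (ι → F)} (hg : g ∈ O Q) :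
    ∃ h : Cfsg.isometryGroup F ⇑Q, isometryEquiv Q h = ⟨g, hg⟩ :=
  ⟨(isometryEquiv Q).symm ⟨g, hg⟩, MulEquiv.apply_symm_apply _ _⟩

theorem ig_omega (hG : Good Q) {h : Cfsg.isometryGroup F ⇑Q} (hh : h ∈ Cfsg.Omega F ⇑Q) :
    (isometryEquiv Q h).1 ∈ E Q := by
  rw [← hG.commutator_eq_E, ← map_Omega]
  exact Subgroup.mem_map_of_mem _ hh

theorem exists_theta (h2 : (2 : F) ≠ 0) : ∃ θ : F, θ ≠ 0 ∧ θ ≠ 1 := by
  refine ⟨-1, neg_ne_zero.2 one_ne_zero, fun h => h2 ?_⟩
  linear_combination -h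

/-- **`z` is conjugate to another power** -/
theorem exists_pow_ne [Finite F] (hG : Good Q) (h2 : (2 : F) ≠ 0) {r : ℕ} (hr : r.Prime) (hr2 : r ≠ 2)
    (hrF : (r : F) ≠ 0) {z : (ι → F) ≃ₗ[F] (ι → F)} (hz : z ∈ O Q) (hzr : z ^ r = 1)
    (hfd : r ∣ Nat.card F ^ 2 - 1 → (∃ v, v ≠ 0 ∧ z v = v) ∨ Fintype.card ι % 4 ≠ 2) :
    ∃ k : ℕ, ¬ k ≡ 1 [MOD r] ∧ ∃ h ∈ E Q, h * z * h⁻¹ = z ^ k := by
  have := Fintype.ofFinite F
  rw [Nat.card_eq_fintype_card] at hfd
  obtain ⟨g, hg⟩ := exists_ig hz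
  have hgr : g ^ r = 1 := by
    apply (isometryEquiv Q).injective
    rw [map_pow, hg, map_one]
    exact Subtype.ext hzr
  have hgz : (isometryEquiv Q g).1 = z := congrArg Subtype.val hg
  have hd := dim_of hG
  by_cases hq : r ∣ Fintype.card F ^ 2 - 1
  · obtain ⟨h, hh, hc⟩ := Cfsg.Agent.H507.GmnOrth.real_omega hr hr2 hrF hq (nd_of hG) (by omega)
      (Or.inl (exists_theta h2)) hgr (by
        rcases hfd hq with ⟨v, hv0, hv⟩ | h
        · left
          refine ⟨v, hv0, ?_⟩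
          rw [← ig_act, hgz]
          exact hv
        · exact Or.inr h)
    refine ⟨r - 1, fun h3 => ?_, (isometryEquiv Q h).1, ig_omega hG hh, ?_⟩
    · have hp1 := hr.two_le
      have h4 := (Nat.modEq_iff_dvd' (by omega : 1 ≤ r - 1)).1 h3.symm
      have h5 := Nat.le_of_dvd (by omega) h4
      omega
    · have h3 : z ^ (r - 1) = z⁻¹ := by
        rw [eq_inv_iff_mul_eq_one, ← pow_succ, Nat.sub_add_cancel hr.one_le, hzr]
      rw [h3]
      have h4 := congrArg (fun x => (isometryEquiv Q x).1) hc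
      simp only [map_mul, map_inv, Subgroup.coe_mul, Subgroup.coe_inv, hgz] at h4
      exact h4
  · obtain ⟨h, hh⟩ := Cfsg.Agent.H507.GmnOrthRows.exists_conj_pow (nd_of hG) hr hr2 hrF hgr
    refine ⟨Fintype.card F ^ 2, fun h3 => hq ?_, (isometryEquiv Q h).1 * (isometryEquiv Q h).1,
      Cfsg.Agent.H749.sq_mem_E hG (isometryEquiv Q h).2, ?_⟩
    · exact (Nat.modEq_iff_dvd' (Nat.one_le_pow _ _ Fintype.card_pos)).1 h3.symm
    · have h4 := congrArg (fun x => (isometryEquiv Q x).1) hh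
      simp only [map_mul, map_inv, map_pow, Subgroup.coe_mul, Subgroup.coe_inv, Subgroup.coe_pow, hgz] at h4
      obtain ⟨y, hy⟩ : ∃ y, y = (isometryEquiv Q h).1 := ⟨_, rfl⟩
      rw [← hy] at h4 ⊢
      calc y * y * z * (y * y)⁻¹ = y * (y * z * y⁻¹) * y⁻¹ := by group
        _ = _ := by rw [h4, ← conj_pow, h4, ← pow_mul, pow_two]

/-- **isometries inverting `z`** -/
theorem exists_invs [Finite F] (hG : Good Q) (h2 : (2 : F) ≠ 0) {r : ℕ} (hr : r.Prime) (hr2 : r ≠ 2)
    {z : (ι → F) ≃ₗ[F] (ι → F)} (hz : z ∈ O Q) (hzr : z ^ r = 1)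
    (hq : r ∣ Nat.card F ^ 2 - 1) (hfix : ∀ v, z v = v → v = 0) {m : ℕ} (hm : Fintype.card ι = 2 * m) (ε : ℤˣ) :
    ∃ h : (ι → F) ≃ₗ[F] (ι → F), ∃ hO : h ∈ O Q, h * z * h⁻¹ = z⁻¹ ∧ LinearEquiv.det h = (-1) ^ m ∧
      sg Q ⟨h, hO⟩ = ε := by
  have := Fintype.ofFinite F
  rw [Nat.card_eq_fintype_card] at hq
  obtain ⟨g, hg⟩ := exists_ig hz
  have hgr : g ^ r = 1 := by
    apply (isometryEquiv Q).injective
    rw [map_pow, hg, map_one]
    exact Subtype.ext hzr
  have hgz : (isometryEquiv Q g).1 = z := congrArg Subtype.val hg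
  have hd := dim_of hG
  obtain ⟨k, h, hk, H, hs⟩ := Cfsg.Agent.H507.GmnOrth.exists_inv hr hr2 hq (nd_of hG) hgr (Fintype.card ι) ⊤
    (by rw [finrank_top, Module.finrank_fintype_fun_eq_card]) (by omega) (fun _ _ => Submodule.mem_top)
    (fun x _ hx => hG.nondeg x fun y => hx y Submodule.mem_top) (fun u _ hu => hfix u (by
      rw [← hgz, ig_act]
      exact hu)) ε
  have hkm : k = m := by omega
  subst hkm
  refine ⟨(isometryEquiv Q h).1, (isometryEquiv Q h).2, ?_, ?_, ?_⟩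
  · rw [mul_inv_eq_iff_eq_mul]
    ext1 v
    have h1 := H.inv v Submodule.mem_top
    have h3 : z⁻¹ = (isometryEquiv Q g⁻¹).1 := by rw [map_inv, Subgroup.coe_inv, hgz]
    show (isometryEquiv Q h).1 (z v) = z⁻¹ ((isometryEquiv Q h).1 v)
    rw [h3, ← hgz]
    exact h1
  · apply Units.ext
    rw [det_isometryEquiv, H.det, Units.val_pow_eq_pow_val, Units.val_neg, Units.val_one]
  · rw [← hs h2]
    show spinorSign (⇑Q) 1 ((isometryEquiv Q).symm (isometryEquiv Q h)) = _
    rw [MulEquiv.symm_apply_apply]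

theorem exists_frob [Finite F] {p : ℕ} [Fact p.Prime] [CharP F p] (τ : F ≃+* F) :
    ∃ n : ℕ, ∀ x : F, τ x = x ^ p ^ n := by
  classical
  have := Fintype.ofFinite F
  let _ : Algebra (ZMod p) F := ZMod.algebra F p
  let σ : F ≃ₐ[ZMod p] F := AlgEquiv.ofRingEquiv (f := τ) (fun x => by
    have : (τ : F →+* F).comp (algebraMap (ZMod p) F) = algebraMap (ZMod p) F := Subsingleton.elim _ _
    exact RingHom.congr_fun this x)
  obtain ⟨n, hn⟩ := (FiniteField.bijective_frobeniusAlgEquivOfAlgebraic_pow (ZMod p) F).2 σ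
  refine ⟨n, fun x => ?_⟩
  have h1 : τ x = σ x := rfl
  rw [h1, ← hn]
  change (FiniteField.frobeniusAlgEquivOfAlgebraic (ZMod p) F ^ (n : ℕ)) x = _
  rw [AlgEquiv.coe_pow, FiniteField.coe_frobeniusAlgEquivOfAlgebraic_iterate, ZMod.card]

theorem charpoly_toLin (M : Matrix ι ι F) : (Matrix.toLin' M).charpoly = M.charpoly := by
  rw [← LinearMap.charpoly_toMatrix (Matrix.toLin' M) (Pi.basisFun F ι), ← LinearMap.toMatrix'_toLin' M]
  simp [LinearMap.toMatrix_eq_toMatrix']

/-- a semilinear bijection commuting with `Z` -/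
theorem charpoly_semi {σ : F ≃+* F} {M : Equiv.Perm (ι → F)} (hadd : ∀ u v, M (u + v) = M u + M v)
    (hsmul : ∀ (a : F) (v : ι → F), M (a • v) = σ a • M v) {Z : Matrix ι ι F}
    (hc : ∀ v, M (Z.mulVec v) = Z.mulVec (M v)) : Z.charpoly.map (σ : F →+* F) = Z.charpoly := by
  let s : (ι → F) ≃ (ι → F) := Equiv.piCongrRight fun _ => σ.toEquiv
  have hs : ∀ v, s v = (σ : F →+* F) ∘ v := fun v => rfl
  let A : (ι → F) ≃ₗ[F] (ι → F) :=
    { toFun := fun v => M (s.symm v)
      invFun := fun v => s (M.symm v)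
      map_add' := by
        intro u v
        have h1 : s.symm (u + v) = s.symm u + s.symm v := by
          rw [Equiv.symm_apply_eq]
          funext i
          show u i + v i = σ (σ.symm (u i) + σ.symm (v i))
          rw [map_add, σ.apply_symm_apply, σ.apply_symm_apply]
        rw [h1, hadd]
      map_smul' := by
        intro a v
        have h1 : s.symm (a • v) = σ.symm a • s.symm v := by
          rw [Equiv.symm_apply_eq]
          funext i
          show a * v i = σ (σ.symm a * σ.symm (v i))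
          rw [map_mul, σ.apply_symm_apply, σ.apply_symm_apply]
        rw [h1, hsmul, σ.apply_symm_apply]
        rfl
      left_inv := fun v => by
        show s (M.symm (M (s.symm v))) = v
        rw [Equiv.symm_apply_apply, Equiv.apply_symm_apply]
      right_inv := fun v => by
        show M (s.symm (s (M.symm v))) = v
        rw [Equiv.symm_apply_apply, Equiv.apply_symm_apply] }
  have hA : ∀ v, A (s v) = M v := fun v => by
    show M (s.symm (s v)) = _
    rw [Equiv.symm_apply_apply]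
  have h1 : A.conj (Matrix.toLin' (Z.map (σ : F →+* F))) = Matrix.toLin' Z := by
    refine LinearMap.ext fun w => ?_
    obtain ⟨v, rfl⟩ : ∃ v, A (s v) = w := ⟨s.symm (A.symm w), by rw [Equiv.apply_symm_apply, LinearEquiv.apply_symm_apply]⟩
    rw [LinearEquiv.conj_apply_apply, LinearEquiv.symm_apply_apply, Matrix.toLin'_apply, Matrix.toLin'_apply]
    have h2 : (Z.map (σ : F →+* F)).mulVec (s v) = s (Z.mulVec v) := by
      funext i
      exact (RingHom.map_mulVec (σ : F →+* F) Z v i).symm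
    rw [h2, hA, hA, hc]
  rw [← Matrix.charpoly_map, ← charpoly_toLin, ← charpoly_toLin, ← h1, LinearEquiv.charpoly_conj]

/-- **`z ~ z ^ p ^ i`** -/
theorem conj_frob [Finite F] (hG : Good Q) {p : ℕ} [Fact p.Prime] [CharP F p] {r : ℕ} (hr : r.Prime) (hr2 : r ≠ 2)
    (hrF : (r : F) ≠ 0) {z : (ι → F) ≃ₗ[F] (ι → F)} (hz : z ∈ O Q) (hzr : z ^ r = 1)
    {σ : F ≃+* F} {i : ℕ} (hσ : ∀ x, σ x = x ^ p ^ i) {M : Equiv.Perm (ι → F)} (hadd : ∀ u v, M (u + v) = M u + M v)
    (hsmul : ∀ (a : F) (v : ι → F), M (a • v) = σ a • M v) (hc : ∀ v, M (z v) = z (M v)) :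
    ∃ h ∈ O Q, h * z * h⁻¹ = z ^ p ^ i := by
  obtain ⟨g, hg⟩ := exists_ig hz
  have hgr : g ^ r = 1 := by
    apply (isometryEquiv Q).injective
    rw [map_pow, hg, map_one]
    exact Subtype.ext hzr
  have hgz : (isometryEquiv Q g).1 = z := congrArg Subtype.val hg
  have hgq : (g ^ p ^ i) ^ r = 1 := by rw [← pow_mul, mul_comm, pow_mul, hgr, one_pow]
  have hcj : IsConj g (g ^ p ^ i) := by
    rw [Cfsg.Agent.H193.OrthConj.isConj_iff Q (nd_of hG) g (g ^ p ^ i) (hr.odd_of_ne_two hr2) hrF hgr hgq]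
    have hsq : Squarefree (Polynomial.X ^ r - 1 : Polynomial F) := by
      have h1 : (Polynomial.X ^ r - Polynomial.C (1 : F)).Separable :=
        Polynomial.separable_X_pow_sub_C (1 : F) hrF one_ne_zero
      rw [Polynomial.C_1] at h1
      exact h1.squarefree
    have hpow : ∀ k : Cfsg.isometryGroup F (⇑Q), k ^ r = 1 →
        Polynomial.aeval ((k : Matrix.GeneralLinearGroup ι F) : Matrix ι ι F) (Polynomial.X ^ r - 1 : Polynomial F) = 0 := by
      intro k hk
      have h1 : ((k : Matrix.GeneralLinearGroup ι F) : Matrix ι ι F) ^ r = 1 := by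
        rw [← Units.val_pow_eq_pow_val, ← SubmonoidClass.coe_pow, hk]; rfl
      rw [map_sub, map_pow, Polynomial.aeval_X, h1, map_one, sub_self]
    have h1 := Cfsg.Agent.H193.SsConj.isConj_of_charpoly (g : Matrix.GeneralLinearGroup ι F)
      ((g ^ p ^ i : Cfsg.isometryGroup F (⇑Q)) : Matrix.GeneralLinearGroup ι F) _ hsq (hpow _ hgr) (hpow _ hgq) (by
        rw [SubmonoidClass.coe_pow, Units.val_pow_eq_pow_val, Cfsg.Agent.H709.CharPow.charpoly_pow_char]
        have h3 : iterateFrobenius F p i = (σ : F →+* F) := by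
          ext x
          rw [iterateFrobenius_def]
          exact (hσ x).symm
        rw [h3]
        symm
        refine charpoly_semi hadd hsmul fun v => ?_
        have h4 := hc v
        rw [← hgz] at h4
        exact h4)
    exact MonoidHom.map_isConj (Units.coeHom (Matrix ι ι F)) h1
  obtain ⟨h, hh⟩ := isConj_iff.1 hcj
  refine ⟨(isometryEquiv Q h).1, (isometryEquiv Q h).2, ?_⟩
  have h4 := congrArg (fun x => (isometryEquiv Q x).1) hh
  simp only [map_mul, map_inv, map_pow, Subgroup.coe_mul, Subgroup.coe_inv, Subgroup.coe_pow, hgz] at h4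
  exact h4

end

end Cfsg.Agent.H502.Car
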