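import Cfsg.Agent.H502.Car.PrimeA

/-!
# S3852, orthogonal groups: elements of odd prime order prime to the characteristic (helper502), II

The operator `T = z + z⁻¹` and the isometries `1 - 2 (T - t) ^ (q - 1)`.
-/

set_option autoImplicit false
set_option linter.unusedSectionVars false

namespace Cfsg.Agent.H502.Car

open QuadraticMap Cfsg.Agent.LieClassical.OrthCore Cfsg.Agent.LieClassical.OrthTrans

section

variable {F V : Type*} [Field F] [AddCommGroup V] [Module F V] {Q : QuadraticForm F V}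

/-- `z + z⁻¹` -/
noncomputable def Tz (z : V ≃ₗ[F] V) : Module.End F V := (z : V →ₗ[F] V) + ((z⁻¹ : V ≃ₗ[F] V) : V →ₗ[F] V)

theorem Tz_apply (z : V ≃ₗ[F] V) (v : V) : Tz z v = z v + z⁻¹ v := rfl

theorem Tz_inv (z : V ≃ₗ[F] V) : Tz z⁻¹ = Tz z := by
  rw [Tz, Tz, inv_inv, add_comm]

theorem coe_pow_end (z : V ≃ₗ[F] V) (n : ℕ) :
    ((z : V →ₗ[F] V) : Module.End F V) ^ n = ((z ^ n : V ≃ₗ[F] V) : V →ₗ[F] V) := by
  refine LinearMap.ext fun v => ?_
  induction n generalizing v with
  | zero => rfl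
  | succ n ih =>
    rw [pow_succ, pow_succ]
    exact ih (z v)

theorem Tz_pow [Nontrivial V] {p : ℕ} [Fact p.Prime] [CharP F p] (z : V ≃ₗ[F] V) (i : ℕ) :
    Tz z ^ p ^ i = Tz (z ^ p ^ i) := by
  haveI : CharP (Module.End F V) p :=
    charP_of_injective_algebraMap (algebraMap F (Module.End F V)).injective p
  have hc : Commute ((z : V →ₗ[F] V) : Module.End F V) ((z⁻¹ : V ≃ₗ[F] V) : V →ₗ[F] V) := by
    refine LinearMap.ext fun v => ?_
    show z (z⁻¹ v) = z⁻¹ (z v)
    rw [← LinearEquiv.mul_apply, ← LinearEquiv.mul_apply, mul_inv_cancel, inv_mul_cancel]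
  rw [Tz, add_pow_expChar_pow_of_commute _ _ hc, coe_pow_end, coe_pow_end, inv_pow]
  rfl

theorem pow_eig {T : Module.End F V} {t : F} {v : V} (h : T v = t • v) (n : ℕ) : (T ^ n) v = t ^ n • v := by
  induction n with
  | zero => rw [pow_zero, pow_zero, one_smul]; rfl
  | succ n ih => rw [pow_succ, Module.End.mul_apply, h, map_smul, ih, smul_smul, pow_succ, mul_comm]

/-- eigenvalues of `T` are fixed by the Frobenius -/
theorem frob_eig {p : ℕ} [Fact p.Prime] [CharP F p] {z : V ≃ₗ[F] V} {i : ℕ}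
    (h : z ^ p ^ i = z ∨ z ^ p ^ i = z⁻¹) {t : F} {v : V} (hv : v ≠ 0) (ht : Tz z v = t • v) : t ^ p ^ i = t := by
  have : Nontrivial V := ⟨⟨v, 0, hv⟩⟩
  have h1 : Tz z ^ p ^ i = Tz z := by
    rw [Tz_pow]
    rcases h with h | h <;> rw [h]
    exact Tz_inv z
  have h3 := pow_eig ht (p ^ i)
  rw [h1, ht] at h3
  exact (smul_left_injective F hv h3).symm

theorem Tz_card [Finite F] [Nontrivial V] {z : V ≃ₗ[F] V} {r : ℕ} (hr : r.Prime) (hq : r ∣ Nat.card F ^ 2 - 1)
    (hz : z ^ r = 1) : Tz z ^ Nat.card F = Tz z := by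
  have := Fintype.ofFinite F
  obtain ⟨p, hp⟩ := CharP.exists F
  have hpp : Fact p.Prime := ⟨CharP.char_is_prime F p⟩
  obtain ⟨k, -, hk⟩ := FiniteField.card F p
  have hcard : 1 < Nat.card F := Finite.one_lt_card
  have hd : r ∣ Nat.card F - 1 ∨ r ∣ Nat.card F + 1 := by
    have h3 : Nat.card F ^ 2 - 1 = (Nat.card F - 1) * (Nat.card F + 1) := by
      rw [mul_comm, ← Nat.sq_sub_sq, one_pow]
    rw [h3] at hq
    exact (Nat.Prime.dvd_mul hr).1 hq
  have h1 : z ^ Nat.card F = z ∨ z ^ Nat.card F = z⁻¹ := by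
    rcases hd with ⟨c, hc⟩ | ⟨c, hc⟩
    · left
      have h3 : Nat.card F = r * c + 1 := by omega
      rw [h3, pow_succ, pow_mul, hz, one_pow, one_mul]
    · right
      rw [eq_inv_iff_mul_eq_one, ← pow_succ, hc, pow_mul, hz, one_pow]
  rw [Nat.card_eq_fintype_card, hk] at h1 ⊢
  rw [Tz_pow]
  rcases h1 with h1 | h1 <;> rw [h1]
  exact Tz_inv z

/-- the isometry which is `1` on the `t`-eigenspace of `T` and `-1` on the other ones -/
theorem exists_xt [Finite F] [Nontrivial V] {z : V ≃ₗ[F] V} (hz : z ∈ O Q)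
    (hT : Tz z ^ Nat.card F = Tz z) (t : F) (h2 : (2 : F) ≠ 0) :
    ∃ x : V ≃ₗ[F] V, x ∈ O Q ∧ x * x = 1 ∧ (∀ v, x v = v ↔ Tz z v = t • v) ∧ (∀ v, x (z v) = z (x v)) ∧
      ∀ (σ : F ≃+* F) (M : Equiv.Perm V), (∀ u v, M (u + v) = M u + M v) → (∀ (a : F) (v : V), M (a • v) = σ a • M v) →
        σ t = t → (∀ v, M (z v) = z (M v)) → ∀ v, M (x v) = x (M v) := by
  have := Fintype.ofFinite F
  obtain ⟨p, hp⟩ := CharP.exists F
  have hpp : Fact p.Prime := ⟨CharP.char_is_prime F p⟩
  haveI : CharP (Module.End F V) p :=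
    charP_of_injective_algebraMap (algebraMap F (Module.End F V)).injective p
  obtain ⟨k, -, hk⟩ := FiniteField.card F p
  have hcard : 1 < Nat.card F := Finite.one_lt_card
  obtain ⟨U, hU, hUv⟩ : ∃ U : Module.End F V, U = Tz z - algebraMap F (Module.End F V) t ∧
      ∀ v, U v = Tz z v - t • v := ⟨_, rfl, fun v => rfl⟩
  have hUq : U ^ Nat.card F = U := by
    rw [Nat.card_eq_fintype_card, hk, hU, sub_pow_expChar_pow_of_commute, ← hk, ← Nat.card_eq_fintype_card, hT,
      ← map_pow, Nat.card_eq_fintype_card, FiniteField.pow_card]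
    exact (Algebra.commutes t (Tz z)).symm
  obtain ⟨n, hn⟩ : ∃ n, Nat.card F = n + 2 := ⟨Nat.card F - 2, by omega⟩
  obtain ⟨N, hN⟩ : ∃ N, N = U ^ (n + 1) := ⟨_, rfl⟩
  rw [hn] at hUq
  have hNN : ∀ v, N (N v) = N v := by
    intro v
    have h1 : N * N = N := by
      rw [hN, ← pow_add, show n + 1 + (n + 1) = n + (n + 2) by ring, pow_add, hUq, ← pow_succ]
    exact LinearMap.congr_fun h1 v
  have hker : ∀ v, N v = 0 ↔ Tz z v = t • v := by
    intro v
    constructor
    · intro h
      have h1 : U (N v) = U v := by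
        have h3 : U * N = U := by rw [hN, ← pow_succ', hUq]
        exact LinearMap.congr_fun h3 v
      rw [h, map_zero, hUv] at h1
      exact sub_eq_zero.1 h1.symm
    · intro h
      have h1 : U v = 0 := by rw [hUv, h, sub_self]
      rw [hN, pow_succ, Module.End.mul_apply, h1, map_zero]
  -- self-adjoint
  have hsU : ∀ v w, polar Q (U v) w = polar Q v (U w) := by
    intro v w
    have h1 : ∀ v w, polar Q (z v) w = polar Q v (z⁻¹ w) := by
      intro v w
      have h3 := polar_map hz v (z⁻¹ w)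
      rw [← LinearEquiv.mul_apply, mul_inv_cancel] at h3
      exact h3
    have h4 : ∀ v w, polar Q (z⁻¹ v) w = polar Q v (z w) := by
      intro v w
      rw [polar_comm, ← h1, polar_comm]
    rw [hUv, hUv, Tz_apply, Tz_apply, polar_sub_left, polar_add_left, polar_smul_left, polar_sub_right,
      polar_add_right, polar_smul_right, h1, h4]
    ring
  have hsN : ∀ v w, polar Q (N v) w = polar Q v (N w) := by
    have h1 : ∀ (j : ℕ) (v w : V), polar Q ((U ^ j) v) w = polar Q v ((U ^ j) w) := by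
      intro j
      induction j with
      | zero => intro v w; rfl
      | succ j ih =>
        intro v w
        rw [pow_succ, Module.End.mul_apply, Module.End.mul_apply, ih, hsU]
        congr 1
        have h3 : U * U ^ j = U ^ j * U := by rw [← pow_succ, ← pow_succ']
        exact LinearMap.congr_fun h3 w
    rw [hN]
    exact h1 (n + 1)
  -- commutation with `z`
  have hzU : ∀ v, U (z v) = z (U v) := by
    intro v
    rw [hUv, hUv, Tz_apply, Tz_apply, map_sub, map_add, map_smul, ← LinearEquiv.mul_apply z⁻¹ z,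
      ← LinearEquiv.mul_apply z z⁻¹, inv_mul_cancel, mul_inv_cancel]
  have hzN : ∀ v, N (z v) = z (N v) := by
    have h1 : ∀ (j : ℕ) (v : V), (U ^ j) (z v) = z ((U ^ j) v) := by
      intro j
      induction j with
      | zero => intro v; rfl
      | succ j ih =>
        intro v
        rw [pow_succ, Module.End.mul_apply, Module.End.mul_apply, hzU, ih]
    rw [hN]
    exact h1 (n + 1)
  have hx : ∀ v, (1 - (2 : F) • N : Module.End F V) ((1 - (2 : F) • N : Module.End F V) v) = v := by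
    intro v
    have e : ∀ v, (1 - (2 : F) • N : Module.End F V) v = v - (2 : F) • N v := fun _ => rfl
    rw [e, e, map_sub, map_smul, hNN]
    module
  obtain ⟨x, hxv⟩ : ∃ x : V ≃ₗ[F] V, ∀ v, x v = v - (2 : F) • N v :=
    ⟨LinearEquiv.ofLinear (1 - (2 : F) • N) (1 - (2 : F) • N) (LinearMap.ext hx) (LinearMap.ext hx), fun _ => rfl⟩
  refine ⟨x, ?_, ?_, ?_, ?_, ?_⟩
  · intro v
    have h1 : polar Q v (N v) = 2 * Q (N v) := by
      rw [← hNN v, ← hsN, hNN, QuadraticMap.polar_self, ← smul_eq_mul, ofNat_smul_eq_nsmul F 2]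
    rw [hxv, sub_eq_add_neg, ← neg_smul, QuadraticMap.map_add Q, QuadraticMap.map_smul, polar_smul_right, h1, smul_eq_mul,
      smul_eq_mul]
    ring
  · ext v
    show x (x v) = v
    rw [hxv, hxv]
    exact hx v
  · intro v
    rw [hxv, ← hker, sub_eq_self, smul_eq_zero, or_iff_right h2]
  · intro v
    rw [hxv, hxv, map_sub, map_smul, hzN]
  · intro σ M hadd hsmul hσ hM v
    have hM0 : M 0 = 0 := by
      have := hadd 0 0
      rw [add_zero] at this
      exact left_eq_add.1 this
    have hneg : ∀ u, M (-u) = - M u := by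
      intro u
      have := hadd u (-u)
      rw [add_neg_cancel, hM0] at this
      exact (neg_eq_of_add_eq_zero_right this.symm).symm
    have hsub : ∀ u v, M (u - v) = M u - M v := by
      intro u v
      rw [sub_eq_add_neg, hadd, hneg, sub_eq_add_neg]
    have hMi : ∀ v, M (z⁻¹ v) = z⁻¹ (M v) := by
      intro v
      have h3 := hM (z⁻¹ v)
      rw [← LinearEquiv.mul_apply z z⁻¹, mul_inv_cancel] at h3
      have h4 : z⁻¹ (M v) = z⁻¹ (z (M (z⁻¹ v))) := congrArg (fun w => z⁻¹ w) h3
      rw [← LinearEquiv.mul_apply z⁻¹ z, inv_mul_cancel] at h4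
      exact h4.symm
    have hMU : ∀ v, M (U v) = U (M v) := by
      intro v
      rw [hUv, hUv, Tz_apply, Tz_apply, hsub, hadd, hsmul, hσ, hM, hMi]
    have hMN : ∀ v, M (N v) = N (M v) := by
      have h1 : ∀ (j : ℕ) (v : V), M ((U ^ j) v) = (U ^ j) (M v) := by
        intro j
        induction j with
        | zero => intro v; rfl
        | succ j ih =>
          intro v
          rw [pow_succ, Module.End.mul_apply, Module.End.mul_apply, ih, hMU]
      rw [hN]
      exact h1 (n + 1)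
    have hσ2 : σ 2 = 2 := map_ofNat σ 2
    rw [hxv, hxv, hsub, hsmul, hσ2, hMN]

end

end Cfsg.Agent.H502.Car
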