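import Cfsg.Agent.H502.Car.PrimeB
import Cfsg.Agent.H502.Car.Stmts

/-!
# S3852, orthogonal groups: no central elements of odd prime order prime to the characteristic (helper502)
-/

set_option autoImplicit false
set_option linter.unusedSectionVars false

namespace Cfsg.Agent.H502.Car

open QuadraticMap Cfsg.Agent.LieClassical.OrthCore Cfsg.Agent.LieClassical.OrthTrans
  Cfsg.Agent.LieClassical.OrthSimple Cfsg.Agent.ClassicalGeometry.OrthSemi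
  Cfsg.Agent.ClassicalGeometry.OrthAut1 Cfsg.Agent.H989.OutOrth.Basic Cfsg.Agent.FooteOrth
  Cfsg.Agent.LieClassical.OrthFinite
open Subgroup Pointwise Cfsg.Agent.Solvable.Carter Cfsg.Agent.H18.Carter Cfsg.Agent.H381.Car

universe u

section

variable {F : Type} [Field F] [Finite F] {ι : Type} [Fintype ι] [DecidableEq ι] {Q : QuadraticForm F (ι → F)}
  {G : Type u} [Group G] [Finite G] {S : Subgroup G} [S.Normal]

theorem det_of_O (hG : Good Q) (h2 : (2 : F) ≠ 0) {h : (ι → F) ≃ₗ[F] (ι → F)} (hh : h ∈ O Q) :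
    LinearEquiv.det h = 1 ∨ LinearEquiv.det h = -1 := by
  have h1 := ((mem_E_iff hG h2 (mul_mem hh hh)).1 (Cfsg.Agent.H749.sq_mem_E hG hh)).1
  rw [map_mul] at h1
  have h3 : (LinearEquiv.det h : F) * (LinearEquiv.det h : F) = 1 := by
    rw [← Units.val_mul, h1, Units.val_one]
  rcases mul_self_eq_one_iff.1 h3 with h4 | h4
  · exact Or.inl (Units.ext h4)
  · exact Or.inr (Units.ext h4)

/-- the conditions on elements of order `r` fixed by `K` -/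
theorem ne_cond (hG : Good Q) (h2 : (2 : F) ≠ 0) (c : Ctx G S) {K : Subgroup G}
    (hK : IsCarter K) (e : S ≃* P Q) (hs : ∀ g : G, ∃ M : Gam Q, Lf e g M) {r : ℕ} (hr : r.Prime) (hr2 : r ≠ 2)
    (hrF : (r : F) ≠ 0) {z : ↥(E Q)} (hz : z ^ r = 1) (hz1 : z ≠ 1) (hzK : Fx e K z) :
    (∀ v, z.1 v = v → v = 0) ∧ r ∣ Nat.card F ^ 2 - 1 ∧ Fintype.card ι % 4 = 2 := by
  have hrr : Fact r.Prime := ⟨hr⟩
  have hord : orderOf z = r := orderOf_eq_prime hz hz1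
  by_contra hcon
  obtain ⟨k, hk, h, hh, hc⟩ := exists_pow_ne hG h2 hr hr2 hrF (E_le_O z.2) (congrArg Subtype.val hz) (by
    intro hq
    by_contra h3
    push Not at h3
    apply hcon
    refine ⟨fun v hv => ?_, hq, h3.2⟩
    by_contra hv0
    exact h3.1 v hv0 hv)
  have h4 : (⟨h, hh⟩ : ↥(E Q)) * z * (⟨h, hh⟩ : ↥(E Q))⁻¹ = z ^ k := Subtype.ext hc
  have h5 := no_conj_pow hG c hs hK (hr.odd_of_ne_two hr2) hz hzK h4
  apply hk
  rw [← hord, ← pow_eq_pow_iff_modEq, h5, pow_one]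

/-- isometries conjugate `z` only to `z` and `z⁻¹` among its powers -/
theorem conj_eq_or_inv (hG : Good Q) (h2 : (2 : F) ≠ 0) (c : Ctx G S) {K : Subgroup G}
    (hK : IsCarter K) (e : S ≃* P Q) (hs : ∀ g : G, ∃ M : Gam Q, Lf e g M) {r : ℕ} (hr : r.Prime) (hr2 : r ≠ 2)
    {z : ↥(E Q)} (hz : z ^ r = 1) (hzK : Fx e K z)
    (hq : r ∣ Nat.card F ^ 2 - 1) (hfix : ∀ v, z.1 v = v → v = 0) {m : ℕ} (hm : Fintype.card ι = 2 * m)
    (hmo : Odd m) {h : (ι → F) ≃ₗ[F] (ι → F)} (hh : h ∈ O Q) {j : ℕ} (hj : h * z.1 * h⁻¹ = z.1 ^ j) :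
    z.1 ^ j = z.1 ∨ z.1 ^ j = z.1⁻¹ := by
  have hz' : z.1 ^ r = 1 := congrArg Subtype.val hz
  obtain ⟨h₁, hO₁, hc₁, hd₁, hs₁⟩ := exists_invs hG h2 hr hr2 (E_le_O z.2) hz' hq hfix hm 1
  obtain ⟨h₂, hO₂, hc₂, hd₂, hs₂⟩ := exists_invs hG h2 hr hr2 (E_le_O z.2) hz' hq hfix hm (-1)
  rw [hmo.neg_one_pow] at hd₁ hd₂
  -- the use of A1
  have key : ∀ g ∈ E Q, ∀ i : ℕ, g * z.1 * g⁻¹ = z.1 ^ i → z.1 ^ i = z.1 := by
    intro g hg i hi
    have h4 : (⟨g, hg⟩ : ↥(E Q)) * z * (⟨g, hg⟩ : ↥(E Q))⁻¹ = z ^ i := Subtype.ext hi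
    exact congrArg Subtype.val (no_conj_pow hG c hs hK (hr.odd_of_ne_two hr2) hz hzK h4)
  have hinvp : z.1⁻¹ = z.1 ^ (r - 1) := by
    rw [inv_eq_iff_mul_eq_one, ← pow_succ', Nat.sub_add_cancel hr.one_le, hz']
  have hsgi : ∀ (g : (ι → F) ≃ₗ[F] (ι → F)) (hg : g ∈ O Q), sg Q ⟨g⁻¹, inv_mem hg⟩ = sg Q ⟨g, hg⟩ := by
    intro g hg
    have h1 : sg Q ⟨g⁻¹, inv_mem hg⟩ * sg Q ⟨g, hg⟩ = 1 := by
      rw [← map_mul]
      have : (⟨g⁻¹, inv_mem hg⟩ : O Q) * ⟨g, hg⟩ = 1 := Subtype.ext (inv_mul_cancel g)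
      rw [this, map_one]
    rw [eq_inv_of_mul_eq_one_left h1, Int.units_inv_eq_self]
  rcases det_of_O hG h2 hh with hd | hd
  · left
    -- a centralising isometry of determinant one with spinor sign `-1`
    rcases Int.units_eq_one_or (sg Q ⟨h, hh⟩) with hs0 | hs0
    · exact key h ((mem_E_iff hG h2 hh).2 ⟨hd, hs0⟩) j hj
    · have hy : h₁ * h₂⁻¹ ∈ O Q := mul_mem hO₁ (inv_mem hO₂)
      have hyd : LinearEquiv.det (h₁ * h₂⁻¹) = 1 := by
        rw [map_mul, map_inv, hd₁, hd₂, mul_inv_cancel]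
      have hys : sg Q ⟨h₁ * h₂⁻¹, hy⟩ = -1 := by
        have e1 : (⟨h₁ * h₂⁻¹, hy⟩ : O Q) = ⟨h₁, hO₁⟩ * ⟨h₂⁻¹, inv_mem hO₂⟩ := rfl
        rw [e1, map_mul, hsgi h₂ hO₂, hs₁, hs₂, one_mul]
      have hyc : h₁ * h₂⁻¹ * z.1 * (h₁ * h₂⁻¹)⁻¹ = z.1 := by
        have e1 : h₂⁻¹ * z.1 * h₂ = z.1⁻¹ := by
          have e2 : z.1 = (h₂ * z.1 * h₂⁻¹)⁻¹ := by rw [hc₂, inv_inv]
          conv_lhs => rw [e2]
          group
        calc h₁ * h₂⁻¹ * z.1 * (h₁ * h₂⁻¹)⁻¹ = h₁ * (h₂⁻¹ * z.1 * h₂) * h₁⁻¹ := by group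
          _ = (h₁ * z.1 * h₁⁻¹)⁻¹ := by rw [e1]; group
          _ = z.1 := by rw [hc₁, inv_inv]
      refine key (h * (h₁ * h₂⁻¹)) ((mem_E_iff hG h2 (mul_mem hh hy)).2 ⟨by rw [map_mul, hd, hyd, mul_one], ?_⟩) j ?_
      · have e1 : (⟨h * (h₁ * h₂⁻¹), mul_mem hh hy⟩ : O Q) = ⟨h, hh⟩ * ⟨h₁ * h₂⁻¹, hy⟩ := rfl
        rw [e1, map_mul, hs0, hys]
        rfl
      · calc h * (h₁ * h₂⁻¹) * z.1 * (h * (h₁ * h₂⁻¹))⁻¹
            = h * (h₁ * h₂⁻¹ * z.1 * (h₁ * h₂⁻¹)⁻¹) * h⁻¹ := by group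
          _ = z.1 ^ j := by rw [hyc, hj]
  · right
    have hk : ∀ (g : (ι → F) ≃ₗ[F] (ι → F)) (hg : g ∈ O Q), LinearEquiv.det g = -1 → g * z.1 * g⁻¹ = z.1⁻¹ →
        sg Q ⟨g, hg⟩ = sg Q ⟨h, hh⟩ → z.1 ^ j = z.1⁻¹ := by
      intro g hg hgd hgc hgs
      have h5 := key (h * g) ((mem_E_iff hG h2 (mul_mem hh hg)).2 ⟨by rw [map_mul, hd, hgd]; norm_num, ?_⟩)
        (j * (r - 1)) ?_
      · rw [mul_comm, pow_mul, ← hinvp, inv_pow] at h5
        exact inv_eq_iff_eq_inv.1 h5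
      · have e1 : (⟨h * g, mul_mem hh hg⟩ : O Q) = ⟨h, hh⟩ * ⟨g, hg⟩ := rfl
        rw [e1, map_mul, hgs, Int.units_mul_self]
      · calc h * g * z.1 * (h * g)⁻¹ = h * (g * z.1 * g⁻¹) * h⁻¹ := by group
          _ = (h * z.1 * h⁻¹)⁻¹ := by rw [hgc]; group
          _ = z.1 ^ (j * (r - 1)) := by rw [hj, mul_comm, pow_mul, ← hinvp, inv_pow]
    rcases Int.units_eq_one_or (sg Q ⟨h, hh⟩) with hs0 | hs0
    · exact hk h₁ hO₁ hd₁ hc₁ (by rw [hs₁, hs0])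
    · exact hk h₂ hO₂ hd₂ hc₂ (by rw [hs₂, hs0])

/-- **no central elements of odd prime order, prime to the characteristic** -/
theorem no_prime_ne (hFO : FrameO.{u}) (hG : Good Q) (h2 : (2 : F) ≠ 0) (h7 : 7 ≤ Fintype.card ι) (c : Ctx G S)
    {K : Subgroup G} (hK : IsCarter K) (e : S ≃* P Q) (hs : ∀ g : G, ∃ M : Gam Q, Lf e g M) {r : ℕ} (hr : r.Prime)
    (hr2 : r ≠ 2) (hrF : (r : F) ≠ 0) {z : ↥(E Q)} (hz : z ^ r = 1) (hz1 : z ≠ 1) (hzK : Fx e K z) : False := by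
  obtain ⟨hfix, hq, h4⟩ := ne_cond hG h2 c hK e hs hr hr2 hrF hz hz1 hzK
  have hz' : z.1 ^ r = 1 := congrArg Subtype.val hz
  obtain ⟨m, hm, hmo⟩ : ∃ m, Fintype.card ι = 2 * m ∧ Odd m := ⟨Fintype.card ι / 2, by omega, by
    rw [Nat.odd_iff]; omega⟩
  obtain ⟨p, hp⟩ := CharP.exists F
  have hpp : Fact p.Prime := ⟨CharP.char_is_prime F p⟩
  have : Nonempty ι := Fintype.card_pos_iff.1 (by omega)
  -- a vector space decomposition with a fixed part is impossible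
  have hsplit : ∀ x : (ι → F) ≃ₗ[F] (ι → F), x ∈ O Q → x * x = 1 → (∃ v, v ≠ 0 ∧ x v = v) → (∃ v, v ≠ 0 ∧ x v = -v) →
      (∀ v, x (z.1 v) = z.1 (x v)) → (∀ k ∈ K, ∀ M : Gam Q, Lf e k M → conjLin M x = x) → False := by
    rintro x hxO hxx ⟨v, hv0, hv⟩ ⟨w, hw0, hw⟩ hxz hxK
    obtain ⟨z', h1, h3, h5, h6⟩ := exists_pt hG h2 (hr.odd_of_ne_two hr2) hxO hxx hxK hz hzK hxz
    have hne : z' ≠ 1 := by
      rintro rfl
      exact hv0 (hfix v (h5 v hv).symm)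
    have h7 := (ne_cond hG h2 c hK e hs hr hr2 hrF h1 hne h3).1 w (h6 w hw)
    exact hw0 h7
  -- an eigenvector of `T`
  obtain ⟨t, v, hv0, hv⟩ : ∃ (t : F) (v : ι → F), v ≠ 0 ∧ Tz z.1 v = t • v := by
    obtain ⟨g, hg⟩ := exists_ig (E_le_O z.2)
    have hgz : (isometryEquiv Q g).1 = z.1 := congrArg Subtype.val hg
    have hgr : g ^ r = 1 := by
      apply (isometryEquiv Q).injective
      rw [map_pow, hg, map_one]
      exact Subtype.ext hz'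
    have := Fintype.ofFinite F
    obtain ⟨v, -, hQv, t, ht⟩ := Cfsg.Agent.H507.GmnOrth.exists_eigen hr (by rwa [Nat.card_eq_fintype_card] at hq) hgr
      (U := ⊤) (fun _ _ => Submodule.mem_top) (fun x _ hx => hG.nondeg x fun y => hx y Submodule.mem_top) top_ne_bot
    refine ⟨t, v, ?_, ?_⟩
    · rintro rfl
      exact hQv (QuadraticMap.map_zero _)
    · have h3 : (isometryEquiv Q g⁻¹).1 = z.1⁻¹ := by rw [map_inv, Subgroup.coe_inv, hgz]
      rw [Tz_apply, ← h3, ← hgz]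
      exact ht
  -- the field automorphisms fix `t`
  have hMt : ∀ k ∈ K, ∀ M : Gam Q, Lf e k M → ∀ (σ : F ≃+* F) (a : F), IsSS Q σ a M.1 → σ t = t := by
    intro k hk M hM σ a hMS
    obtain ⟨i, hi⟩ := exists_frob (p := p) σ
    have hcm : ∀ v, M.1 (z.1 v) = z.1 (M.1 v) := by
      intro v
      have h1 : conjLin M z.1 = z.1 := congrArg Subtype.val (hzK k hk M hM)
      rw [← conjLin_apply', h1]
    obtain ⟨h, hh, hc⟩ := conj_frob hG hr hr2 hrF (E_le_O z.2) hz' hi hMS.add hMS.smul hcm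
    rw [hi]
    exact frob_eig (conj_eq_or_inv hG h2 c hK e hs hr hr2 hz hzK hq hfix hm hmo hh hc) hv0 hv
  -- `T` is the scalar `t`
  have hT : ∀ w, Tz z.1 w = t • w := by
    by_contra hcon
    push Not at hcon
    obtain ⟨w, hw⟩ := hcon
    obtain ⟨x, hxO, hxx, hxt, hxz, hxM⟩ := exists_xt (E_le_O z.2) (Tz_card hr hq hz') t h2
    refine hsplit x hxO hxx ⟨v, hv0, (hxt v).2 hv⟩ ⟨w - x w, ?_, ?_⟩ hxz ?_
    · intro h
      exact hw ((hxt w).1 (sub_eq_zero.1 h).symm)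
    · have h1 : x (x w) = w := LinearEquiv.congr_fun hxx w
      rw [map_sub, h1, neg_sub]
    · intro k hk M hM
      obtain ⟨σ, a, hMS⟩ := M.2
      have h1 := hxM σ M.1 hMS.add hMS.smul (hMt k hk M hM σ a hMS) (by
        intro v
        have h1 : conjLin M z.1 = z.1 := congrArg Subtype.val (hzK k hk M hM)
        rw [← conjLin_apply', h1])
      ext1 v
      obtain ⟨w, rfl⟩ := M.1.surjective v
      rw [conjLin_apply', h1]
  have hzz : ∀ w, z.1 (z.1 w) = t • z.1 w - w := by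
    intro w
    have h1 := congrArg z.1 (hT w)
    rw [Tz_apply, map_add, map_smul, ← LinearEquiv.mul_apply z.1 z.1⁻¹, mul_inv_cancel] at h1
    exact eq_sub_of_add_eq h1
  -- `t ≠ ± 2`
  have hodd : ∀ w, z.1 (z.1 w) = w → w = 0 := by
    intro w hw
    obtain ⟨k, hk⟩ := hr.odd_of_ne_two hr2
    have h1 : ∀ j : ℕ, (z.1 ^ (2 * j)) w = w := by
      intro j
      induction j with
      | zero => rfl
      | succ j ih =>
        rw [Nat.mul_succ, pow_add]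
        show (z.1 ^ (2 * j)) ((z.1 ^ 2) w) = w
        have : (z.1 ^ 2) w = w := by
          rw [pow_two]
          exact hw
        rw [this, ih]
    have h3 : (z.1 ^ r) w = z.1 w := by
      rw [hk, pow_succ']
      show z.1 ((z.1 ^ (2 * k)) w) = _
      rw [h1]
    rw [hz'] at h3
    exact hfix w h3.symm
  have ht4 : t * t ≠ 4 := by
    intro h
    have h1 : (t - 2) * (t + 2) = 0 := by linear_combination h
    rcases mul_eq_zero.1 h1 with h3 | h3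
    · have h5 : t = 2 := sub_eq_zero.1 h3
      have h6 : z.1 (z.1 v - v) = z.1 v - v := by
        rw [map_sub, hzz, h5]
        module
      exact hv0 (hfix v (sub_eq_zero.1 (hfix _ h6)))
    · have h5 : t = -2 := eq_neg_of_add_eq_zero_left h3
      have h6 : z.1 (z.1 v + v) = -(z.1 v + v) := by
        rw [map_add, hzz, h5]
        module
      have h8 := hodd (z.1 v + v) (by rw [h6, map_neg, h6, neg_neg])
      have h9 : z.1 v = -v := eq_neg_of_add_eq_zero_left h8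
      exact hv0 (hodd v (by rw [h9, map_neg, h9, neg_neg]))
  obtain ⟨x, hxO, hxx, hx1, hx2, hxz, hxK⟩ := hFO F ι Q hG h2 G S c K hK e hs z r hr hr2 hz hz1 hzK t hzz ht4 m hm
    (by
      rintro ⟨k, rfl⟩
      rcases Nat.eq_zero_or_pos k with h | h
      · rw [h] at hm
        omega
      · rw [Nat.odd_iff] at hmo
        obtain ⟨j, rfl⟩ : ∃ j, k = j + 1 := ⟨k - 1, by omega⟩
        rw [pow_succ] at hmo
        omega) (by omega)
  exact hsplit x hxO hxx hx1 hx2 hxz hxK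

end

end Cfsg.Agent.H502.Car
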