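import Cfsg.Agent.H502.Car.Torus
import Cfsg.Agent.FooteOrth.Spin

/-!
# Reality of elements of order three of orthogonal groups in characteristic three (helper502, S3852)
-/

set_option autoImplicit false
set_option linter.unusedSectionVars false

namespace Cfsg.Agent.H502.Car

open QuadraticMap Cfsg.Agent.LieClassical.OrthCore Cfsg.Agent.LieClassical.OrthTrans
open Cfsg.Agent.FooteOrth

/-! ### skew maps -/

section Skew

variable {F V : Type*} [Field F] [AddCommGroup V] [Module F V] {Q : QuadraticForm F V}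

/-- `M` is skew for the polar form -/
def Skw (Q : QuadraticForm F V) (M : V →ₗ[F] V) : Prop := ∀ u v, polar Q (M u) v = -polar Q u (M v)

/-- the polar form is nondegenerate on `U` -/
def Nd (Q : QuadraticForm F V) (U : Submodule F V) : Prop := ∀ u ∈ U, (∀ v ∈ U, polar Q u v = 0) → u = 0

theorem exists_proj [FiniteDimensional F V] {U : Submodule F V} (hU : Nd Q U) (v : V) :
    ∃ u ∈ U, ∀ w ∈ U, polar Q (v - u) w = 0 := by
  let f : U →ₗ[F] (U →ₗ[F] F) :=
    (LinearMap.lcomp F F U.subtype).comp ((polarBilin Q).comp U.subtype)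
  have hf : ∀ u w : U, f u w = polar Q u w := fun _ _ => rfl
  have hinj : Function.Injective f := by
    rw [injective_iff_map_eq_zero]
    intro u hu
    apply Subtype.ext
    apply hU u u.2
    intro w hw
    have := LinearMap.congr_fun hu ⟨w, hw⟩
    rwa [hf] at this
  have hsurj : Function.Surjective f := by
    have h1 : Module.finrank F U = Module.finrank F (U →ₗ[F] F) := (Subspace.dual_finrank_eq (K := F) (V := U)).symm
    exact (LinearMap.injective_iff_surjective_of_finrank_eq_finrank h1).1 hinj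
  obtain ⟨u, hu⟩ := hsurj ((polarBilin Q v).comp U.subtype)
  refine ⟨u, u.2, fun w hw => ?_⟩
  have h1 := LinearMap.congr_fun hu ⟨w, hw⟩
  rw [hf] at h1
  rw [polar_sub_left, h1]
  exact sub_self _

/-- the subspace perpendicular to `U₁` inside `U` -/
def perpIn (Q : QuadraticForm F V) (U U₁ : Submodule F V) : Submodule F V where
  carrier := {v | v ∈ U ∧ ∀ w ∈ U₁, polar Q v w = 0}
  add_mem' h h' := ⟨U.add_mem h.1 h'.1, fun w hw => by rw [polar_add_left, h.2 w hw, h'.2 w hw, add_zero]⟩
  zero_mem' := ⟨U.zero_mem, fun w _ => by rw [polar_zero_left]⟩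
  smul_mem' c v h := ⟨U.smul_mem c h.1, fun w hw => by rw [polar_smul_left, h.2 w hw, smul_zero]⟩

theorem mem_perpIn {U U₁ : Submodule F V} {v : V} : v ∈ perpIn Q U U₁ ↔ v ∈ U ∧ ∀ w ∈ U₁, polar Q v w = 0 := Iff.rfl

/-- a building block: `g = refl x * refl y` inverts `M` on `U₁` -/
structure Piece (Q : QuadraticForm F V) (M : V →ₗ[F] V) (U₁ : Submodule F V) (x y : V) : Prop where
  inv : ∀ u ∈ U₁, M u ∈ U₁
  nd : Nd Q U₁
  ne : Q x ≠ 0
  ne' : Q y ≠ 0
  neg : Q y = -Q x
  hx : x ∈ U₁
  hy : y ∈ U₁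
  rel : ∀ u ∈ U₁, (refl Q x ne * refl Q y ne') (M u) = -M ((refl Q x ne * refl Q y ne') u)
  rk : Module.finrank F (U₁.map M) = 2

/-- `refl x * refl y` for orthogonal `x`, `y` -/
theorem refl_refl_apply {x y : V} (hx : Q x ≠ 0) (hy : Q y ≠ 0) (hxy : polar Q x y = 0) (v : V) :
    (refl Q x hx * refl Q y hy) v = v - ((Q x)⁻¹ * polar Q x v) • x - ((Q y)⁻¹ * polar Q y v) • y := by
  show refl Q x hx (refl Q y hy v) = _
  rw [refl_apply, refl_apply, polar_sub_right, polar_smul_right, hxy, smul_zero, sub_zero, sub_right_comm]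

theorem refl_perp {x : V} (hx : Q x ≠ 0) {v : V} (h1 : polar Q x v = 0) : refl Q x hx v = v := by
  rw [refl_apply, h1, mul_zero, zero_smul, sub_zero]

theorem refl_refl_perp {x y : V} (hx : Q x ≠ 0) (hy : Q y ≠ 0) {v : V} (h1 : polar Q x v = 0)
    (h2 : polar Q y v = 0) : (refl Q x hx * refl Q y hy) v = v := by
  show refl Q x hx (refl Q y hy v) = _
  rw [refl_perp hy h2, refl_perp hx h1]

theorem refl_mem {x : V} (hx : Q x ≠ 0) {U : Submodule F V} (hxU : x ∈ U) {v : V} (hv : v ∈ U) :
    refl Q x hx v ∈ U := by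
  rw [refl_apply]; exact U.sub_mem hv (U.smul_mem _ hxU)

theorem finrank_pair {p q : V} (h : ∀ a b : F, a • p + b • q = 0 → a = 0 ∧ b = 0) :
    Module.finrank F (Submodule.span F {p, q}) = 2 := by
  have h1 : LinearIndependent F ![p, q] := LinearIndependent.pair_iff.2 h
  have h2 := finrank_span_eq_card h1
  have h3 : Set.range ![p, q] = {p, q} := by
    simp only [Matrix.range_cons, Matrix.range_empty, Set.union_empty, Set.singleton_union]
  rw [h3, Fintype.card_fin] at h2
  exact h2

theorem Skw.sq {M : V →ₗ[F] V} (h : Skw Q M) (u v : V) : polar Q (M (M u)) v = polar Q u (M (M v)) := by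
  rw [h, h, neg_neg]

theorem Skw.self (h2 : (2 : F) ≠ 0) {M : V →ₗ[F] V} (h : Skw Q M) (u : V) : polar Q u (M u) = 0 := by
  have h1 := h u u
  rw [polar_comm] at h1
  have h3 : (2 : F) * polar Q u (M u) = 0 := by linear_combination h1
  exact (mul_eq_zero.1 h3).resolve_left h2

theorem Q_eq_zero (h2 : (2 : F) ≠ 0) {u : V} (h : polar Q u u = 0) : Q u = 0 := by
  rw [polar_self'] at h
  exact (mul_eq_zero.1 h).resolve_left h2

/-- a block of size three -/
theorem piece_three (h2 : (2 : F) ≠ 0) {M : V →ₗ[F] V} (hM : Skw Q M) (hM3 : ∀ v, M (M (M v)) = 0) {U : Submodule F V}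
    (hi : ∀ u ∈ U, M u ∈ U) {u : V} (hu : u ∈ U) (hb : polar Q u (M (M u)) ≠ 0) :
    ∃ (U₁ : Submodule F V) (x y : V), U₁ ≤ U ∧ Piece Q M U₁ x y := by
  obtain ⟨β, hβ⟩ : ∃ β, β = polar Q u (M (M u)) := ⟨_, rfl⟩
  rw [← hβ] at hb
  obtain ⟨f, hf⟩ : ∃ f, f = M (M u) := ⟨_, rfl⟩
  obtain ⟨e, he⟩ : ∃ e, e = u - (β⁻¹ * Q u) • f := ⟨_, rfl⟩
  have hMf : M f = 0 := by rw [hf, hM3]
  have hMe : M (M e) = f := by rw [he, map_sub, map_sub, map_smul, map_smul, hMf, map_zero, smul_zero, sub_zero, ← hf]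
  have hff : polar Q f f = 0 := by
    nth_rewrite 1 [hf]
    rw [hM.sq, hMf, map_zero, polar_zero_right]
  have hQf : Q f = 0 := Q_eq_zero h2 hff
  have huf : polar Q u f = β := by rw [hf, hβ]
  have hef : polar Q e f = β := by rw [he, polar_sub_left, polar_smul_left, hff, smul_zero, sub_zero, huf]
  have hfe : polar Q f e = β := by rw [polar_comm]; exact hef
  have hQe : Q e = 0 := by
    rw [he, sub_eq_add_neg, ← neg_smul, Q_add, QuadraticMap.map_smul, hQf, polar_smul_right, huf, smul_eq_mul,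
      smul_eq_mul]
    field_simp
    ring
  have hee : polar Q e e = 0 := polar_self_of_sing hQe
  have hem : polar Q e (M e) = 0 := hM.self h2 e
  have hme : polar Q (M e) e = 0 := by rw [polar_comm]; exact hem
  have hmm : polar Q (M e) (M e) = -β := by rw [hM, hMe, hef]
  have hfm : polar Q f (M e) = 0 := by
    have := hM f e
    rw [hMf, polar_zero_left] at this
    rw [← neg_eq_zero, ← this]
  have hmf : polar Q (M e) f = 0 := by rw [polar_comm]; exact hfm
  have hQx : Q (e + f) = β := by rw [Q_add, hQe, hQf, hef]; ring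
  have hQy : Q (e - f) = -β := by
    rw [sub_eq_add_neg, Q_add, QuadraticMap.map_neg, hQe, hQf, polar_neg_right, hef]; ring
  have hx : Q (e + f) ≠ 0 := by rw [hQx]; exact hb
  have hy : Q (e - f) ≠ 0 := by rw [hQy]; exact neg_ne_zero.2 hb
  have hxy : polar Q (e + f) (e - f) = 0 := by
    rw [polar_add_left, polar_sub_right, polar_sub_right, hee, hef, hfe, hff]; ring
  have hg : ∀ v, (refl Q _ hx * refl Q _ hy) v = v - (β⁻¹ * polar Q (e + f) v) • (e + f)
      - ((-β)⁻¹ * polar Q (e - f) v) • (e - f) := by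
    intro v
    rw [refl_refl_apply hx hy hxy, hQx, hQy]
  have hge : (refl Q _ hx * refl Q _ hy) e = -e := by
    rw [hg, polar_add_left, polar_sub_left, hee, hfe, zero_add, zero_sub, inv_mul_cancel₀ hb,
      inv_mul_cancel₀ (neg_ne_zero.2 hb)]
    module
  have hgf : (refl Q _ hx * refl Q _ hy) f = -f := by
    have e1 : (-β)⁻¹ * β = -1 := by
      rw [inv_neg, neg_mul, inv_mul_cancel₀ hb]
    rw [hg, polar_add_left, polar_sub_left, hef, hff, add_zero, sub_zero, inv_mul_cancel₀ hb, e1]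
    module
  have hgm : (refl Q _ hx * refl Q _ hy) (M e) = M e := by
    apply refl_refl_perp
    · rw [polar_add_left, hem, hfm, add_zero]
    · rw [polar_sub_left, hem, hfm, sub_zero]
  have heU : e ∈ U := by
    rw [he]
    refine U.sub_mem hu (U.smul_mem _ ?_)
    rw [hf]; exact hi _ (hi _ hu)
  have hmU : M e ∈ U := hi _ heU
  have hfU : f ∈ U := by rw [hf]; exact hi _ (hi _ hu)
  have hMspan : ∀ a b c : F, M (a • e + b • M e + c • f) = a • M e + b • f := by
    intro a b c
    rw [map_add, map_add, map_smul, map_smul, map_smul, hMe, hMf, smul_zero, add_zero]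
  have hind : ∀ a b : F, a • M e + b • f = 0 → a = 0 ∧ b = 0 := by
    intro a b h
    constructor
    · have h1 := congrArg (polar Q (M e)) h
      rw [polar_add_right, polar_smul_right, polar_smul_right, hmm, hmf, smul_zero, add_zero, polar_zero_right,
        smul_eq_mul] at h1
      rcases mul_eq_zero.1 h1 with h3 | h3
      · exact h3
      · exact absurd (neg_eq_zero.1 h3) hb
    · have h1 := congrArg (polar Q e) h
      rw [polar_add_right, polar_smul_right, polar_smul_right, hem, hef, smul_zero, zero_add, polar_zero_right,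
        smul_eq_mul] at h1
      exact (mul_eq_zero.1 h1).resolve_right hb
  have hmem : ∀ a b c : F, a • e + b • M e + c • f ∈ Submodule.span F {e, M e, f} := fun a b c =>
    Submodule.mem_span_triple.2 ⟨a, b, c, rfl⟩
  refine ⟨Submodule.span F {e, M e, f}, e + f, e - f, ?_, ?_, ?_, hx, hy, by rw [hQx, hQy], ?_, ?_, ?_, ?_⟩
  · rw [Submodule.span_le]
    rintro v (rfl | rfl | rfl)
    · exact heU
    · exact hmU
    · exact hfU
  · intro v hv
    obtain ⟨a, b, c, rfl⟩ := Submodule.mem_span_triple.1 hv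
    rw [hMspan]
    have := hmem 0 a b
    rwa [zero_smul, zero_add] at this
  · intro v hv h
    obtain ⟨a, b, c, rfl⟩ := Submodule.mem_span_triple.1 hv
    have h1 := h f (by have := hmem 0 0 1; rwa [zero_smul, zero_smul, zero_add, zero_add, one_smul] at this)
    have h3 := h (M e) (by have := hmem 0 1 0; rwa [zero_smul, zero_smul, zero_add, add_zero, one_smul] at this)
    have h4 := h e (by have := hmem 1 0 0; rwa [zero_smul, zero_smul, add_zero, add_zero, one_smul] at this)
    simp only [polar_add_left, polar_smul_left, hef, hmf, hff, hem, hmm, hfm, hee, hme, hfe, smul_eq_mul, mul_zero,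
      add_zero, zero_add] at h1 h3 h4
    have ha : a = 0 := (mul_eq_zero.1 h1).resolve_right hb
    have hb' : b = 0 := (mul_eq_zero.1 h3).resolve_right (neg_ne_zero.2 hb)
    have hc : c = 0 := (mul_eq_zero.1 h4).resolve_right hb
    rw [ha, hb', hc, zero_smul, zero_smul, zero_smul, add_zero, add_zero]
  · have := hmem 1 0 1; rwa [zero_smul, one_smul, one_smul, add_zero] at this
  · have := hmem 1 0 (-1); rwa [zero_smul, one_smul, neg_one_smul, add_zero, ← sub_eq_add_neg] at this
  · intro v hv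
    obtain ⟨a, b, c, rfl⟩ := Submodule.mem_span_triple.1 hv
    rw [hMspan]
    simp only [map_add, map_smul, hge, hgf, hgm, hMe, hMf, map_neg]
    module
  · have h1 : (Submodule.span F {e, M e, f}).map M = Submodule.span F {M e, f} := by
      rw [Submodule.map_span, Set.image_insert_eq, Set.image_pair, hMe, hMf]
      apply le_antisymm
      · rw [Submodule.span_le]
        rintro v (rfl | rfl | rfl)
        · exact Submodule.subset_span (Set.mem_insert _ _)
        · exact Submodule.subset_span (Set.mem_insert_of_mem _ rfl)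
        · exact Submodule.zero_mem _
      · apply Submodule.span_mono
        rintro v (rfl | rfl)
        · exact Set.mem_insert _ _
        · exact Set.mem_insert_of_mem _ (Set.mem_insert _ _)
    rw [h1]
    exact finrank_pair hind

/-- a pair of blocks of size two -/
theorem piece_four (h2 : (2 : F) ≠ 0) {M : V →ₗ[F] V} (hM : Skw Q M) {U : Submodule F V}
    (hi : ∀ u ∈ U, M u ∈ U) (hM2 : ∀ u ∈ U, M (M u) = 0) {u w : V} (hu : u ∈ U) (hw : w ∈ U)
    (hb : polar Q u (M w) ≠ 0) : ∃ (U₁ : Submodule F V) (x y : V), U₁ ≤ U ∧ Piece Q M U₁ x y := by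
  -- normalise
  obtain ⟨e, d, heU, hdU, hed⟩ : ∃ e d, e ∈ U ∧ d ∈ U ∧ polar Q e (M d) = 1 := by
    refine ⟨(polar Q u (M w))⁻¹ • u, w, U.smul_mem _ hu, hw, ?_⟩
    rw [polar_smul_left, smul_eq_mul, inv_mul_cancel₀ hb]
  have hMM : ∀ u ∈ U, ∀ v, polar Q (M u) (M v) = 0 := by
    intro u hu v
    have h1 := hM (M u) v
    rw [hM2 u hu, polar_zero_left] at h1
    rw [← neg_eq_zero, ← h1]
  have hQM : ∀ u ∈ U, Q (M u) = 0 := fun u hu => Q_eq_zero h2 (hMM u hu u)
  obtain ⟨a, haU, hMa, hQa⟩ : ∃ a, a ∈ U ∧ M a = M e ∧ Q a = 0 := by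
    refine ⟨e - Q e • M d, U.sub_mem heU (U.smul_mem _ (hi _ hdU)), ?_, ?_⟩
    · rw [map_sub, map_smul, hM2 d hdU, smul_zero, sub_zero]
    · rw [sub_eq_add_neg, ← neg_smul, Q_add, QuadraticMap.map_smul, hQM d hdU, polar_smul_right, hed, smul_eq_mul,
        smul_eq_mul]
      ring
  have had : polar Q a (M d) = 1 := by
    have h1 := hM a d
    rw [hMa, hM, hed] at h1
    linear_combination h1
  obtain ⟨b, hbU, hMb, hQb⟩ : ∃ b, b ∈ U ∧ M b = M d ∧ Q b = 0 := by
    refine ⟨d + Q d • M a, U.add_mem hdU (U.smul_mem _ (hi _ haU)), ?_, ?_⟩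
    · rw [map_add, map_smul, hM2 a haU, smul_zero, add_zero]
    · have h1 : polar Q d (M a) = -1 := by
        have h3 := hM a d
        rw [had, polar_comm] at h3
        exact h3
      rw [Q_add, QuadraticMap.map_smul, hQM a haU, polar_smul_right, h1, smul_eq_mul, smul_eq_mul]
      ring
  have hab1 : polar Q a (M b) = 1 := by rw [hMb]; exact had
  obtain ⟨b', hb'U, hMb', hQb', hab'⟩ : ∃ b', b' ∈ U ∧ M b' = M b ∧ Q b' = 0 ∧ polar Q a b' = 0 := by
    refine ⟨b - polar Q a b • M b, U.sub_mem hbU (U.smul_mem _ (hi _ hbU)), ?_, ?_, ?_⟩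
    · rw [map_sub, map_smul, hM2 b hbU, smul_zero, sub_zero]
    · rw [sub_eq_add_neg, ← neg_smul, Q_add, QuadraticMap.map_smul, hQM b hbU, hQb, polar_smul_right,
        hM.self h2 b, smul_zero, smul_zero, add_zero, add_zero]
    · rw [polar_sub_right, polar_smul_right, hab1, smul_eq_mul, mul_one, sub_self]
  clear hed hQb hMb had
  have hab : polar Q a (M b') = 1 := by rw [hMb']; exact hab1
  clear hMb' hab1 hMa
  -- pairings
  have hba : polar Q b' (M a) = -1 := by
    have h3 := hM a b'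
    rw [hab, polar_comm] at h3
    exact h3
  have p1 : polar Q a a = 0 := polar_self_of_sing hQa
  have p2 : polar Q b' b' = 0 := polar_self_of_sing hQb'
  have p3 : polar Q b' a = 0 := by rw [polar_comm]; exact hab'
  have p4 : polar Q a (M a) = 0 := hM.self h2 a
  have p5 : polar Q b' (M b') = 0 := hM.self h2 b'
  have p6 : polar Q (M a) a = 0 := by rw [polar_comm]; exact p4
  have p7 : polar Q (M b') b' = 0 := by rw [polar_comm]; exact p5
  have p8 : polar Q (M a) b' = -1 := by rw [polar_comm]; exact hba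
  have p9 : polar Q (M b') a = 1 := by rw [polar_comm]; exact hab
  have q1 := hMM a haU a
  have q2 := hMM a haU b'
  have q3 := hMM b' hb'U a
  have q4 := hMM b' hb'U b'
  have hMa2 := hM2 a haU
  have hMb2 := hM2 b' hb'U
  have hQx : Q (b' + M a) = -1 := by rw [Q_add, hQb', hQM a haU, hba]; ring
  have hQy : Q (b' - M a) = 1 := by
    rw [sub_eq_add_neg, Q_add, QuadraticMap.map_neg, hQb', hQM a haU, polar_neg_right, hba]; ring
  have hx : Q (b' + M a) ≠ 0 := by rw [hQx]; exact neg_ne_zero.2 one_ne_zero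
  have hy : Q (b' - M a) ≠ 0 := by rw [hQy]; exact one_ne_zero
  have hxy : polar Q (b' + M a) (b' - M a) = 0 := by
    rw [polar_add_left, polar_sub_right, polar_sub_right, p2, hba, p8, q1]; ring
  have hg : ∀ v, (refl Q _ hx * refl Q _ hy) v = v - ((-1 : F)⁻¹ * polar Q (b' + M a) v) • (b' + M a)
      - ((1 : F)⁻¹ * polar Q (b' - M a) v) • (b' - M a) := by
    intro v
    rw [refl_refl_apply hx hy hxy, hQx, hQy]
  have hm1 : ((-1 : F))⁻¹ = -1 := by rw [inv_neg, inv_one]
  have hgb : (refl Q _ hx * refl Q _ hy) b' = -b' := by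
    rw [hg, polar_add_left, polar_sub_left, p2, p8, hm1, inv_one]
    module
  have hgm : (refl Q _ hx * refl Q _ hy) (M a) = -M a := by
    rw [hg, polar_add_left, polar_sub_left, hba, q1, hm1, inv_one]
    module
  have hga : (refl Q _ hx * refl Q _ hy) a = a := by
    apply refl_refl_perp
    · rw [polar_add_left, p3, p6, add_zero]
    · rw [polar_sub_left, p3, p6, sub_zero]
  have hgn : (refl Q _ hx * refl Q _ hy) (M b') = M b' := by
    apply refl_refl_perp
    · rw [polar_add_left, p5, q2, add_zero]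
    · rw [polar_sub_left, p5, q2, sub_zero]
  obtain ⟨U₁, hU₁⟩ : ∃ U₁ : Submodule F V, U₁ = Submodule.span F {a, b'} ⊔ Submodule.span F {M a, M b'} := ⟨_, rfl⟩
  have hm : ∀ v, v ∈ U₁ ↔ ∃ r s t k : F, v = r • a + s • b' + (t • M a + k • M b') := by
    intro v
    rw [hU₁, Submodule.mem_sup]
    constructor
    · rintro ⟨y, hy, z, hz, rfl⟩
      obtain ⟨r, s, rfl⟩ := Submodule.mem_span_pair.1 hy
      obtain ⟨t, k, rfl⟩ := Submodule.mem_span_pair.1 hz
      exact ⟨r, s, t, k, rfl⟩
    · rintro ⟨r, s, t, k, rfl⟩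
      exact ⟨_, Submodule.mem_span_pair.2 ⟨r, s, rfl⟩, _, Submodule.mem_span_pair.2 ⟨t, k, rfl⟩, rfl⟩
  have hMspan : ∀ r s t k : F, M (r • a + s • b' + (t • M a + k • M b')) = r • M a + s • M b' := by
    intro r s t k
    simp only [map_add, map_smul, hMa2, hMb2, smul_zero, add_zero]
  have hind : ∀ r s : F, r • M a + s • M b' = 0 → r = 0 ∧ s = 0 := by
    intro r s h
    constructor
    · have h1 := congrArg (polar Q b') h
      rw [polar_add_right, polar_smul_right, polar_smul_right, hba, p5, smul_zero, add_zero, polar_zero_right,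
        smul_eq_mul, mul_neg_one, neg_eq_zero] at h1
      exact h1
    · have h1 := congrArg (polar Q a) h
      rw [polar_add_right, polar_smul_right, polar_smul_right, hab, p4, smul_zero, zero_add, polar_zero_right,
        smul_eq_mul, mul_one] at h1
      exact h1
  refine ⟨U₁, b' + M a, b' - M a, ?_, ?_, ?_, hx, hy, by rw [hQx, hQy, neg_neg], ?_, ?_, ?_, ?_⟩
  · intro v hv
    obtain ⟨r, s, t, k, rfl⟩ := (hm v).1 hv
    exact U.add_mem (U.add_mem (U.smul_mem _ haU) (U.smul_mem _ hb'U))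
      (U.add_mem (U.smul_mem _ (hi _ haU)) (U.smul_mem _ (hi _ hb'U)))
  · intro v hv
    obtain ⟨r, s, t, k, rfl⟩ := (hm v).1 hv
    rw [hMspan, hm]
    exact ⟨0, 0, r, s, by module⟩
  · intro v hv h
    obtain ⟨r, s, t, k, rfl⟩ := (hm v).1 hv
    have h1 := h (M b') ((hm _).2 ⟨0, 0, 0, 1, by module⟩)
    have h3 := h (M a) ((hm _).2 ⟨0, 0, 1, 0, by module⟩)
    have h4 := h a ((hm _).2 ⟨1, 0, 0, 0, by module⟩)
    have h5 := h b' ((hm _).2 ⟨0, 1, 0, 0, by module⟩)
    simp only [polar_add_left, polar_smul_left, hab, hab', hba, p1, p2, p3, p4, p5, p6, p7, p8, p9, q1, q2, q3, q4,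
      smul_eq_mul, mul_zero, add_zero, zero_add, mul_one, mul_neg, neg_eq_zero] at h1 h3 h4 h5
    rw [h1, h3, h4, h5]
    module
  · exact (hm _).2 ⟨0, 1, 1, 0, by module⟩
  · exact (hm _).2 ⟨0, 1, -1, 0, by module⟩
  · intro v hv
    obtain ⟨r, s, t, k, rfl⟩ := (hm v).1 hv
    rw [hMspan]
    simp only [map_add, map_smul, hga, hgb, hgm, hgn, hMa2, hMb2, map_neg]
    module
  · have h1 : U₁.map M = Submodule.span F {M a, M b'} := by
      apply le_antisymm
      · rintro _ ⟨v, hv, rfl⟩
        obtain ⟨r, s, t, k, rfl⟩ := (hm v).1 hv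
        rw [hMspan]
        exact Submodule.mem_span_pair.2 ⟨r, s, rfl⟩
      · intro v hv
        obtain ⟨r, s, rfl⟩ := Submodule.mem_span_pair.1 hv
        exact ⟨r • a + s • b' + ((0 : F) • M a + (0 : F) • M b'), (hm _).2 ⟨r, s, 0, 0, rfl⟩, hMspan r s 0 0⟩
    rw [h1]
    exact finrank_pair hind

/-- every nonzero skew nilpotent map with cube zero has a piece -/
theorem exists_piece (h2 : (2 : F) ≠ 0) {M : V →ₗ[F] V} (hM : Skw Q M) (hM3 : ∀ v, M (M (M v)) = 0) {U : Submodule F V}
    (hU : Nd Q U) (hi : ∀ u ∈ U, M u ∈ U) (hne : ∃ u ∈ U, M u ≠ 0) :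
    ∃ (U₁ : Submodule F V) (x y : V), U₁ ≤ U ∧ Piece Q M U₁ x y := by
  by_cases h : ∃ u ∈ U, M (M u) ≠ 0
  · obtain ⟨u, hu, hu0⟩ := h
    obtain ⟨w, hw, hwu⟩ : ∃ w ∈ U, polar Q (M (M u)) w ≠ 0 := by
      by_contra hcon
      push Not at hcon
      exact hu0 (hU _ (hi _ (hi _ hu)) hcon)
    by_cases h1 : polar Q u (M (M u)) = 0
    · by_cases h3 : polar Q w (M (M w)) = 0
      · refine piece_three h2 hM hM3 hi (U.add_mem hu hw) ?_
        have h4 : polar Q w (M (M u)) = polar Q u (M (M w)) := by rw [← hM.sq, polar_comm]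
        have h5 : polar Q u (M (M w)) ≠ 0 := by rw [← hM.sq]; exact hwu
        rw [map_add, map_add, polar_add_left, polar_add_right, polar_add_right, h1, h3, h4, zero_add, add_zero,
          ← two_mul]
        exact mul_ne_zero h2 h5
      · exact piece_three h2 hM hM3 hi hw h3
    · exact piece_three h2 hM hM3 hi hu h1
  · push Not at h
    obtain ⟨u, hu, hu0⟩ := hne
    obtain ⟨w, hw, hwu⟩ : ∃ w ∈ U, polar Q (M u) w ≠ 0 := by
      by_contra hcon
      push Not at hcon
      exact hu0 (hU _ (hi _ hu) hcon)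
    refine piece_four h2 hM hi h hw hu ?_
    rw [polar_comm]; exact hwu

end Skew

end Cfsg.Agent.H502.Car
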