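import Cfsg.Agent.H502.Car.Real

/-!
# Reality of elements of order three in characteristic three, second part (helper502, S3852)

* `exists_inverting` : `z ∈ O(Q)`, `z³ = 1`: there is `h ∈ O(Q)` of determinant one inverting `z`, with known spinor sign;
* `real_of_hyp`, `real_of_rank`, `real_of_parity`.
-/

set_option autoImplicit false
set_option linter.unusedSectionVars false

namespace Cfsg.Agent.H502.Car

open QuadraticMap Cfsg.Agent.LieClassical.OrthCore Cfsg.Agent.LieClassical.OrthTrans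
open Cfsg.Agent.FooteOrth

section Inverted

variable {F : Type*} [Field F] [Finite F] {ι : Type} [Fintype ι] [DecidableEq ι] {Q : QuadraticForm F (ι → F)}

open Classical in
/-- the spinor sign of `refl x * refl y`, `Q y = - Q x` -/
noncomputable def eta (F : Type*) [Field F] : ℤˣ := if IsSquare (-1 : F) then 1 else -1

theorem isSquare_mul_iff {a b : F} (h2 : (2 : F) ≠ 0) (ha : a ≠ 0) (hb : b ≠ 0) :
    IsSquare (a * b) ↔ (IsSquare a ↔ IsSquare b) := by
  classical
  have := Fintype.ofFinite F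
  have hF : ringChar F ≠ 2 := by
    intro h
    apply h2
    have := ringChar.Nat.cast_ringChar (R := F)
    rw [h] at this
    exact_mod_cast this
  constructor
  · intro hab
    constructor
    · intro h
      obtain ⟨c, hc⟩ := hab
      obtain ⟨d, rfl⟩ := h
      have hd : d ≠ 0 := by rintro rfl; exact ha (mul_zero 0)
      exact ⟨c / d, by field_simp; linear_combination hc⟩
    · intro h
      obtain ⟨c, hc⟩ := hab
      obtain ⟨d, rfl⟩ := h
      have hd : d ≠ 0 := by rintro rfl; exact hb (mul_zero 0)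
      exact ⟨c / d, by field_simp; linear_combination hc⟩
  · intro h
    by_cases h1 : IsSquare a
    · exact h1.mul (h.1 h1)
    · have h3 : ¬ IsSquare b := fun h3 => h1 (h.2 h3)
      have e1 := quadraticChar_neg_one_iff_not_isSquare.2 h1
      have e2 := quadraticChar_neg_one_iff_not_isSquare.2 h3
      have e3 : quadraticChar F (a * b) = 1 := by rw [map_mul, e1, e2]; norm_num
      exact (quadraticChar_one_iff_isSquare (mul_ne_zero ha hb)).1 e3

theorem sg_refl' (h2 : (2 : F) ≠ 0) {v : ι → F} (hv : Q v ≠ 0) :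
    sg Q ⟨refl Q v hv, refl_mem_O hv⟩ = by classical exact if IsSquare (Q v) then -1 else 1 := by
  classical
  rw [sg_refl h2 hv]

theorem sg_refl_sq (h2 : (2 : F) ≠ 0) {v : ι → F} (hv : Q v ≠ 0) (h : IsSquare (Q v)) :
    sg Q ⟨refl Q v hv, refl_mem_O hv⟩ = -1 := by
  rw [sg_refl' h2 hv, if_pos h]

theorem sg_refl_nsq (h2 : (2 : F) ≠ 0) {v : ι → F} (hv : Q v ≠ 0) (h : ¬ IsSquare (Q v)) :
    sg Q ⟨refl Q v hv, refl_mem_O hv⟩ = 1 := by
  rw [sg_refl' h2 hv, if_neg h]

theorem sg_refl_refl (h2 : (2 : F) ≠ 0) {x y : ι → F} (hx : Q x ≠ 0) (hy : Q y ≠ 0) :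
    sg Q ⟨refl Q x hx * refl Q y hy, mul_mem (refl_mem_O hx) (refl_mem_O hy)⟩ =
      by classical exact if IsSquare (Q x * Q y) then 1 else -1 := by
  classical
  have e : (⟨refl Q x hx * refl Q y hy, mul_mem (refl_mem_O hx) (refl_mem_O hy)⟩ : O Q) =
      ⟨refl Q x hx, refl_mem_O hx⟩ * ⟨refl Q y hy, refl_mem_O hy⟩ := rfl
  rw [e, map_mul]
  by_cases h1 : IsSquare (Q x)
  · by_cases h3 : IsSquare (Q y)
    · rw [sg_refl_sq h2 hx h1, sg_refl_sq h2 hy h3, if_pos ((isSquare_mul_iff h2 hx hy).2 (iff_of_true h1 h3))]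
      norm_num
    · rw [sg_refl_sq h2 hx h1, sg_refl_nsq h2 hy h3, if_neg]
      · norm_num
      · rw [isSquare_mul_iff h2 hx hy]; tauto
  · by_cases h3 : IsSquare (Q y)
    · rw [sg_refl_nsq h2 hx h1, sg_refl_sq h2 hy h3, if_neg]
      · norm_num
      · rw [isSquare_mul_iff h2 hx hy]; tauto
    · rw [sg_refl_nsq h2 hx h1, sg_refl_nsq h2 hy h3, if_pos ((isSquare_mul_iff h2 hx hy).2 (iff_of_false h1 h3))]
      norm_num

theorem sg_refl_neg (h2 : (2 : F) ≠ 0) {x y : ι → F} (hx : Q x ≠ 0) (hy : Q y ≠ 0) (h : Q y = -Q x) :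
    sg Q ⟨refl Q x hx * refl Q y hy, mul_mem (refl_mem_O hx) (refl_mem_O hy)⟩ = eta F := by
  classical
  have e : IsSquare (Q x * Q y) ↔ IsSquare (-1 : F) := by
    have e1 : Q x * Q y = (Q x * Q x) * (-1) := by rw [h]; ring
    rw [e1, isSquare_mul_iff h2 (mul_ne_zero hx hx) (neg_ne_zero.2 one_ne_zero)]
    exact ⟨fun h => h.1 ⟨_, rfl⟩, fun h => iff_of_true ⟨_, rfl⟩ h⟩
  rw [sg_refl_refl h2 hx hy, eta]
  by_cases h3 : IsSquare (-1 : F)
  · rw [if_pos (e.2 h3), if_pos h3]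
  · rw [if_neg fun h => h3 (e.1 h), if_neg h3]

/-- `M` is inverted on `U` by an isometry of determinant one, trivial on `U^⊥` -/
def Inverted (Q : QuadraticForm F (ι → F)) (M : (ι → F) →ₗ[F] (ι → F)) (U : Submodule F (ι → F)) : Prop :=
  ∃ (h : (ι → F) ≃ₗ[F] (ι → F)) (hO : h ∈ O Q), (∀ v, (∀ u ∈ U, polar Q v u = 0) → h v = v) ∧ (∀ u ∈ U, h u ∈ U) ∧
    (∀ u ∈ U, h (M u) = -M (h u)) ∧ LinearEquiv.det h = 1 ∧
    ∃ m, Module.finrank F (U.map M) = 2 * m ∧ sg Q ⟨h, hO⟩ = eta F ^ m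

theorem inverted_step (h2 : (2 : F) ≠ 0) {M : (ι → F) →ₗ[F] (ι → F)} (hM : Skw Q M) {U U₁ : Submodule F (ι → F)}
    {x y : ι → F} (hle : U₁ ≤ U) (hi : ∀ u ∈ U, M u ∈ U) (hp : Piece Q M U₁ x y)
    (h : Inverted Q M (perpIn Q U U₁)) : Inverted Q M U := by
  obtain ⟨k, hkO, hk1, hk2, hk3, hk4, m, hm, hk5⟩ := h
  obtain ⟨g, hg⟩ : ∃ g, g = refl Q x hp.ne * refl Q y hp.ne' := ⟨_, rfl⟩
  have hgO : g ∈ O Q := by rw [hg]; exact mul_mem (refl_mem_O _) (refl_mem_O _)
  have hgperp : ∀ v, (∀ u ∈ U₁, polar Q v u = 0) → g v = v := by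
    intro v hv
    rw [hg]
    exact refl_refl_perp hp.ne hp.ne' (by rw [polar_comm]; exact hv x hp.hx) (by rw [polar_comm]; exact hv y hp.hy)
  have hgU : ∀ u ∈ U, g u ∈ U := by
    intro u hu
    rw [hg]
    exact refl_mem hp.ne (hle hp.hx) (refl_mem hp.ne' (hle hp.hy) hu)
  -- decomposition
  have hdec : ∀ u ∈ U, ∃ a ∈ U₁, ∃ b ∈ perpIn Q U U₁, u = a + b := by
    intro u hu
    obtain ⟨a, ha, hau⟩ := exists_proj hp.nd u
    exact ⟨a, ha, u - a, ⟨U.sub_mem hu (hle ha), hau⟩, by abel⟩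
  have hk1' : ∀ a ∈ U₁, k a = a := by
    intro a ha
    apply hk1
    intro u hu
    rw [polar_comm]
    exact hu.2 a ha
  have hi2 : ∀ b ∈ perpIn Q U U₁, M b ∈ perpIn Q U U₁ := by
    intro b hb
    refine ⟨hi b hb.1, fun w hw => ?_⟩
    rw [hM, hb.2 _ (hp.inv w hw), neg_zero]
  refine ⟨g * k, mul_mem hgO hkO, ?_, ?_, ?_, ?_, m + 1, ?_, ?_⟩
  · intro v hv
    show g (k v) = v
    rw [hk1 v fun u hu => hv u hu.1]
    exact hgperp v fun u hu => hv u (hle hu)
  · intro u hu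
    obtain ⟨a, ha, b, hb, rfl⟩ := hdec u hu
    show g (k (a + b)) ∈ U
    rw [map_add, hk1' a ha]
    exact hgU _ (U.add_mem (hle ha) (hk2 b hb).1)
  · intro u hu
    obtain ⟨a, ha, b, hb, rfl⟩ := hdec u hu
    show g (k (M (a + b))) = -M (g (k (a + b)))
    have e1 : g (k b) = k b := hgperp _ (hk2 b hb).2
    have e2 : g (k (M b)) = k (M b) := hgperp _ (hk2 _ (hi2 b hb)).2
    have e3 : g (M a) = -M (g a) := by rw [hg]; exact hp.rel a ha
    rw [map_add, map_add, map_add, map_add, map_add, map_add, hk1' a ha, hk1' _ (hp.inv a ha), e1, e2, e3, hk3 b hb]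
    abel
  · rw [map_mul, hk4, mul_one, hg, map_mul, det_refl, det_refl]
    norm_num
  · have e1 : U.map M = U₁.map M ⊔ (perpIn Q U U₁).map M := by
      rw [← Submodule.map_sup]
      congr 1
      apply le_antisymm
      · intro u hu
        obtain ⟨a, ha, b, hb, rfl⟩ := hdec u hu
        exact Submodule.add_mem_sup ha hb
      · exact sup_le hle fun v hv => hv.1
    have e2 : U₁.map M ⊓ (perpIn Q U U₁).map M = ⊥ := by
      rw [eq_bot_iff]
      rintro v ⟨hv1, hv2⟩
      obtain ⟨a, ha, rfl⟩ := hv1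
      obtain ⟨b, hb, hab⟩ := hv2
      have h3 := hi2 b hb
      rw [hab] at h3
      exact hp.nd _ (hp.inv a ha) h3.2
    have e3 := Submodule.finrank_sup_add_finrank_inf_eq (U₁.map M) ((perpIn Q U U₁).map M)
    rw [e2, finrank_bot, add_zero, ← e1, hp.rk, hm] at e3
    omega
  · have e1 : (⟨g * k, mul_mem hgO hkO⟩ : O Q) = ⟨g, hgO⟩ * ⟨k, hkO⟩ := rfl
    have e2 : sg Q ⟨g, hgO⟩ = eta F := by
      subst hg
      exact sg_refl_neg h2 hp.ne hp.ne' hp.neg
    rw [e1, map_mul, hk5, e2, pow_succ']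

theorem inverted (h2 : (2 : F) ≠ 0) {M : (ι → F) →ₗ[F] (ι → F)} (hM : Skw Q M) (hM3 : ∀ v, M (M (M v)) = 0) :
    ∀ (n : ℕ) (U : Submodule F (ι → F)), Module.finrank F U ≤ n → Nd Q U → (∀ u ∈ U, M u ∈ U) → Inverted Q M U := by
  intro n
  induction n with
  | zero =>
    intro U hU hn hi
    have h1 : U = ⊥ := by
      rw [← Submodule.finrank_eq_zero (R := F)]; omega
    subst h1
    refine ⟨1, one_mem _, fun v _ => rfl, fun u hu => hu, ?_, map_one _, 0, ?_, ?_⟩
    · intro u hu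
      rw [Submodule.mem_bot] at hu
      rw [hu, map_zero]
      show (0 : ι → F) = -M 0
      rw [map_zero, neg_zero]
    · rw [Submodule.map_bot, finrank_bot]
    · rw [pow_zero]; exact map_one _
  | succ n ih =>
    intro U hU hn hi
    by_cases h0 : ∃ u ∈ U, M u ≠ 0
    · obtain ⟨U₁, x, y, hle, hp⟩ := exists_piece h2 hM hM3 hn hi h0
      refine inverted_step h2 hM hle hi hp (ih _ ?_ ?_ ?_)
      · have h1 : perpIn Q U U₁ < U := by
          refine lt_of_le_of_ne (fun v hv => hv.1) fun h => ?_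
          have h3 : x ∈ perpIn Q U U₁ := by rw [h]; exact hle hp.hx
          have h4 : polar Q x x = 0 := h3.2 x hp.hx
          exact hp.ne (Q_eq_zero h2 h4)
        have := Submodule.finrank_lt_finrank_of_lt h1
        omega
      · intro v hv h
        apply hn v hv.1
        intro u hu
        obtain ⟨a, ha, hau⟩ := exists_proj hp.nd u
        have h3 : u - a ∈ perpIn Q U U₁ := ⟨U.sub_mem hu (hle ha), hau⟩
        have h4 := h _ h3
        rw [polar_sub_right, hv.2 a ha, sub_zero] at h4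
        exact h4
      · intro b hb
        refine ⟨hi b hb.1, fun w hw => ?_⟩
        rw [hM, hb.2 _ (hp.inv w hw), neg_zero]
    · push Not at h0
      refine ⟨1, one_mem _, fun v _ => rfl, fun u hu => hu, ?_, map_one _, 0, ?_, ?_⟩
      · intro u hu
        rw [h0 u hu, map_zero]
        show (0 : ι → F) = -M u
        rw [h0 u hu, neg_zero]
      · have : U.map M = ⊥ := by
          rw [eq_bot_iff]
          rintro _ ⟨u, hu, rfl⟩
          rw [h0 u hu]; exact Submodule.zero_mem _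
        rw [this, finrank_bot]
      · rw [pow_zero]; exact map_one _

end Inverted

end Cfsg.Agent.H502.Car
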