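import Cfsg.Agent.H502.Car.RealB
import Cfsg.Agent.H502.Car.Kill

/-!
# Reality of elements of order three in characteristic three, third part (helper502, S3852)
-/

set_option autoImplicit false
set_option linter.unusedSectionVars false

namespace Cfsg.Agent.H502.Car

open QuadraticMap Cfsg.Agent.LieClassical.OrthCore Cfsg.Agent.LieClassical.OrthTrans
  Cfsg.Agent.LieClassical.OrthFinite
open Cfsg.Agent.FooteOrth

section Log

variable {F V : Type*} [Field F] [AddCommGroup V] [Module F V] {Q : QuadraticForm F V}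

/-- the logarithm of an element of order three in characteristic three -/
def lg (z : V ≃ₗ[F] V) : V →ₗ[F] V := (z : V →ₗ[F] V).comp (z : V →ₗ[F] V) - (z : V →ₗ[F] V)

theorem lg_apply (z : V ≃ₗ[F] V) (v : V) : lg z v = z (z v) - z v := rfl

theorem three_eq [CharP F 3] : (3 : F) = 0 := by
  have := CharP.cast_eq_zero F 3
  exact_mod_cast this

theorem two_ne [CharP F 3] : (2 : F) ≠ 0 := by
  intro h
  have h1 : ((2 : ℕ) : F) = 0 := by exact_mod_cast h
  rw [CharP.cast_eq_zero_iff F 3] at h1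
  omega

theorem three_smul_eq [CharP F 3] (v : V) : (3 : F) • v = 0 := by rw [three_eq, zero_smul]

variable {z : V ≃ₗ[F] V}

theorem zzz (hz : z ^ 3 = 1) (v : V) : z (z (z v)) = v := by
  have := LinearEquiv.congr_fun hz v
  exact this

theorem lg_lg [CharP F 3] (hz : z ^ 3 = 1) (v : V) : lg z (lg z v) = z (z v) + z v + v := by
  rw [lg_apply, lg_apply, map_sub, map_sub, zzz hz, zzz hz v]
  have : z v - v - (v - z (z v)) = z (z v) + z v + v - (3 : F) • v := by module
  rw [this, three_smul_eq, sub_zero]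

theorem lg_three [CharP F 3] (hz : z ^ 3 = 1) (v : V) : lg z (lg z (lg z v)) = 0 := by
  rw [lg_lg hz, lg_apply, map_sub, map_sub, zzz hz, zzz hz]
  abel

theorem z_eq_lg [CharP F 3] (hz : z ^ 3 = 1) (v : V) : z v = v + lg z v - lg z (lg z v) := by
  rw [lg_lg hz, lg_apply]
  have : v + (z (z v) - z v) - (z (z v) + z v + v) = z v - (3 : F) • z v := by module
  rw [this, three_smul_eq, sub_zero]

theorem zz_eq_lg [CharP F 3] (hz : z ^ 3 = 1) (v : V) : z (z v) = v - lg z v - lg z (lg z v) := by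
  rw [lg_lg hz, lg_apply]
  have : v - (z (z v) - z v) - (z (z v) + z v + v) = z (z v) - (3 : F) • z (z v) := by module
  rw [this, three_smul_eq, sub_zero]

theorem skw_lg (hzO : z ∈ O Q) (hz : z ^ 3 = 1) : Skw Q (lg z) := by
  have h1 : ∀ u v, polar Q (z u) v = polar Q u (z (z v)) := by
    intro u v
    have := polar_map hzO u (z (z v))
    rw [zzz hz] at this
    exact this
  intro u v
  rw [lg_apply, lg_apply, polar_sub_left, polar_sub_right, h1, h1, h1, zzz hz]
  ring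

/-- an isometry inverting the logarithm inverts `z` -/
theorem conj_of_lg [CharP F 3] (hz : z ^ 3 = 1) {h : V ≃ₗ[F] V} (hh : ∀ v, h (lg z v) = -lg z (h v)) :
    h * z * h⁻¹ = z⁻¹ := by
  have e1 : z⁻¹ = z * z := by
    rw [inv_eq_iff_mul_eq_one, ← mul_assoc, ← pow_three', hz]
  rw [e1, mul_inv_eq_iff_eq_mul]
  ext v
  show h (z v) = z (z (h v))
  rw [z_eq_lg hz v, zz_eq_lg hz, map_sub, map_add, hh v, hh (lg z v), hh v, map_neg, neg_neg]
  abel

/-- an isometry commuting with the logarithm commutes with `z` -/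
theorem comm_of_lg [CharP F 3] (hz : z ^ 3 = 1) {h : V ≃ₗ[F] V} (hh : ∀ v, h (lg z v) = lg z (h v)) :
    h * z = z * h := by
  ext v
  show h (z v) = z (h v)
  rw [z_eq_lg hz v, z_eq_lg hz (h v), map_sub, map_add, hh, hh, hh]

end Log

section Real

variable {F : Type*} [Field F] [Finite F] {ι : Type} [Fintype ι] [DecidableEq ι] {Q : QuadraticForm F (ι → F)}

/-- every element of order three is inverted by an isometry of determinant one -/
theorem exists_inverting [CharP F 3] (hQ : Nondeg Q) {z : (ι → F) ≃ₗ[F] (ι → F)} (hzO : z ∈ O Q) (hz : z ^ 3 = 1) :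
    ∃ (h : (ι → F) ≃ₗ[F] (ι → F)) (hO : h ∈ O Q), h * z * h⁻¹ = z⁻¹ ∧ LinearEquiv.det h = 1 ∧
      ∃ m, Module.finrank F (LinearMap.range ((z : (ι → F) →ₗ[F] (ι → F)) - LinearMap.id)) = 2 * m ∧
        sg Q ⟨h, hO⟩ = eta F ^ m := by
  obtain ⟨h, hO, -, -, h1, h2, m, hm, h3⟩ := inverted two_ne (skw_lg hzO hz) (lg_three hz) _ (⊤ : Submodule F (ι → F))
    le_rfl (fun u _ hu => hQ u fun v => hu v Submodule.mem_top) (fun u _ => Submodule.mem_top)
  refine ⟨h, hO, conj_of_lg hz fun v => h1 v Submodule.mem_top, h2, m, ?_, h3⟩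
  have e1 : (⊤ : Submodule F (ι → F)).map (lg z) = LinearMap.range ((z : (ι → F) →ₗ[F] (ι → F)) - LinearMap.id) := by
    ext v
    constructor
    · rintro ⟨u, -, rfl⟩
      exact ⟨z u, rfl⟩
    · rintro ⟨u, rfl⟩
      exact ⟨z.symm u, Submodule.mem_top, by
        rw [lg_apply, LinearEquiv.apply_symm_apply]; rfl⟩
  rw [← e1, hm]

theorem real_of_sg [CharP F 3] (hG : Good Q) {z h : (ι → F) ≃ₗ[F] (ι → F)} (hO : h ∈ O Q) (h1 : h * z * h⁻¹ = z⁻¹)
    (h2 : LinearEquiv.det h = 1) (h3 : sg Q ⟨h, hO⟩ = 1) : ∃ h ∈ E Q, h * z * h⁻¹ = z⁻¹ :=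
  ⟨h, (mem_E_iff hG two_ne hO).2 ⟨h2, h3⟩, h1⟩

/-- an isometry in the centraliser with nontrivial spinor sign makes `z` real -/
theorem real_of_comm [CharP F 3] (hG : Good Q) {z y : (ι → F) ≃ₗ[F] (ι → F)} (hzO : z ∈ O Q) (hz : z ^ 3 = 1)
    (hy : y ∈ O Q) (hyz : y * z = z * y) (hyd : LinearEquiv.det y = 1) (hys : sg Q ⟨y, hy⟩ = -1) :
    ∃ h ∈ E Q, h * z * h⁻¹ = z⁻¹ := by
  obtain ⟨h, hO, h1, h2, m, -, h3⟩ := exists_inverting hG.nondeg hzO hz
  rcases Int.units_eq_one_or (sg Q ⟨h, hO⟩) with h4 | h4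
  · exact real_of_sg hG hO h1 h2 h4
  · refine real_of_sg hG (mul_mem hO hy) (h := h * y) ?_ (by rw [map_mul, h2, hyd, mul_one]) ?_
    · have : h * y * z * (h * y)⁻¹ = h * (y * z * y⁻¹) * h⁻¹ := by group
      rw [this, hyz, mul_inv_cancel_right, h1]
    · have e1 : (⟨h * y, mul_mem hO hy⟩ : O Q) = ⟨h, hO⟩ * ⟨y, hy⟩ := rfl
      rw [e1, map_mul, h4, hys]; norm_num

theorem ringChar_ne [CharP F 3] : ringChar F ≠ 2 := by
  rw [ringChar.eq F 3]; norm_num

theorem exists_nonsq [CharP F 3] : ∃ c : F, ¬ IsSquare c := by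
  have := Fintype.ofFinite F
  exact FiniteField.exists_nonsquare ringChar_ne

theorem refl_fix {V : Type*} [AddCommGroup V] [Module F V] {Q : QuadraticForm F V} {z : V ≃ₗ[F] V} (hzO : z ∈ O Q)
    {v : V} (hv : Q v ≠ 0) (h : z v = v) : z * refl Q v hv = refl Q v hv * z := by
  have h1 := refl_conj hzO hv (by rw [h]; exact hv)
  rw [← mul_inv_eq_iff_eq_mul]
  rw [h1]
  congr 1

theorem real_of_hyp [CharP F 3] (hG : Good Q) : RealHyp Q := by
  rintro z hzO hz ⟨a, b, hab, ha, hb⟩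
  obtain ⟨c, hc⟩ := exists_nonsq (F := F)
  have hc0 : c ≠ 0 := by rintro rfl; exact hc ⟨0, (mul_zero 0).symm⟩
  have h1 : Q (a + b) = 1 := by rw [Q_add, hab.left, hab.right, hab.pair]; ring
  have h3 : Q (a + c • b) = c := by
    rw [Q_add, QuadraticMap.map_smul, hab.left, hab.right, polar_smul_right, hab.pair, smul_eq_mul, smul_eq_mul]; ring
  have h1' : Q (a + b) ≠ 0 := by rw [h1]; exact one_ne_zero
  have h3' : Q (a + c • b) ≠ 0 := by rw [h3]; exact hc0
  have e1 := refl_fix hzO h1' (by rw [map_add, ha, hb])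
  have e2 := refl_fix hzO h3' (by rw [map_add, map_smul, ha, hb])
  refine real_of_comm hG hzO hz (y := refl Q _ h1' * refl Q _ h3') (mul_mem (refl_mem_O _) (refl_mem_O _)) ?_ ?_ ?_
  · rw [mul_assoc, ← e2, ← mul_assoc, ← e1, mul_assoc]
  · rw [map_mul, det_refl, det_refl]; norm_num
  · rw [sg_refl_refl two_ne, if_neg]
    rw [h1, h3, one_mul]; exact hc

/-- the hyperbolic pair exists if the fixed space is large -/
theorem exists_hyp_ker [CharP F 3] (hQ : Nondeg Q) {z : (ι → F) ≃ₗ[F] (ι → F)} (hzO : z ∈ O Q) (hz : z ^ 3 = 1)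
    {R : Submodule F (ι → F)} (hR : ∀ v, z v = v → (∃ u, z u - u = v) → v ∈ R) (hRk : ∀ v ∈ R, z v = v)
    (hd : Module.finrank F R + 3 ≤ Module.finrank F (LinearMap.ker ((z : (ι → F) →ₗ[F] (ι → F)) - LinearMap.id))) :
    ∃ a b, Hyp Q a b ∧ z a = a ∧ z b = b := by
  obtain ⟨k, hk⟩ : ∃ k : Submodule F (ι → F), k = LinearMap.ker ((z : (ι → F) →ₗ[F] (ι → F)) - LinearMap.id) := ⟨_, rfl⟩
  have hmem : ∀ v, v ∈ k ↔ z v = v := by
    intro v
    rw [hk, LinearMap.mem_ker, LinearMap.sub_apply, LinearMap.id_apply, sub_eq_zero]; rfl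
  rw [← hk] at hd
  obtain ⟨C, hC⟩ := Submodule.exists_isCompl (R.comap k.subtype)
  have hRle : R ≤ k := fun v hv => (hmem v).2 (hRk v hv)
  have h1 : Module.finrank F (R.comap k.subtype) = Module.finrank F R :=
    (Submodule.comapSubtypeEquivOfLe hRle).finrank_eq
  have h3 := Submodule.finrank_add_eq_of_isCompl hC
  have h4 : Module.finrank F (C.map k.subtype) = Module.finrank F C :=
    (Submodule.equivMapOfInjective k.subtype k.subtype_injective C).finrank_eq.symm
  obtain ⟨u, hu, hu0, huQ⟩ := exists_sing_mem (Q := Q) (C.map k.subtype) (by omega)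
  obtain ⟨u', hu'C, hu'⟩ := hu
  have hu'' : (u' : ι → F) = u := hu'
  have hzu : z u = u := by rw [← hu'', ← hmem]; exact u'.2
  have huR : u ∉ R := by
    intro h
    have h5 : u' ∈ R.comap k.subtype := by
      show (u' : ι → F) ∈ R
      rw [hu'']; exact h
    have h6 := Submodule.disjoint_def.1 hC.disjoint u' h5 hu'C
    apply hu0
    rw [← hu'', h6]; rfl
  -- `u` is not perpendicular to the fixed space
  obtain ⟨v, hv, huv⟩ : ∃ v, z v = v ∧ polar Q u v ≠ 0 := by
    by_contra hcon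
    push Not at hcon
    apply huR
    refine hR u hzu ?_
    -- `polar u = g ∘ N`
    obtain ⟨N, hN⟩ : ∃ N : (ι → F) →ₗ[F] (ι → F), ∀ v, N v = z v - v :=
      ⟨(z : (ι → F) →ₗ[F] (ι → F)) - LinearMap.id, fun _ => rfl⟩
    have h5 : LinearMap.ker N ≤ LinearMap.ker (polarBilin Q u) := by
      intro v hv
      rw [LinearMap.mem_ker, hN, sub_eq_zero] at hv
      rw [LinearMap.mem_ker, polarBilin_apply_apply]
      exact hcon v hv
    obtain ⟨g, hg⟩ := LinearMap.exists_extend ((LinearMap.ker N).liftQ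
      (polarBilin Q u) h5 ∘ₗ N.quotKerEquivRange.symm.toLinearMap)
    obtain ⟨w, hw⟩ := polar_surj hQ g
    have h6 : ∀ v, polar Q u v = polar Q w (z v - v) := by
      intro v
      rw [hw, ← hN]
      have h7 := LinearMap.congr_fun hg ⟨N v, LinearMap.mem_range_self _ v⟩
      have h8 : g (N v) = ((LinearMap.ker N).liftQ (polarBilin Q u) h5)
        (N.quotKerEquivRange.symm ⟨N v, LinearMap.mem_range_self _ v⟩) := h7
      rw [h8, LinearMap.quotKerEquivRange_symm_apply_image, Submodule.mkQ_apply, Submodule.liftQ_apply,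
        polarBilin_apply_apply]
    -- hence `u = (z⁻¹ - 1) w`
    refine ⟨-(z (z w)), ?_⟩
    have h7 : ∀ v, polar Q (u - (z (z w) - w)) v = 0 := by
      intro v
      have h8 := polar_map hzO (z (z w)) v
      rw [zzz hz] at h8
      rw [polar_sub_left, polar_sub_left, h6 v, polar_sub_right, h8]
      ring
    have h8 := sub_eq_zero.1 (hQ _ h7)
    rw [map_neg, zzz hz, h8]
    abel
  -- the hyperbolic pair
  obtain ⟨v', hv', huv'⟩ : ∃ v', z v' = v' ∧ polar Q u v' = 1 :=
    ⟨(polar Q u v)⁻¹ • v, by rw [map_smul, hv], by rw [polar_smul_right, smul_eq_mul, inv_mul_cancel₀ huv]⟩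
  refine ⟨u, v' - Q v' • u, ⟨huQ, ?_, ?_⟩, hzu, ?_⟩
  · have h4 : polar Q v' u = 1 := by rw [polar_comm]; exact huv'
    rw [sub_eq_add_neg, ← neg_smul, Q_add, QuadraticMap.map_smul, huQ, polar_smul_right, h4, smul_eq_mul, smul_eq_mul]
    ring
  · rw [polar_sub_right, polar_smul_right, polar_self_of_sing huQ, huv', smul_zero, sub_zero]
  · rw [map_sub, map_smul, hv', hzu]

end Real

end Cfsg.Agent.H502.Car
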