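import Cfsg.Agent.H502.Car.RealC

/-!
# Reality of elements of order three in characteristic three, fourth part (helper502, S3852)

* `real_of_rank` : `rank (z - 1)² ≥ 2` implies real in `E Q`.
-/

set_option autoImplicit false
set_option linter.unusedSectionVars false

namespace Cfsg.Agent.H502.Car

open QuadraticMap Cfsg.Agent.LieClassical.OrthCore Cfsg.Agent.LieClassical.OrthTrans
  Cfsg.Agent.LieClassical.OrthFinite
open Cfsg.Agent.FooteOrth

variable {F : Type*} [Field F] [Finite F] {ι : Type} [Fintype ι] [DecidableEq ι] {Q : QuadraticForm F (ι → F)}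

theorem block_neg [CharP F 3] {M : (ι → F) →ₗ[F] (ι → F)} (hM : Skw Q M) (hM3 : ∀ v, M (M (M v)) = 0) {u : ι → F}
    (hb : polar Q u (M (M u)) ≠ 0) :
    ∃ (y : (ι → F) ≃ₗ[F] (ι → F)) (hy : y ∈ O Q), (∀ v, y (M v) = M (y v)) ∧ LinearEquiv.det y = -1 ∧
      sg Q ⟨y, hy⟩ = by classical exact if IsSquare (-polar Q u (M (M u))) then -1 else 1 := by
  classical
  have h2 : (2 : F) ≠ 0 := two_ne
  obtain ⟨β, hβ⟩ : ∃ β, β = polar Q u (M (M u)) := ⟨_, rfl⟩
  rw [← hβ] at hb ⊢
  obtain ⟨f, hf⟩ : ∃ f, f = M (M u) := ⟨_, rfl⟩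
  obtain ⟨e, he⟩ : ∃ e, e = u - (β⁻¹ * Q u) • f := ⟨_, rfl⟩
  have hMf : M f = 0 := by rw [hf, hM3]
  have hMe : M (M e) = f := by rw [he, map_sub, map_sub, map_smul, map_smul, hMf, map_zero, smul_zero, sub_zero, ← hf]
  have hff : polar Q f f = 0 := by
    nth_rewrite 1 [hf]
    rw [hM.sq, hMf, map_zero, polar_zero_right]
  have hQf : Q f = 0 := Q_eq_zero h2 hff
  have huf : polar Q u f = β := by rw [hf, hβ]
  have hef : polar Q e f = β := by rw [he, polar_sub_left, polar_smul_left, hff, smul_zero, sub_zero, huf]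
  have hfe : polar Q f e = β := by rw [polar_comm]; exact hef
  have hQe : Q e = 0 := by
    rw [he, sub_eq_add_neg, ← neg_smul, Q_add, QuadraticMap.map_smul, hQf, polar_smul_right, huf, smul_eq_mul,
      smul_eq_mul]
    field_simp
    ring
  have hee : polar Q e e = 0 := polar_self_of_sing hQe
  have hem : polar Q e (M e) = 0 := hM.self h2 e
  have hme : polar Q (M e) e = 0 := by rw [polar_comm]; exact hem
  have hmm : polar Q (M e) (M e) = -β := by rw [hM, hMe, hef]
  have hfm : polar Q f (M e) = 0 := by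
    have := hM f e
    rw [hMf, polar_zero_left] at this
    rw [← neg_eq_zero, ← this]
  have hmf : polar Q (M e) f = 0 := by rw [polar_comm]; exact hfm
  have hQm : Q (M e) = β := by
    have h3 := hmm
    rw [polar_self'] at h3
    have h4 : (3 : F) = 0 := three_eq
    linear_combination -h3 + Q (M e) * h4
  have hQx : Q (e + f) = β := by rw [Q_add, hQe, hQf, hef]; ring
  have hQy : Q (e - f) = -β := by
    rw [sub_eq_add_neg, Q_add, QuadraticMap.map_neg, hQe, hQf, polar_neg_right, hef]; ring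
  have hx : Q (e + f) ≠ 0 := by rw [hQx]; exact hb
  have hy : Q (e - f) ≠ 0 := by rw [hQy]; exact neg_ne_zero.2 hb
  have hm : Q (M e) ≠ 0 := by rw [hQm]; exact hb
  have hxy : polar Q (e + f) (e - f) = 0 := by
    rw [polar_add_left, polar_sub_right, polar_sub_right, hee, hef, hfe, hff]; ring
  have hg : ∀ v, (refl Q _ hx * refl Q _ hy) v = v - (β⁻¹ * polar Q (e + f) v) • (e + f)
      - ((-β)⁻¹ * polar Q (e - f) v) • (e - f) := by
    intro v
    rw [refl_refl_apply hx hy hxy, hQx, hQy]
  have hge : (refl Q _ hx * refl Q _ hy) e = -e := by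
    rw [hg, polar_add_left, polar_sub_left, hee, hfe, zero_add, zero_sub, inv_mul_cancel₀ hb,
      inv_mul_cancel₀ (neg_ne_zero.2 hb)]
    module
  have hgf : (refl Q _ hx * refl Q _ hy) f = -f := by
    have e1 : (-β)⁻¹ * β = -1 := by
      rw [inv_neg, neg_mul, inv_mul_cancel₀ hb]
    rw [hg, polar_add_left, polar_sub_left, hef, hff, add_zero, sub_zero, inv_mul_cancel₀ hb, e1]
    module
  have hgm : (refl Q _ hx * refl Q _ hy) (M e) = M e := by
    apply refl_refl_perp
    · rw [polar_add_left, hem, hfm, add_zero]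
    · rw [polar_sub_left, hem, hfm, sub_zero]
  obtain ⟨y, hy0⟩ : ∃ y, y = refl Q _ hm * (refl Q _ hx * refl Q _ hy) := ⟨_, rfl⟩
  have hyv : ∀ v, y v = refl Q _ hm ((refl Q _ hx * refl Q _ hy) v) := fun v => by rw [hy0]; rfl
  have hye : y e = -e := by
    rw [hyv, hge, map_neg, refl_perp hm hme]
  have hyf : y f = -f := by
    rw [hyv, hgf, map_neg, refl_perp hm hmf]
  have hym : y (M e) = -M e := by
    rw [hyv, hgm, refl_apply, hmm, hQm]
    have e1 : β⁻¹ * -β = -1 := by rw [mul_neg, inv_mul_cancel₀ hb]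
    rw [e1]
    have : M e - (-1 : F) • M e = -M e + (3 : F) • M e := by module
    rw [this, three_smul_eq, add_zero]
  have hyp : ∀ v, polar Q e v = 0 → polar Q (M e) v = 0 → polar Q f v = 0 → y v = v := by
    intro v h1 h3 h4
    rw [hyv, refl_refl_perp hx hy (by rw [polar_add_left, h1, h4, add_zero]) (by rw [polar_sub_left, h1, h4, sub_zero]),
      refl_perp hm h3]
  have hyO : y ∈ O Q := by
    rw [hy0]; exact mul_mem (refl_mem_O _) (mul_mem (refl_mem_O _) (refl_mem_O _))
  refine ⟨y, hyO, ?_, ?_, ?_⟩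
  · intro v
    -- decompose `v`
    obtain ⟨w, hw⟩ : ∃ w, w = v - (β⁻¹ * polar Q f v) • e - (-β⁻¹ * polar Q (M e) v) • M e - (β⁻¹ * polar Q e v) • f :=
      ⟨_, rfl⟩
    have hb' : β⁻¹ * β = 1 := inv_mul_cancel₀ hb
    have w1 : polar Q e w = 0 := by
      rw [hw]
      simp only [polar_sub_right, polar_smul_right, hee, hem, hef, smul_eq_mul]
      linear_combination (-polar Q e v) * hb'
    have w3 : polar Q (M e) w = 0 := by
      rw [hw]
      simp only [polar_sub_right, polar_smul_right, hme, hmm, hmf, smul_eq_mul]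
      linear_combination (-polar Q (M e) v) * hb'
    have w4 : polar Q f w = 0 := by
      rw [hw]
      simp only [polar_sub_right, polar_smul_right, hfe, hfm, hff, smul_eq_mul]
      linear_combination (-polar Q f v) * hb'
    have hyw : y w = w := hyp w w1 w3 w4
    have hyMw : y (M w) = M w := by
      apply hyp
      · have := hM e w
        rw [w3] at this
        rw [← neg_eq_zero, ← this]
      · have := hM (M e) w
        rw [hMe, w4] at this
        rw [← neg_eq_zero, ← this]
      · have := hM f w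
        rw [hMf, polar_zero_left] at this
        rw [← neg_eq_zero, ← this]
    have hv : v = (β⁻¹ * polar Q f v) • e + (-β⁻¹ * polar Q (M e) v) • M e + (β⁻¹ * polar Q e v) • f + w := by
      rw [hw]; abel
    rw [hv]
    simp only [map_add, map_smul, hye, hyf, hym, hyw, hyMw, hMe, hMf, map_neg, map_zero, neg_zero]
  · rw [hy0, map_mul, map_mul, det_refl, det_refl, det_refl]
    norm_num
  · have e1 : (⟨y, hyO⟩ : O Q) = ⟨refl Q _ hm, refl_mem_O hm⟩ *
        ⟨refl Q _ hx * refl Q _ hy, mul_mem (refl_mem_O hx) (refl_mem_O hy)⟩ := Subtype.ext hy0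
    rw [e1, map_mul, sg_refl_refl h2 hx hy, hQx, hQy, sg_refl' h2 hm, hQm]
    have e2 := isSquare_mul_iff h2 hb (neg_ne_zero.2 hb)
    by_cases h3 : IsSquare β
    · by_cases h4 : IsSquare (-β)
      · rw [if_pos h3, if_pos (e2.2 (iff_of_true h3 h4)), if_pos h4]; norm_num
      · rw [if_pos h3, if_neg (fun h => h4 ((e2.1 h).1 h3)), if_neg h4]; norm_num
    · by_cases h4 : IsSquare (-β)
      · rw [if_neg h3, if_neg (fun h => h3 ((e2.1 h).2 h4)), if_pos h4]; norm_num
      · rw [if_neg h3, if_pos (e2.2 (iff_of_false h3 h4)), if_neg h4]; norm_num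

/-- two vectors of different classes -/
theorem exists_two [CharP F 3] (hQ : Nondeg Q) {M : (ι → F) →ₗ[F] (ι → F)} (hM : Skw Q M)
    (hr : 2 ≤ Module.finrank F (LinearMap.range (M.comp M))) :
    ∃ u v : ι → F, polar Q u (M (M u)) ≠ 0 ∧ polar Q v (M (M v)) ≠ 0 ∧
      ¬ IsSquare (polar Q u (M (M u)) * polar Q v (M (M v))) := by
  have h2 : (2 : F) ≠ 0 := two_ne
  by_contra hcon
  push Not at hcon
  have hsym : ∀ u v, polar Q v (M (M u)) = polar Q u (M (M v)) := fun u v => by rw [← hM.sq, polar_comm]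
  obtain ⟨u, hu⟩ : ∃ u, polar Q u (M (M u)) ≠ 0 := by
    by_contra h0
    push Not at h0
    have h3 : ∀ v, M (M v) = 0 := by
      intro v
      apply hQ
      intro w
      have h4 := h0 (v + w)
      rw [map_add, map_add, polar_add_left, polar_add_right, polar_add_right, h0 v, h0 w, hsym v w, zero_add, add_zero,
        ← two_mul] at h4
      rw [hM.sq]
      exact (mul_eq_zero.1 h4).resolve_left h2
    have h4 : LinearMap.range (M.comp M) = ⊥ := by
      rw [eq_bot_iff]
      rintro _ ⟨v, rfl⟩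
      exact h3 v
    rw [h4, finrank_bot] at hr
    omega
  obtain ⟨β, hβ⟩ : ∃ β, β = polar Q u (M (M u)) := ⟨_, rfl⟩
  rw [← hβ] at hu
  have h3 : ∀ v, polar Q u (M (M v)) = 0 → polar Q v (M (M v)) = 0 := by
    intro v hv
    by_contra h4
    obtain ⟨c, hc⟩ := exists_nonsq (F := F)
    have hc0 : c ≠ 0 := by rintro rfl; exact hc ⟨0, (mul_zero 0).symm⟩
    have := Fintype.ofFinite F
    obtain ⟨x, y, hxy⟩ := FiniteField.exists_root_sum_quadratic (R := F)
      (f := Polynomial.C β * Polynomial.X ^ 2) (g := Polynomial.C (polar Q v (M (M v))) * Polynomial.X ^ 2 -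
        Polynomial.C (c * β)) (Polynomial.degree_C_mul_X_pow 2 hu)
      (by
        rw [Polynomial.degree_sub_C]
        · exact Polynomial.degree_C_mul_X_pow 2 h4
        · rw [Polynomial.degree_C_mul_X_pow 2 h4]; norm_num) (FiniteField.odd_card_of_char_ne_two ringChar_ne)
    simp only [Polynomial.eval_mul, Polynomial.eval_C, Polynomial.eval_pow, Polynomial.eval_X, Polynomial.eval_sub] at hxy
    have h5 : polar Q (x • u + y • v) (M (M (x • u + y • v))) = c * β := by
      rw [map_add, map_add, map_smul, map_smul, map_smul, map_smul, polar_add_left, polar_add_right, polar_add_right,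
        polar_smul_left, polar_smul_left, polar_smul_left, polar_smul_left, polar_smul_right, polar_smul_right,
        polar_smul_right, polar_smul_right, hsym u v, hv, ← hβ]
      simp only [smul_eq_mul]
      linear_combination hxy
    have h6 := hcon u (x • u + y • v) (by rw [← hβ]; exact hu) (by rw [h5]; exact mul_ne_zero hc0 hu)
    rw [h5, ← hβ] at h6
    have e1 : β * (c * β) = (β * β) * c := by ring
    rw [e1, isSquare_mul_iff h2 (mul_ne_zero hu hu) hc0] at h6
    exact hc (h6.1 ⟨β, rfl⟩)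
  have h4 : ∀ v, polar Q u (M (M v)) = 0 → M (M v) = 0 := by
    intro v hv
    apply hQ
    intro w
    rw [hM.sq]
    obtain ⟨w', hw'⟩ : ∃ w', w' = w - (β⁻¹ * polar Q u (M (M w))) • u := ⟨_, rfl⟩
    have h5 : polar Q u (M (M w')) = 0 := by
      rw [hw', map_sub, map_sub, map_smul, map_smul, polar_sub_right, polar_smul_right, ← hβ, smul_eq_mul]
      field_simp
      ring
    have h6 := h3 (v + w') (by rw [map_add, map_add, polar_add_right, hv, h5, add_zero])
    rw [map_add, map_add, polar_add_left, polar_add_right, polar_add_right, h3 v hv, h3 w' h5, hsym v w', zero_add,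
      add_zero, ← two_mul] at h6
    have h7 := (mul_eq_zero.1 h6).resolve_left h2
    have h8 : polar Q v (M (M w)) = polar Q v (M (M w')) + (β⁻¹ * polar Q u (M (M w))) * polar Q v (M (M u)) := by
      rw [hw', map_sub, map_sub, map_smul, map_smul, polar_sub_right, polar_smul_right, smul_eq_mul]
      ring
    rw [h8, h7, hsym u v, hv, mul_zero, add_zero]
  have h5 : LinearMap.range (M.comp M) ≤ Submodule.span F {M (M u)} := by
    rintro _ ⟨v, rfl⟩
    rw [Submodule.mem_span_singleton]
    refine ⟨β⁻¹ * polar Q u (M (M v)), ?_⟩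
    have h6 := h4 (v - (β⁻¹ * polar Q u (M (M v))) • u) (by
      rw [map_sub, map_sub, map_smul, map_smul, polar_sub_right, polar_smul_right, ← hβ, smul_eq_mul]
      field_simp
      ring)
    rw [map_sub, map_sub, map_smul, map_smul, sub_eq_zero] at h6
    exact h6.symm
  have h6 := Submodule.finrank_mono h5
  have h7 : M (M u) ≠ 0 := by
    intro h
    rw [h, polar_zero_right] at hβ
    exact hu hβ
  rw [finrank_span_singleton h7] at h6
  omega

/-- `rank (z - 1)² ≥ 2`: `z` is real -/
theorem real_of_rank [CharP F 3] (hG : Good Q) {z : (ι → F) ≃ₗ[F] (ι → F)} (hzO : z ∈ O Q) (hz : z ^ 3 = 1)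
    (hr : 2 ≤ Module.finrank F (LinearMap.range ((lg z).comp (lg z)))) : ∃ h ∈ E Q, h * z * h⁻¹ = z⁻¹ := by
  classical
  have h2 : (2 : F) ≠ 0 := two_ne
  have hM := skw_lg hzO hz
  obtain ⟨u, v, hu, hv, huv⟩ := exists_two hG.nondeg hM hr
  obtain ⟨y1, hy1, c1, d1, s1⟩ := block_neg hM (lg_three hz) hu
  obtain ⟨y2, hy2, c2, d2, s3⟩ := block_neg hM (lg_three hz) hv
  refine real_of_comm hG hzO hz (mul_mem hy1 hy2) (comm_of_lg hz fun w => ?_) (by rw [map_mul, d1, d2]; norm_num) ?_
  · show y1 (y2 (lg z w)) = lg z (y1 (y2 w))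
    rw [c2, c1]
  · have e1 : (⟨y1 * y2, mul_mem hy1 hy2⟩ : O Q) = ⟨y1, hy1⟩ * ⟨y2, hy2⟩ := rfl
    rw [e1, map_mul, s1, s3]
    have h3 : ¬ IsSquare (-polar Q u (lg z (lg z u)) * -polar Q v (lg z (lg z v))) := by
      rw [neg_mul_neg]; exact huv
    rw [isSquare_mul_iff h2 (neg_ne_zero.2 hu) (neg_ne_zero.2 hv)] at h3
    by_cases h4 : IsSquare (-polar Q u (lg z (lg z u)))
    · rw [if_pos h4, if_neg (fun h5 => h3 (iff_of_true h4 h5))]; norm_num
    · rw [if_neg h4, if_pos]
      · norm_num
      · by_contra h5; exact h3 (iff_of_false h4 h5)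

end Cfsg.Agent.H502.Car
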