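import Cfsg.Agent.H502.Car.Main
import Cfsg.Agent.AutOrth.Final
import Cfsg.Agent.ClassicalGeometry.OrthSemiForms
import Cfsg.Agent.LieClassical.OrthForms

/-!
# S3852: the rows `PΩ_{2m+1}(q)`, `m ≥ 3`, `PΩ_{2m}^±(q)`, `m ≥ 4`, `q` odd (helper502)

`two_odd`, `two_plus`, `two_minus` : `K ∩ S` is a `2`-group for every Carter subgroup `K`.
-/

set_option autoImplicit false
set_option linter.unusedSectionVars false

namespace Cfsg.Agent.H502.Car

open QuadraticMap Cfsg.Agent.LieClassical.OrthCore Cfsg.Agent.LieClassical.OrthTrans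
  Cfsg.Agent.LieClassical.OrthSimple Cfsg.Agent.LieClassical.OrthForms Cfsg.Agent.ClassicalGeometry.OrthSemi
  Cfsg.Agent.ClassicalGeometry.OrthSemiForms
  Cfsg.Agent.ClassicalGeometry.OrthAut1 Cfsg.Agent.H989.OutOrth.Basic
open Subgroup Pointwise Cfsg.Agent.Solvable.Carter Cfsg.Agent.H18.Carter Cfsg.Agent.H381.Car

universe u

variable {G : Type u} [Group G] [Finite G] {S : Subgroup G} [S.Normal]

theorem pomega_two (hFO : FrameO.{u}) (hFT : FrameTs.{u}) {F : Type} [Field F] [Finite F] {ι : Type} [Fintype ι]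
    [DecidableEq ι] {Q : QuadraticForm F (ι → F)} (h2 : (2 : F) ≠ 0) (hQ : Nondeg Q) (h7 : 7 ≤ Fintype.card ι)
    (hsurj : Function.Surjective (Psi Q)) {q : (ι → F) → F} (hq : ⇑Q = q) (c : Ctx G S) (e : S ≃* Cfsg.POmega F q)
    {K : Subgroup G} (hK : IsCarter K) : IsPGroup 2 ↥(K ⊓ S) := by
  subst hq
  have hG : Good Q := Cfsg.Agent.LieClassical.OrthFinite.good_of_finite hQ (by
    rw [Module.finrank_fintype_fun_eq_card]; omega)
  exact two_of_lifts hFO hFT hG h2 h7 c (e.trans (pomegaEquiv hG)) (fun g => hsurj _) hK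

theorem pomega_two_eight {F : Type} [Field F] [Finite F] {ι : Type} [Fintype ι]
    [DecidableEq ι] {Q : QuadraticForm F (ι → F)} (h2 : (2 : F) ≠ 0) (hQ : Nondeg Q) (h8 : Fintype.card ι = 8)
    {q : (ι → F) → F} (hq : ⇑Q = q) (c : Ctx G S) (e : S ≃* Cfsg.POmega F q)
    {K : Subgroup G} (hK : IsCarter K) : IsPGroup 2 ↥(K ⊓ S) := by
  subst hq
  have hG : Good Q := Cfsg.Agent.LieClassical.OrthFinite.good_of_finite hQ (by
    rw [Module.finrank_fintype_fun_eq_card]; omega)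
  exact two_of_eight hG h2 h8 c (e.trans (pomegaEquiv hG)) hK

theorem two_odd (hFO : FrameO.{u}) (hFT : FrameTs.{u}) {F : Type} [Field F] [Finite F] {m : ℕ} (hm : 3 ≤ m)
    (h2 : (2 : F) ≠ 0) (c : Ctx G S) (e : S ≃* Cfsg.POmega F (Cfsg.quadFormOdd m F)) {K : Subgroup G}
    (hK : IsCarter K) : IsPGroup 2 ↥(K ⊓ S) := by
  refine pomega_two hFO hFT h2 (nondeg_oddForm m F h2) ?_ (Cfsg.Agent.AutOrth.Final.surjective_odd (F := F) hm h2)
    (coe_oddForm m F) c e hK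
  rw [Fintype.card_sum, Fintype.card_sum, Fintype.card_fin, Fintype.card_unit]
  omega

theorem two_plus (hFO : FrameO.{u}) (hFT : FrameTs.{u}) {F : Type} [Field F] [Finite F] {m : ℕ} (hm : 4 ≤ m)
    (h2 : (2 : F) ≠ 0) (c : Ctx G S) (e : S ≃* Cfsg.POmega F (Cfsg.quadFormPlus m F)) {K : Subgroup G}
    (hK : IsCarter K) : IsPGroup 2 ↥(K ⊓ S) := by
  by_cases h4 : m = 4
  · subst h4
    refine pomega_two_eight h2 (nondeg_plusForm 4 F) ?_ (coe_plusForm 4 F) c e hK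
    rw [Fintype.card_sum, Fintype.card_fin]
  · refine pomega_two hFO hFT h2 (nondeg_plusForm m F) ?_
      (Cfsg.Agent.AutOrth.Final.surjective_plus (F := F) (m := m) (by omega)) (coe_plusForm m F) c e hK
    rw [Fintype.card_sum, Fintype.card_fin]
    omega

theorem two_minus (hFO : FrameO.{u}) (hFT : FrameTs.{u}) {F : Type} [Field F] [Finite F] {m : ℕ} (hm : 4 ≤ m)
    {a b : F} (hab : ∀ z₁ z₂ : F, z₁ ^ 2 + a * z₁ * z₂ + b * z₂ ^ 2 = 0 → z₁ = 0 ∧ z₂ = 0)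
    (h2 : (2 : F) ≠ 0) (c : Ctx G S) (e : S ≃* Cfsg.POmega F (Cfsg.quadFormMinus (m - 1) F a b)) {K : Subgroup G}
    (hK : IsCarter K) : IsPGroup 2 ↥(K ⊓ S) := by
  refine pomega_two hFO hFT h2 (nondeg_minusForm (m - 1) F a b hab) ?_
    (Cfsg.Agent.AutOrth.Final.surjective_minus (F := F) (m := m - 1) (by omega) hab) (coe_minusForm (m - 1) F a b) c e hK
  rw [Fintype.card_sum, Fintype.card_sum, Fintype.card_fin, Fintype.card_fin]
  omega

theorem two_ne_of_char {r : ℕ} (hr : r.Prime) (hr2 : r ≠ 2) (F : Type) [Field F] [CharP F r] : (2 : F) ≠ 0 := by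
  intro h2
  have h3 : r ∣ 2 := (CharP.cast_eq_zero_iff F r 2).1 (by exact_mod_cast h2)
  rcases (Nat.dvd_prime Nat.prime_two).1 h3 with h4 | h4
  · exact hr.one_lt.ne' h4
  · exact hr2 h4

/-- **the rows `PΩ`, `q` odd** -/
theorem nrAll_pomega (hF : H381.Car.Fpf.{u}) (hFO : FrameO.{u}) (hFT : FrameTs.{u}) {r : ℕ} (hr : r.Prime) (hr2 : r ≠ 2)
    (c : Ctx G S)
    (h : Cfsg.IsPOmegaOddChar r S ∨ Cfsg.IsPOmegaPlusChar r S ∨ Cfsg.IsPOmegaMinusChar r S) : NrAll S := by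
  refine nrAll_of_two hF c fun K hK => ?_
  rcases h with ⟨F, _, _, _, m, hm, -, ⟨e⟩⟩ | ⟨F, _, _, _, m, hm, ⟨e⟩⟩ | ⟨F, _, _, _, m, a, b, hm, hab, ⟨e⟩⟩
  · exact two_odd hFO hFT hm (two_ne_of_char hr hr2 F) c e hK
  · exact two_plus hFO hFT hm (two_ne_of_char hr hr2 F) c e hK
  · exact two_minus hFO hFT hm hab (two_ne_of_char hr hr2 F) c e hK

end Cfsg.Agent.H502.Car
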